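import Cfsg.Agent.Lib.C3.Bas
import Cfsg.Agent.Lib.U5.Aut

/-!
# S5227: automorphisms of `S`; twisting the system (see notes/C3.md)
-/

set_option autoImplicit false
set_option linter.unusedSectionVars false
set_option linter.unusedVariables false
set_option linter.unusedSimpArgs false
set_option linter.unnecessarySeqFocus false
set_option linter.unusedTactic false
set_option linter.unreachableTactic false

namespace Cfsg.Agent.C3

open Subgroup Cfsg Cfsg.FusionSystem Cfsg.Agent.U5 US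
open scoped commutatorElement

theorem mem_B {x : US} : x ∈ (⊥ : Subgroup US) ↔ x.a = 0 ∧ x.b = 0 ∧ x.c = 0 ∧ x.d = 0 ∧ x.e = 0 ∧
    x.f = 0 ∧ x.g = 0 ∧ x.h = 0 ∧ x.z = 0 := by rw [mem_bot, US.ext_iff]; rfl

section
variable {R : Subgroup US} {γ : MulAut R}

theorem inv_E1 (hR : Z2 ≤ R) (h : Inv γ Z2) : Inv γ E1 :=
  inv_cm Inv.bot h (fun x _ H => by
    simpa [US.ext_iff, mem_E1, two_ne] using H (xh 1) (hR (by simp [mem_Z2])) (by simp [mem_Z2]))
    fun x _ hx y _ hy => by simp [US.ext_iff, mem_E1.1 hx, mem_Z2.1 hy]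

theorem inv_H0 (hR : JJ ≤ R) (h : Inv γ Z4) : Inv γ H0 :=
  (Inv.inf (inv_JJ hR γ) h).congr fun x _ => by simp [mem_JJ, mem_Z4, mem_H0]; tauto

end

section
variable (γ : MulAut (⊤ : Subgroup US))

theorem aut_Z1 : Inv γ Z1 := inv_cm Inv.bot Inv.top (fun x _ H => by
    have ha := H (xa 1) trivial trivial
    have hb := H (xb 1) trivial trivial
    have hd := H (xd 1) trivial trivial
    have he := H (xe 1) trivial trivial
    simp [US.ext_iff, two_ne] at ha hb hd he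
    casesm* _ ∧ _
    simp_all [mem_Z1, two_ne])
  fun x _ hx y _ _ => by simp [US.ext_iff, mem_Z1.1 hx]

theorem aut_Z2 : Inv γ Z2 := inv_cm (aut_Z1 γ) Inv.top (fun x _ H => by
    have ha := H (xa 1) trivial trivial
    have hb := H (xb 1) trivial trivial
    have hd := H (xd 1) trivial trivial
    have he := H (xe 1) trivial trivial
    have hc := H (xc 1) trivial trivial
    simp [mem_Z1, two_ne] at ha hb hd he hc
    casesm* _ ∧ _
    simp_all [mem_Z2, two_ne])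
  fun x _ hx y _ _ => by simp [mem_Z1, mem_Z2.1 hx]

theorem aut_Z3 : Inv γ Z3 := inv_cm (aut_Z2 γ) Inv.top (fun x _ H => by
    have ha := H (xa 1) trivial trivial
    have hb := H (xb 1) trivial trivial
    have hc := H (xc 1) trivial trivial
    simp [mem_Z2, two_ne] at ha hb hc
    casesm* _ ∧ _
    simp_all [mem_Z3, two_ne])
  fun x _ hx y _ _ => by simp [mem_Z2, mem_Z3.1 hx]

theorem aut_Z4 : Inv γ Z4 := inv_cm (aut_Z3 γ) Inv.top (fun x _ H => by
    have ha := H (xa 1) trivial trivial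
    have hb := H (xb 1) trivial trivial
    simp [mem_Z3, two_ne] at ha hb
    casesm* _ ∧ _
    simp_all [mem_Z4, two_ne])
  fun x _ hx y _ _ => by simp [mem_Z3, mem_Z4.1 hx]

theorem aut_E1 : Inv γ E1 := inv_E1 le_top (aut_Z2 γ)

theorem aut_YY : Inv γ YY := inv_cm Inv.bot (aut_E1 γ) (fun x _ H => by
    have hb := H (xb 1) trivial rfl
    have hc := H (xc 1) trivial rfl
    have hd := H (xd 1) trivial rfl
    simp [US.ext_iff, two_ne] at hb hc hd
    casesm* _ ∧ _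
    simp_all [mem_YY, two_ne])
  fun x _ hx y _ hy => by simp [US.ext_iff, mem_YY.1 hx, mem_E1.1 hy]

theorem aut_KK : Inv γ KK := inv_cm (inv_JJ le_top γ) Inv.top (fun x _ H => by
    have ha := H (xa 1) trivial trivial
    have hb := H (xb 1) trivial trivial
    simp [mem_JJ] at ha hb
    exact ⟨hb, ha⟩)
  fun x _ hx y _ _ => by simp [mem_JJ, mem_KK.1 hx]

/-- the characteristic chain -/
def l0 : List (Subgroup US) := [Z1, Z2, YY, Z3, H0, Z4, KK, E1]

theorem l0_mono : Steps (· ≤ ·) ⊥ l0 :=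
  ⟨bot_le, Z1_le_Z2, Z2_le_YY, YY_le_Z3, Z3_le_H0, H0_le_Z4, Z4_le_KK, KK_le_E1, le_top⟩

theorem inv_l0 : ∀ B ∈ l0, Inv γ B := by
  simp only [l0, List.forall_mem_cons, List.not_mem_nil, false_imp_iff, implies_true, and_true]
  exact ⟨aut_Z1 γ, aut_Z2 γ, aut_YY γ, aut_Z3 γ, inv_H0 le_top (aut_Z4 γ), aut_Z4 γ, aut_KK γ,
    aut_E1 γ⟩

/-- The automorphisms trivial on the factors of the chain. -/
def P0 : Subgroup (MulAut (⊤ : Subgroup US)) := H7.chainStab ⊤ _ (chF_mono l0_mono)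

theorem tr_of_gen {A B : Subgroup US} [A.Normal] (hi : Inv γ A) (π : US → F3) {y : US}
    (h1 : ∀ x ∈ B, (y ^ (π x).val)⁻¹ * x ∈ A) (h2 : y⁻¹ * equivFun γ y ∈ A) :
    Tr ⊤ (equivFun γ) A B := fun x _ hx => by
  refine aut_cong hi (h1 x hx) ?_
  rw [(isHomOn_equivFun γ).map_pow (mem_top y), ← QuotientGroup.eq] at *
  rw [QuotientGroup.mk_pow, QuotientGroup.mk_pow, h2]

theorem pow_val (y : US) (t : F3) : y ^ t.val = if t = 0 then 1 else if t = 1 then y else y * y := by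
  rcases f3_cases t with rfl | rfl | rfl
  · rfl
  · exact pow_one y
  · exact pow_two y

theorem mem_P0 (ha : (equivFun γ (xa 1)).a = 1) (hb : (equivFun γ (xb 1)).b = 1)
    (hc : (equivFun γ (xc 1)).c = 1) : γ ∈ P0 := by
  have b1 : (equivFun γ (xb 1)).a = 0 := aut_E1 γ _ trivial rfl
  obtain ⟨c1, c2, c3⟩ := inv_JJ le_top γ (xc 1) trivial ⟨rfl, rfl, rfl⟩
  have e : ∀ x y, equivFun γ ⁅x, y⁆ = ⁅equivFun γ x, equivFun γ y⁆ := fun x y =>
    ef_ce γ trivial trivial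
  have k : ∀ {A B : Subgroup US} [A.Normal] (hi : Inv γ A) (π : US → F3) {y : US} (r : F3 → US)
      (h0 : r 0 = 1 ∧ (r 1)⁻¹ * y ∈ A ∧ (r (-1))⁻¹ * (y * y) ∈ A)
      (h1 : ∀ x ∈ B, (r (π x))⁻¹ * x ∈ A) (h2 : y⁻¹ * equivFun γ y ∈ A),
      Tr ⊤ (equivFun γ) A B := fun hi π y r h0 h1 h2 => tr_of_gen γ hi π (fun x hx => by
    have := h1 x hx
    rw [pow_val]
    rcases f3_cases (π x) with h | h | h <;> rw [h] at this ⊢
    · simpa [h0.1] using this
    · simpa [mul_assoc] using mul_mem (inv_mem h0.2.1) this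
    · rw [if_neg (by decide), if_neg (by decide)]
      simpa [mul_assoc] using mul_mem (inv_mem h0.2.2) this) h2
  refine (H7.mem_chainStab _).2 (chF_step (tr_top _) (l := l0) ⟨?_, ?_, ?_, ?_, ?_, ?_, ?_, ?_, ?_⟩)
  · refine k Inv.bot (fun x => -x.z) (y := ⁅⁅xa 1, xb 1⁆, ⁅xa 1, ⁅xb 1, xc 1⁆⁆⁆) (fun t => xz (-t))
      (by simp only [mem_B]; decide) (fun x hx => by simp [US.ext_iff, mem_Z1.1 hx]) ?_
    simp [e, US.ext_iff, ha, hb, hc, b1, c1, c2, c3]
  · refine k (aut_Z1 γ) US.h (y := ⁅xb 1, ⁅xa 1, ⁅xb 1, xc 1⁆⁆⁆) xh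
      (by simp only [mem_Z1]; decide) (fun x hx => by simp [mem_Z1, mem_Z2.1 hx]) ?_
    simp [e, mem_Z1, ha, hb, hc, b1, c1, c2, c3]
  · refine k (aut_Z2 γ) (fun x => -x.g) (y := ⁅xb 1, ⁅xb 1, xc 1⁆⁆) (fun t => xg (-t))
      (by simp only [mem_Z2]; decide) (fun x hx => by simp [mem_Z2, mem_YY.1 hx]) ?_
    simp [e, mem_Z2, ha, hb, hc, b1, c1, c2, c3]
  · refine k (aut_YY γ) US.f (y := ⁅xa 1, ⁅xb 1, xc 1⁆⁆) xf
      (by simp only [mem_YY]; decide) (fun x hx => by simp [mem_YY, mem_Z3.1 hx]) ?_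
    simp [e, mem_YY, ha, hb, hc, b1, c1, c2, c3]
  · refine k (aut_Z3 γ) US.e (y := ⁅xb 1, xc 1⁆) xe
      (by simp only [mem_Z3]; decide) (fun x hx => by simp [mem_Z3, mem_H0.1 hx]) ?_
    simp [e, mem_Z3, ha, hb, hc, b1, c1, c2, c3]
  · refine k (inv_H0 le_top (aut_Z4 γ)) US.d (y := ⁅xa 1, xb 1⁆) xd
      (by simp only [mem_H0]; decide) (fun x hx => by simp [mem_H0, mem_Z4.1 hx]) ?_
    simp [e, mem_H0, ha, hb, hc, b1, c1, c2, c3]
  · refine k (aut_Z4 γ) US.c (y := xc 1) xc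
      (by simp only [mem_Z4]; decide) (fun x hx => by simp [mem_Z4, mem_KK.1 hx]) ?_
    simp [mem_Z4, hc, c1, c2]
  · refine k (aut_KK γ) US.b (y := xb 1) xb
      (by simp only [mem_KK]; decide) (fun x hx => by simp [mem_KK, mem_E1.1 hx]) ?_
    simp [mem_KK, hb, b1]
  · refine k (aut_E1 γ) US.a (y := xa 1) xa
      (by simp only [mem_E1]; decide) (fun x hx => by simp [mem_E1]) ?_
    simp [mem_E1, ha]

theorem P0_abc {γ : MulAut (⊤ : Subgroup US)} (h : γ ∈ P0) : (equivFun γ (xa 1)).a = 1 ∧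
    (equivFun γ (xb 1)).b = 1 ∧ (equivFun γ (xc 1)).c = 1 := by
  obtain ⟨-, -, -, -, -, -, h1, h2, h3⟩ := steps_of (P := Tr ⊤ (equivFun γ)) (A := ⊥) (l := l0)
    ((H7.mem_chainStab _).1 h)
  have k1 := (h1 (xc 1) trivial ⟨rfl, rfl⟩).2.2
  have k2 := (h2 (xb 1) trivial rfl).2
  have k3 := mem_E1.1 (h3 (xa 1) trivial trivial)
  simp [neg_add_eq_zero] at k1 k2 k3
  exact ⟨k3.symm, k2.symm, k1.symm⟩

theorem aut_ne : (equivFun γ (xa 1)).a ≠ 0 ∧ (equivFun γ (xb 1)).b ≠ 0 ∧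
    (equivFun γ (xc 1)).c ≠ 0 :=
  ⟨fun h => absurd (Inv.back (aut_E1 γ) trivial h) (by simp [mem_E1]),
    fun h => absurd (Inv.back (aut_KK γ) trivial ⟨aut_E1 γ _ trivial rfl, h⟩) (by simp [mem_KK]),
    fun h => absurd (Inv.back (aut_Z4 γ) trivial ⟨(aut_KK γ _ trivial ⟨rfl, rfl⟩).1,
      (aut_KK γ _ trivial ⟨rfl, rfl⟩).2, h⟩) (by simp [mem_Z4])⟩

end

instance : P0.Normal := ⟨fun δ hδ γ =>
  conj_mem_chainStab _ (chF_all Inv.top Inv.bot (inv_l0 γ)) hδ⟩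

theorem isPGroup_P0 : IsPGroup 3 P0 :=
  H7.isPGroup_chainStab isPGroup_top _ (by simp [chF]) (n := l0.length + 1) (by simp [chF_top])

abbrev Par := F3ˣ × F3ˣ × F3ˣ

/-- the diagonal automorphisms -/
noncomputable def tauT : Par →* MulAut (⊤ : Subgroup US) :=
  (MulAut.congr topEquiv.symm).toMonoidHom.comp (MonoidHom.mk' (fun t =>
    ⟨⟨tauF t.1 t.2.1 t.2.2, tauF t.1 t.2.1 t.2.2, tauF_tauF_self t.1.ne_zero t.2.1.ne_zero t.2.2.ne_zero,
      tauF_tauF_self t.1.ne_zero t.2.1.ne_zero t.2.2.ne_zero⟩, tauF_mul _ _ _⟩)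
    fun s t => MulEquiv.ext fun x => (tauF_tauF _ _ _ _ _ _ x).symm)

theorem ef_tauT (t : Par) (x : US) : equivFun (tauT t) x = tauF t.1 t.2.1 t.2.2 x := by
  rw [equivFun_of_mem _ (mem_top x)]; rfl

theorem exists_par (γ : MulAut (⊤ : Subgroup US)) : ∃ t, (tauT t)⁻¹ * γ ∈ P0 := by
  obtain ⟨h1, h2, h3⟩ := aut_ne γ
  refine ⟨(Units.mk0 _ h1, Units.mk0 _ h2, Units.mk0 _ h3), mem_P0 _ ?_ ?_ ?_⟩ <;>
    rw [equivFun_mul _ _ (mem_top _), ← map_inv, ef_tauT] <;> simp [h1, h2, h3]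

theorem eq_one_of_P0 {t : Par} (h : tauT t ∈ P0) : t = 1 := by
  obtain ⟨h1, h2, h3⟩ := P0_abc h
  simp [ef_tauT] at h1 h2 h3
  exact Prod.ext h1 (Prod.ext h2 h3)

theorem exists_std {F : FusionSystem (⊤ : Subgroup US)} (hF : F.IsSaturated 3) :
    ∃ (E : FusionSystem (⊤ : Subgroup US)) (t s : US → US), F.IsoVia E t s ∧ Std E := by
  have hp := Nat.prime_three
  have hdis : Disjoint tauT.range P0 := disjoint_def.2 <| by
    rintro _ ⟨t, rfl⟩ ht
    rw [eq_one_of_P0 ht, map_one]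
  have hS := hF.sylowIn isPGroup_top F.isFullyNormalized_top
  rw [← inn_eq_autInducedBy] at hS
  obtain ⟨B, hB, hc, hsup, -⟩ := H1.exists_complement_of_coprime_relIndex hS.le
    le_normalizer_of_normal (H1.coprime_card_of_isPGroup hS.isPGroup
      ((Nat.Prime.coprime_iff_not_dvd hp).2 hS.not_dvd_relIndex).symm).symm
  have hcB : (Nat.card B).Coprime (Nat.card P0) := H1.coprime_card_of_isPGroup isPGroup_P0
    (hc ▸ ((Nat.Prime.coprime_iff_not_dvd hp).2 hS.not_dvd_relIndex).symm)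
  obtain ⟨n, -, hn'⟩ := H1.exists_conj_le_of_coprime (A := tauT.range ⊓ (B ⊔ P0)) (K := P0)
    le_normalizer_of_normal (by
      refine Nat.Coprime.coprime_dvd_left ?_ hcB
      rw [← H1.card_map_of_disjoint_ker (f := QuotientGroup.mk' P0)
        (by rw [QuotientGroup.ker_mk']; exact hdis.mono_left inf_le_left)]
      refine (card_dvd_of_le ((map_mono inf_le_right).trans ?_)).trans (card_map_dvd B (QuotientGroup.mk' P0))
      rw [Subgroup.map_sup, QuotientGroup.map_mk'_self, sup_bot_eq])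
    (B := B) (fun b hb => by
      obtain ⟨t, ht⟩ := exists_par b
      have h1 : tauT t ∈ B ⊔ P0 := by
        simpa using mul_mem (mem_sup_left hb) (mem_sup_right (inv_mem ht) : _ ∈ B ⊔ P0)
      have h2 : tauT t ∈ tauT.range ⊓ (B ⊔ P0) := ⟨⟨t, rfl⟩, h1⟩
      simpa using mul_mem (mem_sup_right h2) (mem_sup_left ht : _ ∈ P0 ⊔ _))
    hcB (Or.inr (by have := isPGroup_P0.isNilpotent; infer_instance))
  have hg : GrpIso (⊤ : Subgroup US) ⊤ (equivFun n) (equivFun n⁻¹) :=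
    ⟨isHomOn_equivFun _, isHomOn_equivFun _, fun _ _ => trivial, fun _ _ => trivial,
      fun x hx => equivFun_inv_apply n hx, fun x hx => equivFun_apply_inv n hx⟩
  obtain ⟨E, hE⟩ := F.exists_isoVia hg
  refine ⟨E, _, _, hE, fun f hf => ?_⟩
  obtain ⟨α, hα, e⟩ := (hE.isIso_symm le_rfl le_rfl (by rwa [hg.img_top])).exists_aut
  obtain ⟨i, hi, b, hb, rfl⟩ := (H1.mem_sup_of_le_normalizer le_normalizer_of_normal).1 (hsup.ge hα)
  obtain ⟨w, -, hw⟩ := mem_inn_iff.1 hi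
  obtain ⟨t, ht⟩ := (hn' (H1.conj_mem_conj_smul_iff.2 hb)).1
  refine ⟨equivFun n w, t.1, t.2.1, t.2.2, t.1.ne_zero, t.2.1.ne_zero, t.2.2.ne_zero, fun x => ?_⟩
  have h1 := congrArg (equivFun n) (e (equivFun n⁻¹ x) trivial)
  rw [equivFun_apply_inv n (mem_top _), equivFun_apply_inv n (mem_top _), equivFun_mul _ _ (mem_top _),
    equivFun_of_mem i (mem_top _), hw, (isHomOn_equivFun n).map_conj (mem_top _) (mem_top _)] at h1
  rw [← h1, ← ef_tauT, ht, equivFun_mul _ _ (mem_top _), equivFun_mul _ _ (mem_top _)]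

end Cfsg.Agent.C3
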