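import Cfsg.Agent.Lib.C3.Defs

/-!
# S5227: chains, invariant subgroups, weak closure of `J` (see notes/C3.md)
-/

set_option autoImplicit false
set_option linter.unusedSectionVars false
set_option linter.unusedVariables false
set_option linter.unusedSimpArgs false
set_option linter.unnecessarySeqFocus false
set_option linter.unusedTactic false
set_option linter.unreachableTactic false

namespace Cfsg.Agent.C3

open Subgroup Cfsg Cfsg.FusionSystem Cfsg.Agent.U5 US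
open scoped commutatorElement

section Generic

variable {W : Type*} [Group W] {R C D N : Subgroup W} {γ : MulAut R}

/-- the chain `A ≤ l₀ ≤ l₁ ≤ … ≤ ⊤` -/
def chF : Subgroup W → List (Subgroup W) → ℕ → Subgroup W
  | A, _, 0 => A
  | _, [], _ + 1 => ⊤
  | _, B :: l, n + 1 => chF B l n
termination_by structural _ _ n => n

/-- a relation along the chain -/
def Steps (P : Subgroup W → Subgroup W → Prop) : Subgroup W → List (Subgroup W) → Prop
  | A, [] => P A ⊤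
  | A, B :: l => P A B ∧ Steps P B l

theorem chF_step {P : Subgroup W → Subgroup W → Prop} (hT : P ⊤ ⊤) :
    ∀ {l : List (Subgroup W)} {A : Subgroup W}, Steps P A l → ∀ i, P (chF A l i) (chF A l (i + 1))
  | [], _, h, 0 => h
  | [], _, _, _ + 1 => hT
  | _ :: _, _, h, 0 => h.1
  | _ :: _, _, h, i + 1 => chF_step hT h.2 i

theorem steps_of {P : Subgroup W → Subgroup W → Prop} :
    ∀ {l : List (Subgroup W)} {A : Subgroup W}, (∀ i, P (chF A l i) (chF A l (i + 1))) → Steps P A l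
  | [], _, h => h 0
  | _ :: _, _, h => ⟨h 0, steps_of fun i => h (i + 1)⟩

theorem chF_all {Q : Subgroup W → Prop} (hT : Q ⊤) :
    ∀ {l : List (Subgroup W)} {A : Subgroup W}, Q A → (∀ B ∈ l, Q B) → ∀ i, Q (chF A l i)
  | _, _, h, _, 0 => h
  | [], _, _, _, _ + 1 => hT
  | B :: _, _, _, h, i + 1 => chF_all hT (h B (by simp)) (fun C hC => h C (by simp [hC])) i

theorem chF_top : ∀ (l : List (Subgroup W)) (A : Subgroup W), chF A l (l.length + 1) = ⊤
  | [], _ => rfl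
  | B :: l, _ => chF_top l B

theorem chF_mono {l : List (Subgroup W)} (h : Steps (· ≤ ·) ⊥ l) : Monotone (chF ⊥ l) :=
  monotone_nat_of_le_succ (chF_step le_rfl h)

/-- `f` acts trivially on the factor `(R ⊓ B) / (R ⊓ A)`. -/
def Tr (R : Subgroup W) (f : W → W) (A B : Subgroup W) : Prop := ∀ x ∈ R, x ∈ B → x⁻¹ * f x ∈ A

theorem tr_top (f : W → W) : Tr R f ⊤ ⊤ := fun _ _ _ => trivial

theorem _root_.Cfsg.Agent.U5.Inv.inf (h1 : Inv γ C) (h2 : Inv γ D) : Inv γ (C ⊓ D) := fun x hx h =>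
  ⟨h1 x hx h.1, h2 x hx h.2⟩

theorem _root_.Cfsg.Agent.U5.Inv.congr (h : Inv γ C) (e : ∀ x ∈ R, x ∈ C ↔ x ∈ D) : Inv γ D := fun x hx hD =>
  (e _ (equivFun_mem γ hx)).1 (h x hx ((e x hx).2 hD))

theorem inv_ce (hA : Inv γ C) (hB : Inv γ D) (h1 : ∀ x ∈ C, ∀ y ∈ D, ⁅x, y⁆ ∈ N)
    (h2 : ∀ K : Subgroup W, (∀ x ∈ R, x ∈ C → ∀ y ∈ R, y ∈ D → ⁅x, y⁆ ∈ K) → ∀ z ∈ R, z ∈ N → z ∈ K) :
    Inv γ N := fun z hz hN =>
  (h2 { carrier := {z | z ∈ R ∧ equivFun γ z ∈ N}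
        one_mem' := ⟨one_mem _, by rw [ef_one]; exact one_mem _⟩
        mul_mem' := fun hx hy => ⟨mul_mem hx.1 hy.1, by
          rw [ef_mul _ hx.1 hy.1]; exact mul_mem hx.2 hy.2⟩
        inv_mem' := fun hx => ⟨inv_mem hx.1, by rw [ef_inv _ hx.1]; exact inv_mem hx.2⟩ }
    (fun x hx hC y hy hD => ⟨ce_mem hx hy, by
      rw [ef_ce _ hx hy]; exact h1 _ (hA x hx hC) _ (hB y hy hD)⟩) z hz hN).2

variable [Finite W]

theorem inv_cm (hN : Inv γ N) (hD : Inv γ D)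
    (h1 : ∀ x ∈ R, (∀ y ∈ R, y ∈ D → x⁻¹ * (y * x * y⁻¹) ∈ N) → x ∈ C)
    (h2 : ∀ x ∈ R, x ∈ C → ∀ y ∈ R, y ∈ D → x⁻¹ * (y * x * y⁻¹) ∈ N) : Inv γ C := fun x hx hC =>
  h1 _ (equivFun_mem γ hx) fun y hy hyD =>
    hN.cm hx hy (h2 x hx hC _ (equivFun_mem _ hy) (hD.inv y hy hyD))

theorem _root_.Cfsg.Agent.U5.Inv.back (h : Inv γ C) {x : W} (hx : x ∈ R) (e : equivFun γ x ∈ C) : x ∈ C :=
  equivFun_inv_apply γ hx ▸ h.inv _ (equivFun_mem γ hx) e

variable {p : ℕ} [hp : Fact p.Prime] {M A : Subgroup (MulAut R)}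

theorem chainL (h : Loc p R M A) {g : MulAut R} (hg : g ∈ A) (hb : g ∉ M) (l : List (Subgroup W))
    (hm : Steps (· ≤ ·) ⊥ l) (hγ : ∀ B ∈ l, Inv g B) {t : W} (ht : t ∈ normalizer (R : Set W))
    (hs : Steps (Tr R fun x => t * x * t⁻¹) ⊥ l) : t ∈ R :=
  h.chain hg hb (chF_mono hm) rfl (chF_top l ⊥) (chF_all Inv.top Inv.bot hγ) ht
    (chF_step (tr_top _) hs)

theorem conjL (hW : IsPGroup p W) (hS : H7.SylowIn p (autInducedBy ⊤ R) A) (l : List (Subgroup W))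
    (hm : Steps (· ≤ ·) ⊥ l)
    (hT : ∀ t ∈ normalizer (R : Set W), Steps (Tr R fun x => t * x * t⁻¹) ⊥ l)
    {g : MulAut R} (hg : g ∈ A) (hs : Steps (Tr R (equivFun g)) ⊥ l) :
    ∃ t ∈ normalizer (R : Set W), ∀ x ∈ R, equivFun g x = t * x * t⁻¹ := by
  have h1 : H7.chainStab R _ (chF_mono hm) ⊓ A = autInducedBy ⊤ R := hS.eq_of_le
    (H7.isPGroup_chainStab (hW.to_subgroup R) _ (by simp [chF]) (n := l.length + 1)
      (by simp [chF_top])).to_inf_left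
    (fun a ha => ⟨(H7.mem_chainStab _).2 fun i x hx hxC => by
      obtain ⟨t, -, ht, e⟩ := mem_autInducedBy_iff'.1 ha
      rw [e x hx]; exact chF_step (tr_top _) (hT t ht) i x hx hxC, hS.le ha⟩) inf_le_right
  obtain ⟨t, -, ht, e⟩ := mem_autInducedBy_iff'.1
    (h1.le ⟨(H7.mem_chainStab _).2 (chF_step (tr_top _) hs), hg⟩)
  exact ⟨t, ht, e⟩

/-- An automorphism normalizing a chain stabilized by `Aut_S(R)` normalizes `Aut_S(R)`. -/
theorem normL (hW : IsPGroup p W) (hS : H7.SylowIn p (autInducedBy ⊤ R) A) (l : List (Subgroup W))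
    (hm : Steps (· ≤ ·) ⊥ l)
    (hT : ∀ t ∈ normalizer (R : Set W), Steps (Tr R fun x => t * x * t⁻¹) ⊥ l)
    {g : MulAut R} (hg : g ∈ A) (hi : ∀ B ∈ l, Inv g B) {t : W} (ht : t ∈ normalizer (R : Set W)) :
    ∃ s ∈ normalizer (R : Set W), ∀ x ∈ R,
      equivFun g (t * x * t⁻¹) = s * equivFun g x * s⁻¹ := by
  obtain ⟨s, hs, e⟩ := conjL hW hS l hm hT (g := g * conjAut R ht * g⁻¹)
    (A.mul_mem (A.mul_mem hg (hS.le (Loc.cj_T ht))) (A.inv_mem hg))
    (steps_of ((H7.mem_chainStab (chF_mono hm)).1 (conj_mem_chainStab (chF_mono hm)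
      (chF_all Inv.top Inv.bot hi) ((H7.mem_chainStab _).2 fun i x hx hxC => by
        rw [equivFun_conjAut ht hx]; exact chF_step (tr_top _) (hT t ht) i x hx hxC))))
  refine ⟨s, hs, fun x hx => ?_⟩
  rw [← e _ (equivFun_mem g hx), ef_conj _ _ (equivFun_mem g hx), equivFun_inv_apply g hx]

theorem card_le_fib {X B C : Type*} [AddCommGroup X] [Finite B] [Finite C] (π : X → B) (ρ : X → C)
    (h : ∀ u v w, π u = π v → π u = π w → ρ (v - u) = ρ (w - u) → v = w) :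
    Nat.card X ≤ Nat.card B * Nat.card C := by
  rw [← Nat.card_prod]
  refine Nat.card_le_card_of_injective (fun v => (π v, ρ (v - Function.invFun π (π v))))
    fun v w e => ?_
  obtain ⟨e1, e2⟩ := Prod.ext_iff.1 e
  simp only at e1 e2
  have k := Function.invFun_eq (f := π) ⟨v, rfl⟩
  exact h _ v w k (k.trans e1) (by rw [e2, e1])

end Generic

/-- the coordinates of `J` -/
@[ext] structure V where
  c : F3
  e : F3
  f : F3
  g : F3
  h : F3
  z : F3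
  deriving DecidableEq

namespace V

instance : Zero V := ⟨⟨0, 0, 0, 0, 0, 0⟩⟩
instance : Add V := ⟨fun x y => ⟨x.c + y.c, x.e + y.e, x.f + y.f, x.g + y.g, x.h + y.h, x.z + y.z⟩⟩
instance : Neg V := ⟨fun x => ⟨-x.c, -x.e, -x.f, -x.g, -x.h, -x.z⟩⟩
instance : SMul F3 V := ⟨fun t x => ⟨t * x.c, t * x.e, t * x.f, t * x.g, t * x.h, t * x.z⟩⟩

@[simp] theorem zero_c : (0 : V).c = 0 := rfl
@[simp] theorem zero_e : (0 : V).e = 0 := rfl
@[simp] theorem zero_f : (0 : V).f = 0 := rfl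
@[simp] theorem zero_g : (0 : V).g = 0 := rfl
@[simp] theorem zero_h : (0 : V).h = 0 := rfl
@[simp] theorem zero_z : (0 : V).z = 0 := rfl
@[simp] theorem add_c (x y : V) : (x + y).c = x.c + y.c := rfl
@[simp] theorem add_e (x y : V) : (x + y).e = x.e + y.e := rfl
@[simp] theorem add_f (x y : V) : (x + y).f = x.f + y.f := rfl
@[simp] theorem add_g (x y : V) : (x + y).g = x.g + y.g := rfl
@[simp] theorem add_h (x y : V) : (x + y).h = x.h + y.h := rfl
@[simp] theorem add_z (x y : V) : (x + y).z = x.z + y.z := rfl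
@[simp] theorem neg_c (x : V) : (-x).c = -x.c := rfl
@[simp] theorem neg_e (x : V) : (-x).e = -x.e := rfl
@[simp] theorem neg_f (x : V) : (-x).f = -x.f := rfl
@[simp] theorem neg_g (x : V) : (-x).g = -x.g := rfl
@[simp] theorem neg_h (x : V) : (-x).h = -x.h := rfl
@[simp] theorem neg_z (x : V) : (-x).z = -x.z := rfl
@[simp] theorem smul_c (t : F3) (x : V) : (t • x).c = t * x.c := rfl
@[simp] theorem smul_e (t : F3) (x : V) : (t • x).e = t * x.e := rfl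
@[simp] theorem smul_f (t : F3) (x : V) : (t • x).f = t * x.f := rfl
@[simp] theorem smul_g (t : F3) (x : V) : (t • x).g = t * x.g := rfl
@[simp] theorem smul_h (t : F3) (x : V) : (t • x).h = t * x.h := rfl
@[simp] theorem smul_z (t : F3) (x : V) : (t • x).z = t * x.z := rfl

instance : AddGroup V := AddGroup.ofLeftAxioms (fun x y z => by ext <;> simp [add_assoc])
  (fun x => by ext <;> simp) (fun x => by ext <;> simp)

instance : AddCommGroup V := { (inferInstance : AddGroup V) with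
  add_comm := fun x y => by ext <;> simp [add_comm] }

instance : Module F3 V := Module.ofMinimalAxioms (fun r x y => by ext <;> simp [mul_add])
  (fun r s x => by ext <;> simp [add_mul]) (fun r s x => by ext <;> simp [mul_assoc])
  (fun x => by ext <;> simp)

def eqv : F3 × F3 × F3 × F3 × F3 × F3 ≃ V :=
  ⟨fun x => ⟨x.1, x.2.1, x.2.2.1, x.2.2.2.1, x.2.2.2.2.1, x.2.2.2.2.2⟩,
    fun v => (v.c, v.e, v.f, v.g, v.h, v.z), fun _ => rfl, fun _ => rfl⟩

instance : Fintype V := Fintype.ofEquiv _ eqv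

theorem card : Nat.card V = 729 := by
  rw [← Nat.card_congr eqv]; simp [Nat.card_prod]

end V

@[simps] def vJ (v : V) : US := ⟨0, 0, v.c, 0, v.e, v.f, v.g, v.h, v.z⟩

@[simps] def pV (x : US) : V := ⟨x.c, x.e, x.f, x.g, x.h, x.z⟩

theorem vJ_mem (v : V) : vJ v ∈ JJ := ⟨rfl, rfl, rfl⟩

theorem pV_vJ (v : V) : pV (vJ v) = v := rfl

variable {x y : US}

theorem vJ_pV (hx : x ∈ JJ) : vJ (pV x) = x := by
  ext <;> simp [hx.1, hx.2.1, hx.2.2]

theorem vJ_add (v w : V) : vJ (v + w) = vJ v * vJ w := by ext <;> simp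

theorem vJ_neg (v : V) : vJ (-v) = (vJ v)⁻¹ := by ext <;> simp

theorem pV_mul (hx : x ∈ JJ) (y : US) : pV (x * y) = pV x + pV y := by
  ext <;> simp [hx.1, hx.2.1, hx.2.2]

theorem ext_JJ (hx : x ∈ JJ) (hy : y ∈ JJ) (h : pV x = pV y) : x = y := by
  rw [← vJ_pV hx, h, vJ_pV hy]

theorem comm_iff : x * y = y * x ↔ x.a * y.b = y.a * x.b ∧ x.b * y.c = y.b * x.c ∧
    x.a * y.e + x.d * y.c = y.a * x.e + y.d * x.c ∧
    2 * x.b * y.e + x.b ^ 2 * y.c = 2 * y.b * x.e + y.b ^ 2 * x.c ∧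
    x.b * y.f + x.a * y.g + (x.a * x.b + x.d) * y.e + x.b * x.d * y.c =
      y.b * x.f + y.a * x.g + (y.a * y.b + y.d) * x.e + y.b * y.d * x.c ∧
    2 * x.a * y.h + 2 * x.d * y.f + x.a ^ 2 * y.g + 2 * x.a * x.d * y.e + x.d ^ 2 * y.c =
      2 * y.a * x.h + 2 * y.d * x.f + y.a ^ 2 * x.g + 2 * y.a * y.d * x.e + y.d ^ 2 * x.c := by
  rw [US.ext_iff]
  simp only [mul_a, mul_b, mul_c, mul_d, mul_e, mul_f, mul_g, mul_h, mul_z]
  constructor
  · rintro ⟨-, -, -, k1, k2, k3, k4, k5, k6⟩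
    exact ⟨by linear_combination k1, by linear_combination k2, by linear_combination k3,
      by linear_combination k4, by linear_combination k5, by linear_combination k6⟩
  · rintro ⟨k1, k2, k3, k4, k5, k6⟩
    exact ⟨by ring, by ring, by ring, by linear_combination k1, by linear_combination k2,
      by linear_combination k3, by linear_combination k4, by linear_combination k5,
      by linear_combination k6⟩

theorem comm_JJ (hx : x ∈ JJ) (hy : y ∈ JJ) : x * y = y * x := by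
  simp [comm_iff, hx.1, hx.2.1, hx.2.2, hy.1, hy.2.1, hy.2.2]

@[simp high] theorem cm_a (x y : US) : (x⁻¹ * (y * x * y⁻¹)).a =
    0 := by
  simp only [mul_a, mul_b, mul_c, mul_d, mul_e, mul_f, mul_g, mul_h, mul_z, inv_a, inv_b, inv_c, inv_d, inv_e, inv_f, inv_g, inv_h, inv_z]; ring
@[simp high] theorem cm_b (x y : US) : (x⁻¹ * (y * x * y⁻¹)).b =
    0 := by
  simp only [mul_a, mul_b, mul_c, mul_d, mul_e, mul_f, mul_g, mul_h, mul_z, inv_a, inv_b, inv_c, inv_d, inv_e, inv_f, inv_g, inv_h, inv_z]; ring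
@[simp high] theorem cm_c (x y : US) : (x⁻¹ * (y * x * y⁻¹)).c =
    0 := by
  simp only [mul_a, mul_b, mul_c, mul_d, mul_e, mul_f, mul_g, mul_h, mul_z, inv_a, inv_b, inv_c, inv_d, inv_e, inv_f, inv_g, inv_h, inv_z]; ring
@[simp high] theorem cm_d (x y : US) : (x⁻¹ * (y * x * y⁻¹)).d =
    -(x.a * y.b) + x.b * y.a := by
  simp only [mul_a, mul_b, mul_c, mul_d, mul_e, mul_f, mul_g, mul_h, mul_z, inv_a, inv_b, inv_c, inv_d, inv_e, inv_f, inv_g, inv_h, inv_z]; ring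
@[simp high] theorem cm_e (x y : US) : (x⁻¹ * (y * x * y⁻¹)).e =
    -(x.b * y.c) + x.c * y.b := by
  simp only [mul_a, mul_b, mul_c, mul_d, mul_e, mul_f, mul_g, mul_h, mul_z, inv_a, inv_b, inv_c, inv_d, inv_e, inv_f, inv_g, inv_h, inv_z]; ring
@[simp high] theorem cm_f (x y : US) : (x⁻¹ * (y * x * y⁻¹)).f =
    -(x.a * y.e) + x.c * y.d - x.d * y.c + x.e * y.a + x.a * x.b * y.c - x.a * x.c * y.b + x.a *
    y.b * y.c - x.b * y.a * y.c := by
  simp only [mul_a, mul_b, mul_c, mul_d, mul_e, mul_f, mul_g, mul_h, mul_z, inv_a, inv_b, inv_c, inv_d, inv_e, inv_f, inv_g, inv_h, inv_z]; ring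
@[simp high] theorem cm_g (x y : US) : (x⁻¹ * (y * x * y⁻¹)).g =
    -(2 * x.b * y.e) + 2 * x.e * y.b - 2 * x.b * x.c * y.b + x.b ^ 2 * y.c + x.c * y.b ^ 2 := by
  simp only [mul_a, mul_b, mul_c, mul_d, mul_e, mul_f, mul_g, mul_h, mul_z, inv_a, inv_b, inv_c, inv_d, inv_e, inv_f, inv_g, inv_h, inv_z]; ring
@[simp high] theorem cm_h (x y : US) : (x⁻¹ * (y * x * y⁻¹)).h =
    -(x.a * y.g) - x.b * y.f - x.d * y.e + x.e * y.d + x.f * y.b + x.g * y.a + 2 * x.a * x.b *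
    y.e - 2 * x.a * x.e * y.b + x.a * y.b * y.e - x.b * x.c * y.d + x.b * x.d * y.c - x.b * x.e
    * y.a - x.b * y.a * y.e - x.c * x.d * y.b + x.c * y.b * y.d + x.e * y.a * y.b + 2 * x.a *
    x.b * x.c * y.b - x.a * x.b ^ 2 * y.c - x.a * x.c * y.b ^ 2 := by
  simp only [mul_a, mul_b, mul_c, mul_d, mul_e, mul_f, mul_g, mul_h, mul_z, inv_a, inv_b, inv_c, inv_d, inv_e, inv_f, inv_g, inv_h, inv_z]; ring
@[simp high] theorem cm_z (x y : US) : (x⁻¹ * (y * x * y⁻¹)).z =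
    -(2 * x.a * y.h) - 2 * x.d * y.f + 2 * x.f * y.d + 2 * x.h * y.a + 2 * x.a * x.b * y.f + 2 *
    x.a * x.d * y.e - 2 * x.a * x.e * y.d - 2 * x.a * x.f * y.b - 2 * x.a * x.g * y.a + 2 * x.a
    * y.b * y.f + x.a ^ 2 * y.g - 2 * x.b * y.a * y.f - 2 * x.c * x.d * y.d + x.c * y.d ^ 2 - 2
    * x.d * x.e * y.a + x.d ^ 2 * y.c + 2 * x.e * y.a * y.d + x.g * y.a ^ 2 + 2 * x.a * x.b *
    x.c * y.d - 2 * x.a * x.b * x.d * y.c + 2 * x.a * x.b * x.e * y.a + 2 * x.a * x.c * x.d *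
    y.b - 2 * x.a * x.c * y.b * y.d - 2 * x.a * x.e * y.a * y.b - 2 * x.a ^ 2 * x.b * y.e + 2 *
    x.a ^ 2 * x.e * y.b + 2 * x.a * x.b * y.a * y.b * y.c - 2 * x.a ^ 2 * x.b * x.c * y.b + x.a
    ^ 2 * x.b ^ 2 * y.c + x.a ^ 2 * x.c * y.b ^ 2 - x.a ^ 2 * y.b ^ 2 * y.c - x.b ^ 2 * y.a ^ 2
    * y.c := by
  simp only [mul_a, mul_b, mul_c, mul_d, mul_e, mul_f, mul_g, mul_h, mul_z, inv_a, inv_b, inv_c, inv_d, inv_e, inv_f, inv_g, inv_h, inv_z]; ring
@[simp high] theorem ce_a (x y : US) : ⁅x, y⁆.a =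
    0 := by
  simp only [commutatorElement_def, mul_a, mul_b, mul_c, mul_d, mul_e, mul_f, mul_g, mul_h, mul_z, inv_a, inv_b, inv_c, inv_d, inv_e, inv_f, inv_g, inv_h, inv_z]; ring
@[simp high] theorem ce_b (x y : US) : ⁅x, y⁆.b =
    0 := by
  simp only [commutatorElement_def, mul_a, mul_b, mul_c, mul_d, mul_e, mul_f, mul_g, mul_h, mul_z, inv_a, inv_b, inv_c, inv_d, inv_e, inv_f, inv_g, inv_h, inv_z]; ring
@[simp high] theorem ce_c (x y : US) : ⁅x, y⁆.c =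
    0 := by
  simp only [commutatorElement_def, mul_a, mul_b, mul_c, mul_d, mul_e, mul_f, mul_g, mul_h, mul_z, inv_a, inv_b, inv_c, inv_d, inv_e, inv_f, inv_g, inv_h, inv_z]; ring
@[simp high] theorem ce_d (x y : US) : ⁅x, y⁆.d =
    x.a * y.b - x.b * y.a := by
  simp only [commutatorElement_def, mul_a, mul_b, mul_c, mul_d, mul_e, mul_f, mul_g, mul_h, mul_z, inv_a, inv_b, inv_c, inv_d, inv_e, inv_f, inv_g, inv_h, inv_z]; ring
@[simp high] theorem ce_e (x y : US) : ⁅x, y⁆.e =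
    x.b * y.c - x.c * y.b := by
  simp only [commutatorElement_def, mul_a, mul_b, mul_c, mul_d, mul_e, mul_f, mul_g, mul_h, mul_z, inv_a, inv_b, inv_c, inv_d, inv_e, inv_f, inv_g, inv_h, inv_z]; ring
@[simp high] theorem ce_f (x y : US) : ⁅x, y⁆.f =
    x.a * y.e - x.c * y.d + x.d * y.c - x.e * y.a - x.a * x.c * y.b - x.a * y.b * y.c + x.b *
    x.c * y.a + x.b * y.a * y.c := by
  simp only [commutatorElement_def, mul_a, mul_b, mul_c, mul_d, mul_e, mul_f, mul_g, mul_h, mul_z, inv_a, inv_b, inv_c, inv_d, inv_e, inv_f, inv_g, inv_h, inv_z]; ring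
@[simp high] theorem ce_g (x y : US) : ⁅x, y⁆.g =
    2 * x.b * y.e - 2 * x.e * y.b + x.b ^ 2 * y.c - x.c * y.b ^ 2 := by
  simp only [commutatorElement_def, mul_a, mul_b, mul_c, mul_d, mul_e, mul_f, mul_g, mul_h, mul_z, inv_a, inv_b, inv_c, inv_d, inv_e, inv_f, inv_g, inv_h, inv_z]; ring
@[simp high] theorem ce_h (x y : US) : ⁅x, y⁆.h =
    x.a * y.g + x.b * y.f + x.d * y.e - x.e * y.d - x.f * y.b - x.g * y.a + x.a * x.b * y.e -
    x.a * x.e * y.b - x.a * y.b * y.e + x.b * x.d * y.c + x.b * x.e * y.a + x.b * y.a * y.e -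
    x.c * y.b * y.d - x.e * y.a * y.b - x.a * x.c * y.b ^ 2 + x.b * x.c * y.a * y.b := by
  simp only [commutatorElement_def, mul_a, mul_b, mul_c, mul_d, mul_e, mul_f, mul_g, mul_h, mul_z, inv_a, inv_b, inv_c, inv_d, inv_e, inv_f, inv_g, inv_h, inv_z]; ring
@[simp high] theorem ce_z (x y : US) : ⁅x, y⁆.z =
    2 * x.a * y.h + 2 * x.d * y.f - 2 * x.f * y.d - 2 * x.h * y.a + 2 * x.a * x.d * y.e - 2 *
    x.a * x.f * y.b - 2 * x.a * y.b * y.f + x.a ^ 2 * y.g + 2 * x.b * x.f * y.a + 2 * x.b * y.a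
    * y.f - x.c * y.d ^ 2 + x.d ^ 2 * y.c - 2 * x.e * y.a * y.d - x.g * y.a ^ 2 - 2 * x.a * x.c
    * y.b * y.d - 2 * x.a * x.e * y.a * y.b + 2 * x.b * x.c * y.a * y.d + 2 * x.b * x.e * y.a ^
    2 + 2 * x.a * x.b * x.c * y.a * y.b + 2 * x.a * x.b * y.a * y.b * y.c - x.a ^ 2 * x.c * y.b
    ^ 2 - x.a ^ 2 * y.b ^ 2 * y.c - x.b ^ 2 * x.c * y.a ^ 2 - x.b ^ 2 * y.a ^ 2 * y.c := by
  simp only [commutatorElement_def, mul_a, mul_b, mul_c, mul_d, mul_e, mul_f, mul_g, mul_h, mul_z, inv_a, inv_b, inv_c, inv_d, inv_e, inv_f, inv_g, inv_h, inv_z]; ring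
@[simp high] theorem cj_a (x y : US) : (y * x * y⁻¹).a =
    x.a := by
  simp only [mul_a, mul_b, mul_c, mul_d, mul_e, mul_f, mul_g, mul_h, mul_z, inv_a, inv_b, inv_c, inv_d, inv_e, inv_f, inv_g, inv_h, inv_z]; ring
@[simp high] theorem cj_b (x y : US) : (y * x * y⁻¹).b =
    x.b := by
  simp only [mul_a, mul_b, mul_c, mul_d, mul_e, mul_f, mul_g, mul_h, mul_z, inv_a, inv_b, inv_c, inv_d, inv_e, inv_f, inv_g, inv_h, inv_z]; ring
@[simp high] theorem cj_c (x y : US) : (y * x * y⁻¹).c =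
    x.c := by
  simp only [mul_a, mul_b, mul_c, mul_d, mul_e, mul_f, mul_g, mul_h, mul_z, inv_a, inv_b, inv_c, inv_d, inv_e, inv_f, inv_g, inv_h, inv_z]; ring
@[simp high] theorem cj_d (x y : US) : (y * x * y⁻¹).d =
    x.d - x.a * y.b + x.b * y.a := by
  simp only [mul_a, mul_b, mul_c, mul_d, mul_e, mul_f, mul_g, mul_h, mul_z, inv_a, inv_b, inv_c, inv_d, inv_e, inv_f, inv_g, inv_h, inv_z]; ring
@[simp high] theorem cj_e (x y : US) : (y * x * y⁻¹).e =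
    x.e - x.b * y.c + x.c * y.b := by
  simp only [mul_a, mul_b, mul_c, mul_d, mul_e, mul_f, mul_g, mul_h, mul_z, inv_a, inv_b, inv_c, inv_d, inv_e, inv_f, inv_g, inv_h, inv_z]; ring
@[simp high] theorem cj_f (x y : US) : (y * x * y⁻¹).f =
    x.f - x.a * y.e + x.c * y.d - x.d * y.c + x.e * y.a + x.a * y.b * y.c - x.b * y.a * y.c := by
  simp only [mul_a, mul_b, mul_c, mul_d, mul_e, mul_f, mul_g, mul_h, mul_z, inv_a, inv_b, inv_c, inv_d, inv_e, inv_f, inv_g, inv_h, inv_z]; ring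
@[simp high] theorem cj_g (x y : US) : (y * x * y⁻¹).g =
    x.g - 2 * x.b * y.e + 2 * x.e * y.b - x.b ^ 2 * y.c + x.c * y.b ^ 2 := by
  simp only [mul_a, mul_b, mul_c, mul_d, mul_e, mul_f, mul_g, mul_h, mul_z, inv_a, inv_b, inv_c, inv_d, inv_e, inv_f, inv_g, inv_h, inv_z]; ring
@[simp high] theorem cj_h (x y : US) : (y * x * y⁻¹).h =
    x.h - x.a * y.g - x.b * y.f - x.d * y.e + x.e * y.d + x.f * y.b + x.g * y.a - x.a * x.b *
    y.e + x.a * y.b * y.e - x.b * x.d * y.c - x.b * y.a * y.e + x.c * y.b * y.d + x.e * y.a *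
    y.b + x.a * x.b * y.b * y.c - x.b ^ 2 * y.a * y.c := by
  simp only [mul_a, mul_b, mul_c, mul_d, mul_e, mul_f, mul_g, mul_h, mul_z, inv_a, inv_b, inv_c, inv_d, inv_e, inv_f, inv_g, inv_h, inv_z]; ring
@[simp high] theorem cj_z (x y : US) : (y * x * y⁻¹).z =
    x.z - 2 * x.a * y.h - 2 * x.d * y.f + 2 * x.f * y.d + 2 * x.h * y.a - 2 * x.a * x.d * y.e +
    2 * x.a * y.b * y.f - x.a ^ 2 * y.g - 2 * x.b * y.a * y.f + x.c * y.d ^ 2 - x.d ^ 2 * y.c +
    2 * x.e * y.a * y.d + x.g * y.a ^ 2 - 2 * x.a * x.b * y.a * y.e + 2 * x.a * x.d * y.b * y.c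
    + 2 * x.a ^ 2 * y.b * y.e - 2 * x.b * x.d * y.a * y.c + 2 * x.a * x.b * y.a * y.b * y.c -
    x.a ^ 2 * y.b ^ 2 * y.c - x.b ^ 2 * y.a ^ 2 * y.c := by
  simp only [mul_a, mul_b, mul_c, mul_d, mul_e, mul_f, mul_g, mul_h, mul_z, inv_a, inv_b, inv_c, inv_d, inv_e, inv_f, inv_g, inv_h, inv_z]; ring

theorem two_ne : (2 : F3) ≠ 0 := by decide

/-- `J` is weakly closed. -/
theorem map_JJ {f : US → US} (hf : IsHomOn JJ f) (hi : ∀ x ∈ JJ, ∀ y ∈ JJ, f x = f y → x = y)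
    (hx : x ∈ JJ) : f x ∈ JJ := by
  by_contra h0
  have cm : ∀ v w : V, f (vJ v) * f (vJ w) = f (vJ w) * f (vJ v) := fun v w => by
    rw [← hf.map_mul (vJ_mem _) (vJ_mem _), ← hf.map_mul (vJ_mem _) (vJ_mem _),
      comm_JJ (vJ_mem v) (vJ_mem w)]
  have sb : ∀ u v : V, f (vJ (v - u)) = (f (vJ u))⁻¹ * f (vJ v) := fun u v => by
    rw [sub_eq_neg_add, vJ_add, vJ_neg, hf.map_mul (inv_mem (vJ_mem _)) (vJ_mem _),
      hf.map_inv (vJ_mem _)]
  have key : ∀ (π : US → F3 × F3) (ρ : US → F3 × F3 × F3) (v0 : V),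
      (∀ u v : V, π (f (vJ u)) = π (f (vJ v)) → (f (vJ u))⁻¹ * f (vJ v) ∈ JJ) →
      (∀ y ∈ JJ, ∀ y' ∈ JJ, f (vJ v0) * y = y * f (vJ v0) → f (vJ v0) * y' = y' * f (vJ v0) →
        ρ y = ρ y' → y = y') → False := fun π ρ v0 h1 h2 => by
    have := card_le_fib (fun v => π (f (vJ v))) (fun v => ρ (f (vJ v))) fun u v w e1 e2 e3 => by
      have := hi _ (vJ_mem _) _ (vJ_mem _) (h2 _ (sb u v ▸ h1 u v e1) _ (sb u w ▸ h1 u w e2)
        (cm _ _) (cm _ _) e3)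
      exact sub_left_inj.1 (congrArg pV this)
    rw [V.card] at this
    simp [Nat.card_prod] at this
  by_cases ha : ∃ v, (f (vJ v)).a ≠ 0
  · obtain ⟨v0, ha⟩ := ha
    refine key (fun y => (y.a, y.d)) (fun y => (y.c, y.f, y.z)) v0 (fun u v e => ?_)
      fun y hy y' hy' e1 e2 e3 => ?_
    · have k1 := (comm_iff.1 (cm v0 u)).1
      have k2 := (comm_iff.1 (cm v0 v)).1
      simp only [Prod.mk.injEq] at e
      have k3 : (f (vJ u)).b = (f (vJ v)).b := mul_left_cancel₀ ha (by rw [k1, k2, e.1])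
      simp [mem_JJ, e.1, e.2, k3]
    · generalize f (vJ v0) = w at *
      simp only [Prod.mk.injEq] at e3
      obtain ⟨-, -, k1, -, k2, k3⟩ := comm_iff.1 e1
      obtain ⟨-, -, l1, -, l2, l3⟩ := comm_iff.1 e2
      simp only [hy.1, hy.2.1, hy.2.2, hy'.1, hy'.2.1, hy'.2.2, e3.1, e3.2.1] at k1 k2 k3 l1 l2 l3
      have m1 : y.e = y'.e := mul_left_cancel₀ ha (by linear_combination k1 - l1)
      have m2 : y.g = y'.g := mul_left_cancel₀ ha (by rw [m1] at k2; linear_combination k2 - l2)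
      have m3 : y.h = y'.h := mul_left_cancel₀ (mul_ne_zero two_ne ha)
        (by rw [m1, m2] at k3; linear_combination k3 - l3)
      exact ext_JJ hy hy' (V.ext e3.1 m1 e3.2.1 m2 m3 e3.2.2)
  · push Not at ha
    refine key (fun y => (y.b, y.d)) (fun y => (y.g, y.h, y.z)) (pV x) (fun u v e => ?_)
      fun y hy y' hy' e1 e2 e3 => ?_
    · simp only [Prod.mk.injEq] at e
      simp [mem_JJ, e.1, e.2, ha]
    · have h1 := ha (pV x)
      rw [vJ_pV hx] at e1 e2 h1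
      generalize f x = w at *
      simp only [Prod.mk.injEq] at e3
      have : ∀ y ∈ JJ, w * y = y * w → y.c = 0 ∧ y.e = 0 ∧ y.f = 0 := fun y hy e => by
        simp only [comm_iff, hy.1, hy.2.1, hy.2.2, h1] at e
        by_cases hb : w.b = 0
        · have hd : w.d ≠ 0 := fun hd => h0 ⟨h1, hb, hd⟩
          simp [hb, hd, two_ne] at e
          obtain ⟨k1, k2, k3⟩ := e
          simpa [k1, k2, hd, two_ne] using k3
        · simp [hb] at e
          obtain ⟨k1, -, k2, k3, -⟩ := e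
          simp [k1, hb, two_ne] at k2
          simpa [k1, k2, hb] using k3
      obtain ⟨k1, k2, k3⟩ := this y hy e1
      obtain ⟨l1, l2, l3⟩ := this y' hy' e2
      exact ext_JJ hy hy' (V.ext (k1.trans l1.symm) (k2.trans l2.symm) (k3.trans l3.symm)
        e3.1 e3.2.1 e3.2.2)

theorem inv_JJ {R : Subgroup US} (hR : JJ ≤ R) (γ : MulAut R) : Inv γ JJ := fun x _ hx =>
  map_JJ ((isHomOn_equivFun γ).mono hR) (fun x hx y hy => ef_inj γ (hR hx) (hR hy)) hx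

variable {F : FusionSystem (⊤ : Subgroup US)} {R : Subgroup US} {f : US → US}

theorem mor_JJ (hf : F.IsMor R f) (hR : JJ ≤ R) (hx : x ∈ JJ) : f x ∈ JJ :=
  map_JJ (hf.mono hR).isHomOn (fun x hx y hy => hf.inj (hR hx) (hR hy)) hx

theorem res_JJ (hf : F.IsMor R f) (hR : JJ ≤ R) :
    ∃ γ ∈ F.autGroup JJ, ∀ x ∈ JJ, equivFun γ x = f x :=
  ((hf.mono hR).isIso_self fun x hx => mor_JJ hf hR hx).exists_aut

/-- what is mapped into `J` lies in `J` -/
theorem mor_JJ_back (hf : F.IsMor R f) (hR : JJ ≤ R) (hx : x ∈ R) (h : f x ∈ JJ) : x ∈ JJ := by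
  obtain ⟨y, hy, e⟩ := ((hf.mono hR).isIso_self fun x hx => mor_JJ hf hR hx).surj _ h
  exact hf.inj (hR hy) hx e ▸ hy

end Cfsg.Agent.C3
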