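import Cfsg.Agent.Lib.C3.PartA

/-!
# S5227: tools for the automizers of the essential subgroups (see notes/C3.md)
-/

set_option autoImplicit false
set_option linter.unusedSectionVars false
set_option linter.unusedVariables false
set_option linter.unusedSimpArgs false
set_option linter.unnecessarySeqFocus false
set_option linter.unusedTactic false
set_option linter.unreachableTactic false

namespace Cfsg.Agent.C3

open Subgroup Cfsg Cfsg.FusionSystem Cfsg.Agent.U5 US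
open scoped commutatorElement

section Abstract

variable {G : Type*} [Group G] {A B K I : Subgroup G}

theorem lin2 (L : (F3 × F3) ≃ₗ[ℤ] (F3 × F3)) (v : F3 × F3) :
    L v = v.1 • L (1, 0) + v.2 • L (0, 1) := by
  rw [← ZMod.map_smul, ← ZMod.map_smul, ← map_add]; congr 1; ext <;> simp

variable (φ : G →* ((F3 × F3) ≃ₗ[ℤ] (F3 × F3))) {u γ : G} (hu : ∀ v, φ u v = (v.1, v.2 + v.1))
include hu

theorem u_pow (i : F3) : ∀ v, φ (u ^ i.val) v = (v.1, v.2 + i * v.1) := fun v => by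
  rcases f3_cases i with rfl | rfl | rfl
  · simp
  · rw [show (1 : F3).val = 1 from rfl, pow_one, hu, one_mul]
  · rw [show (-1 : F3).val = 2 from rfl, pow_two, map_mul, LinearEquiv.mul_apply, hu, hu]
    ext <;> simp; linear_combination v.1 * h3

theorem exists_n [hK : K.Normal] (huA : u ∈ A) (huK : u ∈ K) (hγ : γ ∈ A)
    (hm : (φ γ (0, 1)).1 ≠ 0) : ∃ n ∈ A, n ∈ K ∧ ∀ v, φ n v = (-v.2, v.1) := by
  obtain ⟨δ, hδ, h1, h2⟩ : ∃ δ ∈ A, (φ δ (0, 1)).1 ≠ 0 ∧ (φ δ (0, 1)).2 = 0 := by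
    refine ⟨u ^ (-((φ γ (0, 1)).2 * (φ γ (0, 1)).1)).val * γ, mul_mem (pow_mem huA _) hγ, ?_, ?_⟩ <;>
      rw [map_mul, LinearEquiv.mul_apply, u_pow φ hu]
    · exact hm
    · simp only; linear_combination (-(φ γ (0, 1)).2) * sq_of_ne hm
  have h3 : (φ δ (1, 0)).2 ≠ 0 := fun e => by
    obtain ⟨w, hw⟩ := (φ δ).surjective (0, 1)
    simpa [e, h2] using congrArg Prod.snd ((lin2 _ w).symm.trans hw)
  have h4 : ∀ i v, φ (δ * u ^ (i : F3).val * δ⁻¹) v =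
      (v.1 + i * ((φ δ (0, 1)).1 * (φ δ (1, 0)).2) * v.2, v.2) := fun i v => by
    obtain ⟨w, rfl⟩ := (φ δ).surjective v
    rw [map_mul, map_mul, map_inv, LinearEquiv.mul_apply, LinearEquiv.mul_apply]
    erw [(φ δ).symm_apply_apply]
    rw [u_pow φ hu, lin2, lin2 _ w]
    ext <;> simp [h2]
    linear_combination (-(i * w.1 * (φ δ (0, 1)).1)) * sq_of_ne h3
  have h5 := sq_of_ne (mul_ne_zero h1 h3)
  refine ⟨u * (δ * u ^ (-((φ δ (0, 1)).1 * (φ δ (1, 0)).2)).val * δ⁻¹) * u,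
    mul_mem (mul_mem huA (mul_mem (mul_mem hδ (pow_mem huA _)) (inv_mem hδ))) huA,
    mul_mem (mul_mem huK (hK.conj_mem _ (pow_mem huK _) _)) huK, fun v => ?_⟩
  rw [map_mul, map_mul, LinearEquiv.mul_apply, LinearEquiv.mul_apply, hu v, h4, hu]
  ext <;> simp <;> linear_combination (-(v.2 + v.1)) * h5

theorem gen_abs (huA : u ∈ A) (huB : u ∈ B) {n : G} (hnA : n ∈ A) (hnB : n ∈ B)
    (hn : (φ n (0, 1)).1 ≠ 0) (hfix : ∀ γ ∈ A, (φ γ (0, 1)).1 = 0 → γ ∈ B) : A ≤ B := fun γ hγ => by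
  by_cases hm : (φ γ (0, 1)).1 = 0
  · exact hfix γ hγ hm
  obtain ⟨i, s, e⟩ : ∃ i s : F3, ((φ γ (0, 1)).1, (φ γ (0, 1)).2 + i * (φ γ (0, 1)).1) =
      s • φ n (0, 1) := by
    have : ∀ a b c d : F3, a ≠ 0 → c ≠ 0 → ∃ i s : F3, a = s * c ∧ b + i * a = s * d := by decide
    obtain ⟨i, s, e1, e2⟩ := this _ (φ γ (0, 1)).2 _ (φ n (0, 1)).2 hm hn
    exact ⟨i, s, Prod.ext e1 e2⟩
  have := hfix (n⁻¹ * (u ^ i.val * γ)) (mul_mem (inv_mem hnA) (mul_mem (pow_mem huA _) hγ)) (by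
    rw [map_mul, map_mul, LinearEquiv.mul_apply, LinearEquiv.mul_apply, u_pow φ hu, e, ZMod.map_smul,
      map_inv]
    erw [(φ n).symm_apply_apply]
    simp)
  exact (mul_mem_cancel_left (pow_mem huB _)).1 ((mul_mem_cancel_left (inv_mem hnB)).1 this)

omit hu in
theorem exists_sq [hn : I.Normal] (hI : IsPGroup 3 I) {n t m : G} (ht : t * t = 1) (hm : m ∈ I)
    (e : n * n = m * t) : ∃ ρ ∈ I, ∃ k : ℕ, (ρ⁻¹ * n ^ (4 * k + 1) * ρ) ^ 2 = t := by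
  have ti : t⁻¹ = t := inv_eq_of_mul_eq_one_right ht
  have h4 : n ^ 4 ∈ I := by
    have : n ^ 4 = m * (t * m * t⁻¹) := by
      rw [ti, show n ^ 4 = n * n * (n * n) by simp [pow_succ, mul_assoc], e]; group
    rw [this]; exact mul_mem hm (hn.conj_mem m hm t)
  obtain ⟨k, hk⟩ := hI ⟨_, h4⟩
  have hk' : (n ^ 4) ^ 3 ^ k = 1 := congrArg Subtype.val hk
  obtain ⟨j, hj⟩ : ∃ j, 3 ^ k * 3 ^ k = 4 * j + 1 := by
    refine ⟨3 ^ k * 3 ^ k / 4, ?_⟩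
    have : (3 ^ k * 3 ^ k) % 4 = 1 := by rw [← mul_pow, Nat.pow_mod]; simp
    omega
  have e1 : n ^ (4 * j + 1) * n ^ (4 * j + 1) = (n ^ 4) ^ (2 * j) * m * t := by
    rw [mul_assoc, ← e, ← pow_two n, ← pow_mul, ← pow_add, ← pow_add]; congr 1; ring
  have e2 : ((n ^ 4) ^ (2 * j) * m * t) * ((n ^ 4) ^ (2 * j) * m * t) = 1 := by
    rw [← e1, ← hj, ← pow_add, ← pow_add,
      show 3 ^ k * 3 ^ k + 3 ^ k * 3 ^ k + (3 ^ k * 3 ^ k + 3 ^ k * 3 ^ k) = 4 * 3 ^ k * 3 ^ k by ring,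
      pow_mul, pow_mul, hk', one_pow]
  have hm' : (n ^ 4) ^ (2 * j) * m ∈ I := mul_mem (pow_mem h4 _) hm
  generalize (n ^ 4) ^ (2 * j) * m = m' at e1 e2 hm'
  obtain ⟨l, hl⟩ := hI ⟨_, hm'⟩
  have hl' : m' ^ 3 ^ l = 1 := congrArg Subtype.val hl
  obtain ⟨i, hi⟩ : ∃ i, 3 ^ l + 1 = 2 * i := by
    have : 3 ^ l % 2 = 1 := by rw [Nat.pow_mod]; simp
    exact ⟨(3 ^ l + 1) / 2, by omega⟩
  have e3 : m' ^ i * m' ^ i = m' := by rw [← pow_add, ← two_mul, ← hi, pow_succ, hl', one_mul]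
  have e4 : t * m' ^ i * t⁻¹ = (m' ^ i)⁻¹ := by
    rw [← conj_pow, ← inv_pow]; congr 1
    rw [ti]; exact eq_inv_of_mul_eq_one_right (by rw [← e2]; group)
  refine ⟨m' ^ i, pow_mem hm' _, j, ?_⟩
  calc _ = (m' ^ i)⁻¹ * (n ^ (4 * j + 1) * n ^ (4 * j + 1)) * m' ^ i := by rw [pow_two]; group
    _ = (m' ^ i)⁻¹ * (m' ^ i * m' ^ i) * (t * m' ^ i * t⁻¹) * t := by rw [e1, e3]; group
    _ = t := by rw [e4]; group

end Abstract

theorem exists_vb' {W : Type*} [Group W] {R C : Subgroup W} {X : Type*} [AddCommGroup X]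
    (hC : C ≤ R) (hi : ∀ γ : MulAut R, Inv γ C) (π : W → X)
    (hm : ∀ x ∈ C, ∀ y ∈ C, π (x * y) = π x + π y) (hs : ∀ v, ∃ x ∈ C, π x = v)
    (hk : ∀ γ : MulAut R, ∀ x ∈ C, π x = 0 → π (equivFun γ x) = 0) :
    ∃ vb : MulAut R →* (X ≃ₗ[ℤ] X), ∀ γ, ∀ x ∈ C, vb γ (π x) = π (equivFun γ x) := by
  choose s hs1 hs2 using hs
  have m : ∀ γ : MulAut R, ∀ {x}, x ∈ C → equivFun γ x ∈ C := fun γ x hx => hi γ x (hC hx) hx
  have h1 : π 1 = 0 := by simpa using hm 1 (one_mem _) 1 (one_mem _)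
  have hi : ∀ x ∈ C, π x⁻¹ = -π x := fun x hx => by
    have := hm x hx _ (inv_mem hx)
    rw [mul_inv_cancel, h1] at this
    exact (neg_eq_of_add_eq_zero_right this.symm).symm
  have key : ∀ γ : MulAut R, ∀ x ∈ C, π (equivFun γ (s (π x))) = π (equivFun γ x) := fun γ x hx => by
    have := hk γ _ (mul_mem (inv_mem hx) (hs1 (π x))) (by rw [hm _ (inv_mem hx) _ (hs1 _), hi x hx, hs2]; simp)
    rw [ef_mul _ (hC (inv_mem hx)) (hC (hs1 _)), hm _ (m _ (inv_mem hx)) _ (m _ (hs1 _)),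
      ef_inv _ (hC hx), hi _ (m _ hx)] at this
    exact (neg_add_eq_zero.1 this).symm
  have k2 : ∀ (γ δ : MulAut R) v, π (equivFun γ (s (π (equivFun δ (s v))))) =
      π (equivFun (γ * δ) (s v)) := fun γ δ v => by
    rw [key γ _ (m _ (hs1 v)), equivFun_mul _ _ (hC (hs1 v))]
  have k1 : ∀ v, π (equivFun (1 : MulAut R) (s v)) = v := fun v => by
    rw [equivFun_one (hC (hs1 v)), hs2]
  refine ⟨MonoidHom.mk' (fun γ => AddEquiv.toIntLinearEquiv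
    ⟨⟨fun v => π (equivFun γ (s v)), fun v => π (equivFun γ⁻¹ (s v)),
    fun v => by simp only [k2, inv_mul_cancel, k1], fun v => by simp only [k2, mul_inv_cancel, k1]⟩,
    fun v w => ?_⟩) fun γ δ => LinearEquiv.ext fun v => (k2 γ δ v).symm, key⟩
  show π (equivFun γ (s (v + w))) = π (equivFun γ (s v)) + π (equivFun γ (s w))
  rw [← hm _ (m _ (hs1 v)) _ (m _ (hs1 w)), ← ef_mul _ (hC (hs1 v)) (hC (hs1 w)),
    ← key γ _ (mul_mem (hs1 v) (hs1 w)), hm _ (hs1 v) _ (hs1 w), hs2, hs2]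

/-- a characteristic elementary abelian section of `R` -/
structure Sec (R C : Subgroup US) {X : Type} [AddCommGroup X] (π : US → X) : Prop where
  le : C ≤ R
  inv : ∀ γ : MulAut R, Inv γ C
  add : ∀ x ∈ C, ∀ y ∈ C, π (x * y) = π x + π y
  surj : ∀ v, ∃ x ∈ C, π x = v
  ker : ∀ γ : MulAut R, ∀ x ∈ C, π x = 0 → π (equivFun γ x) = 0
  inn : ∀ t ∈ R, ∀ x ∈ C, π (t * x * t⁻¹) = π x

variable {F E : FusionSystem (⊤ : Subgroup US)} {R C D : Subgroup US} {π : US → F3 × F3}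
  {ρ : US → F3} {u x0 : US}

theorem Sec.vb {X : Type} [AddCommGroup X] {π : US → X} (h : Sec R C π) :
    ∃ vb : MulAut R →* (X ≃ₗ[ℤ] X), (∀ γ, ∀ x ∈ C, vb γ (π x) = π (equivFun γ x)) ∧
      ∀ γ (L : X → X), (∀ x ∈ C, π (equivFun γ x) = L (π x)) → ∀ v, vb γ v = L v := by
  obtain ⟨vb, hv⟩ := exists_vb' h.le h.inv π h.add h.surj h.ker
  refine ⟨vb, hv, fun γ L e v => ?_⟩
  obtain ⟨x, hx, rfl⟩ := h.surj v
  rw [hv γ x hx, e x hx]

theorem mem_aut {f : US → US} {γ : MulAut R} (hf : F.IsMor R f) (e : ∀ x ∈ R, equivFun γ x = f x) :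
    γ ∈ F.autGroup R := hf.mem_autGroup fun x => by rw [← e x x.2, equivFun_coe]

theorem Sec.gen (h : Sec R C π) (hu : u ∈ normalizer (R : Set US))
    (e : ∀ x ∈ C, π (u * x * u⁻¹) = ((π x).1, (π x).2 + (π x).1)) (hx : x0 ∈ C) (e0 : π x0 = (0, 1))
    {n : US → US} (h1 : F.IsMor R n) (h2 : E.IsMor R n) (h3 : ∀ x ∈ R, n x ∈ R)
    (hn : (π (n x0)).1 ≠ 0)
    (hfix : ∀ γ ∈ F.autGroup R, (π (equivFun γ x0)).1 = 0 → γ ∈ E.autGroup R) {f : US → US}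
    (hf : F.IsIso R R f) : E.IsMor R f := by
  obtain ⟨vb, hv, hv'⟩ := h.vb
  obtain ⟨N, hN, eN⟩ := (h1.isIso_self h3).exists_aut
  obtain ⟨γ, hγ, eγ⟩ := hf.exists_aut
  exact (isMor_of_mem_autGroup le_top (gen_abs vb (u := conjAut R hu)
    (hv' _ _ fun x hx => by rw [equivFun_conjAut _ (h.le hx), e x hx])
    (F.conjAut_mem_autGroup le_top trivial hu) (E.conjAut_mem_autGroup le_top trivial hu) hN
    (mem_aut h2 eN) (by rwa [← e0, hv _ _ hx, eN _ (h.le hx)])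
    (fun γ hγ k => hfix γ hγ (by rwa [← e0, hv _ _ hx] at k)) hγ)).congr eγ

/-- `n` induces the Weyl element on `C` and the identity on `D` -/
def NP (C D : Subgroup US) (π : US → F3 × F3) (ρ : US → F3) (n : MulAut R) : Prop :=
  (∀ x ∈ C, π (equivFun n x) = (-(π x).2, (π x).1)) ∧ ∀ x ∈ D, ρ (equivFun n x) = ρ x

theorem Sec.exists_n (h : Sec R C π) (h' : Sec R D ρ) (hu : u ∈ normalizer (R : Set US))
    (e : ∀ x ∈ C, π (u * x * u⁻¹) = ((π x).1, (π x).2 + (π x).1))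
    (e' : ∀ x ∈ D, ρ (u * x * u⁻¹) = ρ x) (hx : x0 ∈ C) (e0 : π x0 = (0, 1)) {γ : MulAut R}
    (hγ : γ ∈ F.autGroup R) (hm : (π (equivFun γ x0)).1 ≠ 0) :
    ∃ n ∈ F.autGroup R, NP C D π ρ n := by
  obtain ⟨vb, hv, hv'⟩ := h.vb
  obtain ⟨wb, hw, hw'⟩ := h'.vb
  obtain ⟨n, h1, h2, h3⟩ := C3.exists_n vb (K := wb.ker) (u := conjAut R hu)
    (hv' _ _ fun x hx => by rw [equivFun_conjAut _ (h.le hx), e x hx])
    (F.conjAut_mem_autGroup le_top trivial hu)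
    (LinearEquiv.ext (hw' _ id fun x hx => by rw [equivFun_conjAut _ (h'.le hx), e' x hx]; rfl)) hγ
    (by rwa [← e0, hv _ _ hx])
  exact ⟨n, h1, fun x hx => by rw [← hv _ _ hx, h3], fun x hx => by
    rw [← hw _ _ hx, MonoidHom.mem_ker.1 h2]; rfl⟩

theorem Sec.exists_n' (h : Sec R C π) (h' : Sec R D ρ) {n : MulAut R} (hn : n ∈ F.autGroup R)
    (e : NP C D π ρ n) {τ : US → US} (hτ : ∀ x, τ (τ x) = x) {s : US} (hs : s ∈ R)
    (hτR : ∀ x ∈ R, τ x ∈ R) (e2 : ∀ x ∈ R, equivFun n (equivFun n x) = s * τ x * s⁻¹) :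
    ∃ n ∈ F.autGroup R, NP C D π ρ n ∧ ∀ x ∈ R, equivFun n (equivFun n x) = τ x := by
  obtain ⟨vb, hv, hv'⟩ := h.vb
  obtain ⟨wb, hw, hw'⟩ := h'.vb
  haveI : (Inn R).Normal := normalizer_eq_top_iff.1 (eq_top_iff.2 (le_normalizer_inn ⊤))
  have hs' : s ∈ normalizer (R : Set US) := le_normalizer hs
  have ht : ∀ x ∈ R, equivFun ((conjAut R hs')⁻¹ * (n * n)) x = τ x := fun x hx => by
    rw [equivFun_mul _ _ hx, equivFun_mul _ _ hx, e2 x hx, ← equivFun_conjAut hs' (hτR x hx),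
      equivFun_inv_apply _ (hτR x hx)]
  obtain ⟨r, hr, k, e3⟩ := exists_sq (isPGroup_inn (isPGroup_US.to_subgroup R)) (n := n)
    (t := (conjAut R hs')⁻¹ * (n * n)) (m := conjAut R hs')
    (mulEquiv_ext_equivFun fun x hx => by
      rw [equivFun_mul _ _ hx, ht x hx, ht _ (hτR x hx), hτ, equivFun_one hx])
    (mem_inn_iff.2 ⟨s, hs, fun x => rfl⟩) (by group)
  obtain ⟨r', hr', er⟩ := mem_inn_iff.1 hr
  have v1 : vb r = 1 := LinearEquiv.ext (hv' _ id fun x hx => by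
    rw [equivFun_of_mem _ (h.le hx), er, h.inn r' hr' x hx]; rfl)
  have w1 : wb r = 1 := LinearEquiv.ext (hw' _ id fun x hx => by
    rw [equivFun_of_mem _ (h'.le hx), er, h'.inn r' hr' x hx]; rfl)
  have v2 := hv' n (fun v => (-v.2, v.1)) e.1
  have w2 : wb n = 1 := LinearEquiv.ext (hw' n id e.2)
  have v3 : vb n ^ 4 = 1 := LinearEquiv.ext fun v => by simp [pow_succ, v2]
  have hI := F.inn_le_autGroup le_top hr
  refine ⟨_, mul_mem (mul_mem (inv_mem hI) (pow_mem hn (4 * k + 1))) hI, ⟨fun x hx => ?_,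
    fun x hx => ?_⟩, fun x hx => by rw [← equivFun_mul _ _ hx, ← pow_two, e3, ht x hx]⟩
  · rw [← hv _ _ hx, map_mul, map_mul, map_inv, map_pow, pow_succ, pow_mul, v3]; simp [v1, v2]
  · rw [← hw _ _ hx]; simp [w1, w2]

/-- the chain through `J ⟨d⟩` -/
def lK : List (Subgroup US) := [Z1, Z2, Z3, H0, JJ, KK]

theorem lK_mono : Steps (· ≤ ·) ⊥ lK :=
  ⟨bot_le, Z1_le_Z2, Z2_le_Z3, Z3_le_H0, H0_le_JJ, JJ_le_KK, le_top⟩

theorem lK_conj (R : Subgroup US) (t : US) : Steps (Tr R fun x => t * x * t⁻¹) ⊥ lK :=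
  ⟨fun x _ hx => by simp [US.ext_iff, mem_Z1.1 hx], fun x _ hx => by simp [mem_Z1, mem_Z2.1 hx],
    fun x _ hx => by simp [mem_Z2, mem_Z3.1 hx], fun x _ hx => by simp [mem_Z3, mem_H0.1 hx],
    fun x _ hx => by simp [mem_H0, mem_JJ.1 hx], fun x _ hx => by simp [mem_JJ, mem_KK.1 hx],
    fun x _ _ => by simp [mem_KK]⟩

theorem inv_lK (hR : KK ≤ R) {γ : MulAut R} (h : equivFun γ (xd 1) ∈ KK) : ∀ B ∈ lK, Inv γ B := by
  have hJ := JJ_le_KK.trans hR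
  have iJ := inv_JJ hJ γ
  have hd : xd 1 ∈ R := hR ⟨rfl, rfl⟩
  have hc : xc 1 ∈ R := hR ⟨rfl, rfl⟩
  have he : xe 1 ∈ R := hR ⟨rfl, rfl⟩
  have iK : Inv γ KK := inv_of_gen iJ JJ_le_KK hJ hd h fun x hx => by
    simpa [mem_JJ, mem_KK.1 hx] using f3_tri x.d
  have c1 := iJ _ hc ⟨rfl, rfl, rfl⟩
  have iY : Inv γ YY := inv_cm Inv.bot iK (fun x _ H => by
      have k1 := H _ hd ⟨rfl, rfl⟩
      have k2 := H _ he ⟨rfl, rfl⟩
      simp [US.ext_iff, two_ne] at k1 k2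
      casesm* _ ∧ _
      simp_all [mem_YY, two_ne]) fun x _ hx y _ hy => by simp [US.ext_iff, mem_YY.1 hx, mem_KK.1 hy]
  have i1 : Inv γ Z1 := inv_Z1_of (Z1_le_KK.trans hR) (s := -1) (by decide) (by
    rw [show xz (-1) = ⁅xd 1, ⁅xd 1, xc 1⁆⁆ by decide, ef_ce _ hd (ce_mem hd hc), ef_ce _ hd hc]
    simp [mem_Z1, mem_KK.1 h, mem_JJ.1 c1])
  have i2 : Inv γ Z2 := inv_Z2_of (Z2_le_KK.trans hR) i1 (y := xh 1) (by simp [mem_Z2])
    (by simp [mem_Z1]) (by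
      have k := iY (xh 1) (hR ⟨rfl, rfl⟩) ⟨rfl, rfl, rfl, rfl, rfl, rfl⟩
      have e1 := iJ _ he ⟨rfl, rfl, rfl⟩
      rw [show xh 1 = ⁅xd 1, xe 1⁆ by decide, ef_ce _ hd he] at k ⊢
      simpa [mem_Z2, mem_YY, mem_KK.1 h, mem_JJ.1 e1] using k)
  have i3 : Inv γ Z3 := inv_of_gen iY YY_le_Z3 (YY_le_KK.trans hR) (ce_mem hd hc)
    (by rw [ef_ce _ hd hc]; simp [mem_Z3, mem_KK.1 h, mem_JJ.1 c1]) fun x hx => by
      simpa [mem_YY, mem_Z3.1 hx, -commutatorElement_inv] using f3_tri x.f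
  have iH : Inv γ H0 := inv_cm i2 iK (fun x _ H => by
    have k1 := H _ hd ⟨rfl, rfl⟩
    have k2 := H _ he ⟨rfl, rfl⟩
    have k3 := H _ hc ⟨rfl, rfl⟩
    simp [mem_Z2, two_ne] at k1 k2 k3
    casesm* _ ∧ _
    simp_all [mem_H0]) fun x _ hx y _ hy => by simp [mem_Z2, mem_H0.1 hx, mem_KK.1 hy]
  simpa [lK] using ⟨i1, i2, i3, iH, iJ, iK⟩

theorem ext_of (hF : F.IsSaturated 3) [R.Normal] (l : List (Subgroup US)) (hm : Steps (· ≤ ·) ⊥ l)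
    (hT : ∀ t, Steps (Tr R fun x => t * x * t⁻¹) ⊥ l) {γ : MulAut R} (hγ : γ ∈ F.autGroup R)
    (hi : ∀ B ∈ l, Inv γ B) : ∃ f, F.IsIso ⊤ ⊤ f ∧ ∀ x ∈ R, f x = equivFun γ x :=
  exists_ext isPGroup_US hF hγ fun t =>
    let ⟨s, _, k⟩ := normL isPGroup_US (hF.sylowIn isPGroup_top (fullN F R)) l hm (fun t _ => hT t) hγ hi
      (mem_norm t)
    ⟨s, k⟩

theorem isIso_tauF {f : US → US} (hf : F.IsIso ⊤ ⊤ f) {s : US} {p q r : F3}
    (e : ∀ x, f x = s * tauF p q r x * s⁻¹) : F.IsIso ⊤ ⊤ (tauF p q r) :=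
  (((F.isMor_conj le_rfl (mem_top s⁻¹)).comp' hf.mor
    fun _ _ => trivial).congr fun x _ => by rw [e]; group).isIso_top

end Cfsg.Agent.C3
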