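import Cfsg.Agent.Lib.C3.L3

/-!
# S5227: essential subgroups, the case where `Z1` is normalized (see notes/C3.md)
-/

set_option autoImplicit false
set_option synthInstance.maxSize 4096
set_option linter.unusedSectionVars false
set_option linter.unusedVariables false
set_option linter.unusedSimpArgs false
set_option linter.unnecessarySeqFocus false
set_option linter.unusedTactic false
set_option linter.unreachableTactic false

namespace Cfsg.Agent.C3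

open Subgroup Cfsg Cfsg.FusionSystem Cfsg.Agent.U5 US
open scoped commutatorElement

variable {R : Subgroup US} {M A : Subgroup (MulAut R)} {g : MulAut R} {x y t : US}

theorem cube_one (h : x ^ 3 = 1) : x.b * x.c = 0 ∧ (x.a = 0 → x.b = 0 → x.d * x.c = 0) := by
  have h1 := congrArg US.g h
  have h2 := congrArg US.z h
  simp [pow_succ] at h1 h2
  refine ⟨?_, fun ha hb => ?_⟩
  · have : ∀ b c : F3, 2 * b ^ 2 * c = 0 → b * c = 0 := by decide
    exact this _ _ (by linear_combination h1 - (x.g + 2 * x.b * x.e + x.b ^ 2 * x.c) * h3)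
  · have : ∀ b c : F3, 2 * b ^ 2 * c = 0 → b * c = 0 := by decide
    simp only [ha, hb] at h2
    exact this _ _ (by linear_combination h2 - (x.z + 2 * x.d * x.f + x.d ^ 2 * x.c) * h3)

theorem ef_cube (hy : y ∈ R) (h : y ^ 3 = 1) : equivFun g y ^ 3 = 1 := by
  rw [← (isHomOn_equivFun g).map_pow hy, h, ef_one]

theorem tx_val (ht : t ∈ normalizer (R : Set US)) (hy : y ∈ R) :
    equivFun (g⁻¹ * conjAut R ht * g⁻¹⁻¹) y =
      y * equivFun g⁻¹ ((equivFun g y)⁻¹ * (t * equivFun g y * t⁻¹)) := by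
  have hw := equivFun_mem g hy
  rw [ef_conj _ _ hy, inv_inv, ef_mul _ (inv_mem hw) (conj_mem_of_mem_normalizer ht hw),
    ef_inv _ hw, equivFun_inv_apply _ hy, mul_inv_cancel_left]

theorem tx_bad (h : Loc 3 R M A) (hg : g ∈ A) (hb : g ∉ M) (ht : t ∈ normalizer (R : Set US))
    (htR : t ∉ R) : g⁻¹ * conjAut R ht * g⁻¹⁻¹ ∈ A ∧ g⁻¹ * conjAut R ht * g⁻¹⁻¹ ∉ M :=
  ⟨mul_mem (mul_mem (inv_mem hg) (h.cj_A ht)) (inv_mem (inv_mem hg)),
    fun hm => hb (inv_mem_iff.1 (h.se t ht htR _ (inv_mem hg) hm))⟩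

theorem card_F3 : Nat.card F3 = 3 := Nat.card_zmod 3

theorem c12 : Nat.card F3 < Nat.card (F3 × F3) := by simp [Nat.card_prod]

theorem c23 : Nat.card (F3 × F3) < Nat.card (F3 × F3 × F3) := by simp [Nat.card_prod]

theorem cm_Y (hx : x.a = 0) (hy : y ∈ YY) : x⁻¹ * (y * x * y⁻¹) ∈ Z1 := by
  simp [mem_Z1, hx, mem_YY.1 hy]

theorem cm_Z3' (hy : y ∈ Z3) (h : x.a * y.g + x.b * y.f = 0) : x⁻¹ * (y * x * y⁻¹) ∈ Z1 := by
  simp [mem_Z1, mem_Z3.1 hy]; linear_combination -h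

theorem L2 (h : Loc 3 R M A) (hno : ∀ g ∈ A, Inv g Z1 → Inv g Z2 → g ∈ M) {g₀ : MulAut R}
    (hg₀ : g₀ ∈ A) (hb₀ : g₀ ∉ M) (h₀ : Inv g₀ Z1) : R = E1 ∨ R = E2 := by
  have e1 := Z1_le h
  have e2 := Z2_le h hg₀ hb₀ h₀
  have zh : xh 1 ∈ Z2 := ⟨rfl, rfl, rfl, rfl, rfl, rfl, rfl⟩
  have zh' : xh 1 ∉ Z1 := by simp [mem_Z1]
  have hR := e2 zh
  obtain ⟨B, hB⟩ : ∃ B : MulAut R → Prop, ∀ g, B g ↔ g ∈ A ∧ g ∉ M ∧ Inv g Z1 := ⟨_, fun _ => Iff.rfl⟩
  have D : ∀ {g}, B g → ∀ x, x ∈ R ↔ (equivFun g (xh 1))⁻¹ * (x * equivFun g (xh 1) * x⁻¹) ∈ Z1 :=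
    fun {g} hg x => by
      obtain ⟨k1, k2, k3⟩ := (hB g).1 hg
      exact ⟨fun hx => k3.cm hR hx (by simp [mem_Z1]), fun hx =>
        mem_of_max h.hW h.se (P := A ⊓ invS R Z1) inf_le_left
          (fun t ht => ⟨h.cj_A ht, mem_invS.2 (inv_conjAut' ht)⟩) e1 hR
          (fun γ hγ _ k => hno γ hγ.1 hγ.2 (inv_Z2_of e2 hγ.2 zh zh'
            ((mul_mem_cancel_left (inv_mem zh)).1 (Z1_le_Z2 k)))) ⟨k1, k3⟩ k2 k3
          (fun r _ => by simp [mem_Z1]) hx⟩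
  have TX : ∀ {g}, B g → ∀ t (ht : t ∈ normalizer (R : Set US)), t ∉ R → ∃ g', B g' ∧
      equivFun g' (xh 1) =
        xh 1 * equivFun g⁻¹ ((equivFun g (xh 1))⁻¹ * (t * equivFun g (xh 1) * t⁻¹)) :=
    fun {g} hg t ht htR => by
      obtain ⟨k1, k2, k3⟩ := (hB g).1 hg
      obtain ⟨l1, l2⟩ := tx_bad h k1 k2 ht htR
      exact ⟨_, (hB _).2 ⟨l1, l2, (k3.inv.mul (inv_conjAut' ht)).mul k3.inv.inv⟩, tx_val ht hR⟩
  have NZ : ∀ {g}, B g → equivFun g (xh 1) ∉ Z2 := fun {g} hg k => by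
    obtain ⟨k1, k2, k3⟩ := (hB g).1 hg
    exact k2 (hno g k1 k3 (inv_Z2_of e2 k3 zh zh' k))
  have E : ∀ {g}, B g → ∀ {C : Subgroup US}, Z1 ≤ C → ∀ x ∈ R, ∀ y ∈ R, ⁅x, y⁆⁻¹ * xh 1 ∈ Z1 →
      ⁅equivFun g x, equivFun g y⁆ ∈ C → equivFun g (xh 1) ∈ C := fun {g} hg C hC x hx y hy k1 k2 =>
    ef_cong ((hB g).1 hg).2.2 e1 hC (ce_mem hx hy) hR k1 (by rwa [ef_ce _ hx hy])
  -- the case `R = J`
  have cJ : ∀ {g}, B g → (∀ x, x ∈ R ↔ x ∈ JJ) → False := fun {g} hg hJ => by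
    have hw : ∀ γ : MulAut R, equivFun γ (xh 1) ∈ JJ := fun γ => (hJ _).1 (equivFun_mem γ hR)
    have hn : ∀ t, t ∈ normalizer (R : Set US) := fun t => mem_norm_of_cm fun x hx =>
      (hJ _).2 (by simp [mem_JJ, mem_JJ.1 ((hJ x).1 hx)])
    have π1 : ∀ x ∈ R, ∀ y ∈ R, (x * y).e = x.e + y.e := fun x hx y hy => by
      simp [mem_JJ.1 ((hJ x).1 hx)]
    have step : ∀ {g}, B g → ∀ u ∈ JJ, ∀ t ∉ JJ,
        u⁻¹ * ((equivFun g (xh 1))⁻¹ * (t * equivFun g (xh 1) * t⁻¹)) ∈ Z1 → ∃ g', B g' ∧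
        (equivFun g' (xh 1)).c = (equivFun g⁻¹ u).c ∧ (equivFun g' (xh 1)).e = (equivFun g⁻¹ u).e :=
      fun {g} hg u hu t ht k => by
        obtain ⟨g', k1, k2⟩ := TX hg t (hn t) fun hc => ht ((hJ t).1 hc)
        have k3 := ((hB g).1 hg).2.2.inv _ (e1 k) k
        have hu' := (hJ u).2 hu
        rw [← mul_inv_cancel_left u (_ * (_ * _ * _)), ef_mul _ hu' (e1 k)] at k2
        exact ⟨g', k1, by simp [k2, mem_Z1.1 k3], by simp [k2, mem_Z1.1 k3]⟩
    have c0 : ∀ {g}, B g → (equivFun g (xh 1)).c = 0 → False := fun {g} hg hc => by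
      have he : ∀ {g}, B g → (equivFun g (xh 1)).c = 0 → (equivFun g (xh 1)).e ≠ 0 :=
        fun {g} hg hc he => by
          simpa [mem_JJ] using (hJ _).1 ((D hg (xd 1)).2 (by simp [mem_Z1, mem_JJ.1 (hw g), hc, he]))
      obtain ⟨⟨i, j, k⟩, hi, e⟩ := tx_ker c23 g⁻¹ (fun x => (x.c, x.e))
        (fun i => ⟨0, 0, 0, 0, 0, i.1, i.2.1, i.2.2, 0⟩) (fun i => (hJ _).2 ⟨rfl, rfl, rfl⟩)
        (fun x hx y hy => by simp [π1 x hx y hy]) fun i j => by ext <;> simp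
      have k1 := hw g
      have k2 := he hg hc
      obtain ⟨g', k3, k4, k5⟩ := step hg ⟨0, 0, 0, 0, 0, i, j, k, 0⟩ ⟨rfl, rfl, rfl⟩
        ⟨i * (equivFun g (xh 1)).e, -(j * (equivFun g (xh 1)).e), 0,
          (k + j * (equivFun g (xh 1)).e * (equivFun g (xh 1)).f -
            i * (equivFun g (xh 1)).e * (equivFun g (xh 1)).g + i * j * (equivFun g (xh 1)).e) *
            (equivFun g (xh 1)).e, 0, 0, 0, 0, 0⟩ (fun hj => hi (by
          simp [mem_JJ, k2] at hj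
          obtain ⟨rfl, rfl, hj⟩ := hj
          simpa using hj)) (by
          generalize equivFun g (xh 1) = w at *
          simp [mem_Z1, mem_JJ.1 k1, hc]
          rcases ne_cases k2 with k | k <;> simp only [k] <;> and_intros <;> ring_nf <;> simp [h3])
      simp only [Prod.mk_eq_zero] at e
      exact he k3 (k4.trans e.1) (k5.trans e.2)
    refine c0 hg (by_contra fun hc => ?_)
    have k1 := hw g
    have hD : (equivFun g (xh 1)).g * (equivFun g (xh 1)).c - (equivFun g (xh 1)).e ^ 2 ≠ 0 :=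
      fun hD => by
        have := (hJ _).1 ((D hg ⟨1, 0, 0, -((equivFun g (xh 1)).e * (equivFun g (xh 1)).c), 0, 0, 0, 0, 0⟩).2 (by
          generalize equivFun g (xh 1) = w at *
          simp [mem_Z1, mem_JJ.1 k1]
          exact ⟨by linear_combination (-w.e) * sq_of_ne hc,
            by linear_combination w.c * hD - w.g * sq_of_ne hc⟩))
        simpa [mem_JJ] using this
    obtain ⟨⟨i, j⟩, hi, e⟩ := tx_ker c12 g⁻¹ US.c (fun i => ⟨0, 0, 0, 0, 0, i.1, 0, i.2, 0⟩)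
      (fun i => (hJ _).2 ⟨rfl, rfl, rfl⟩) (fun x hx y hy => rfl) fun i j => by ext <;> simp
    obtain ⟨a, d, k2, k3, k4⟩ : ∃ a d : F3, ¬ (a = 0 ∧ d = 0) ∧
        (equivFun g (xh 1)).c * d + (equivFun g (xh 1)).e * a = i ∧
        (equivFun g (xh 1)).e * d + (equivFun g (xh 1)).g * a = j := by
      have : ∀ c e g i j : F3, g * c - e ^ 2 ≠ 0 → (i, j) ≠ 0 → ∃ a d : F3, ¬ (a = 0 ∧ d = 0) ∧
        c * d + e * a = i ∧ e * d + g * a = j := by decide +kernel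
      exact this _ _ _ _ _ hD hi
    obtain ⟨g', k5, k6, -⟩ := step hg ⟨0, 0, 0, 0, 0, i, 0, j, 0⟩ ⟨rfl, rfl, rfl⟩
      ⟨a, 0, 0, d, 0, 0, 0, 0, 0⟩ (by simpa [mem_JJ] using k2) (by
        simp [mem_Z1, mem_JJ.1 k1, k3, k4])
    exact c0 k5 (k6.trans e)
  -- the case `g h ∈ J ⟨d⟩`
  have cK : ∀ {g}, B g → equivFun g (xh 1) ∈ KK → R = E1 ∨ R = E2 := fun {g} hg hK => by
    have D' := D hg
    have NZ' := NZ hg
    have E' := @E g hg
    have c3 := (cube_one (ef_cube (g := g) hR (by decide))).2 hK.1 hK.2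
    have i1 := ((hB g).1 hg).2.2
    have hwR := equivFun_mem g hR
    have hwi := equivFun_inv_apply g hR
    have m : ∀ {x}, x ∈ R → equivFun g x ∈ R := fun hx => equivFun_mem g hx
    generalize equivFun g (xh 1) = w at D' NZ' E' c3 hK hwR hwi
    obtain ⟨wa, wb⟩ := hK
    by_cases wd : w.d = 0; swap
    · exfalso
      have wc : w.c = 0 := by simpa [wd] using c3
      have s := sq_of_ne wd
      have zg : xg 1 ∈ R := (D' _).2 (by simp [mem_Z1, wa, wb, wc])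
      by_cases we : w.e = 0
      · have b0 : ∀ r ∈ R, r.c = 0 ∧ -(w.d * r.e) + w.f * r.b + w.g * r.a = 0 := fun r hr => by
          simpa [mem_Z1, wa, wb, wc, wd, we] using (D' r).1 hr
        obtain ⟨y, y1, y2, y3⟩ : ∃ y : US, y.a = 1 ∧ y.b = 0 ∧ y * w = w * y :=
          ⟨⟨1, 0, 0, 0, w.g * w.d, (w.h - w.g) * w.d, 0, 0, 0⟩, rfl, rfl, by
            simp [comm_iff, wa, wb, wc, we]
            exact ⟨by linear_combination (-w.g) * s, by
              linear_combination (2 * w.g - 2 * w.h) * s + w.g * h3⟩⟩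
        have hy : y ∈ R := (D' y).2 (by rw [y3]; simp)
        have key : ∀ u ∈ R, u * w = w * u → (equivFun g⁻¹ u).a = 0 := fun u hu e => by
          have := congrArg (equivFun g⁻¹) e
          rw [ef_mul _ hu hwR, ef_mul _ hwR hu, hwi] at this
          simpa [comm_iff, two_ne] using this
        have k1 := key y hy y3
        have k2 := key _ zg (by simp [comm_iff, wa, wb])
        obtain ⟨k3, k4⟩ := b0 _ (equivFun_mem g⁻¹ hy)
        obtain ⟨k5, k6⟩ := b0 _ (equivFun_mem g⁻¹ zg)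
        obtain ⟨l1, l2, -⟩ := (hB g).1 hg
        refine l2 (inv_mem_iff.1 (hno _ (inv_mem l1) i1.inv (inv_Z2_of e2 i1.inv (y := ⁅y, xg 1⁆)
          (by simp [mem_Z2, y2]) (by simp [mem_Z1, y1, y2]) ?_)))
        rw [ef_ce _ hy zg]
        generalize equivFun g⁻¹ y = u at *
        generalize equivFun g⁻¹ (xg 1) = v at *
        simp [mem_Z2, k1, k2, k3, k5]
        rw [k1] at k4; rw [k2] at k6
        linear_combination (2 * v.b * w.d) * k4 - (2 * u.b * w.d) * k6 +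
          (2 * u.e * v.b - 2 * u.b * v.e) * s
      · have b0 : ∀ r ∈ R, r.b = 0 := fun r hr => by
          have := ((D' r).1 hr).2.2.2.2.2.2.1
          simpa [wb, wc, we, two_ne] using this
        have hy : (⟨1, 0, w.e * w.d, 0, w.g * w.d, 0, 0, 0, 0⟩ : US) ∈ R := (D' _).2 (by
          simp [mem_Z1, wa, wb, wc]
          exact ⟨by linear_combination (-w.e) * s, by linear_combination (-w.g) * s⟩)
        exact wd (E' Z1_le_N2 _ hy _ zg (by simp [mem_Z1, -commutatorElement_inv])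
          (by simp [mem_N2, b0 _ (m hy), b0 _ (m zg)])).2.2.2.1
    have eJ : JJ ≤ R := fun x hx => (D' x).2 (by simp [mem_Z1, wa, wb, wd, mem_JJ.1 hx])
    by_cases hJ : ∀ x ∈ R, x ∈ JJ
    · exact (cJ hg fun x => ⟨hJ x, fun hx => eJ hx⟩).elim
    push Not at hJ
    obtain ⟨y, hy, yJ⟩ := hJ
    have k := (D' y).1 hy
    simp only [mem_JJ] at yJ
    by_cases wc : w.c = 0; swap
    · exfalso
      simp [mem_Z1, wa, wb, wd, wc] at k
      have ya : y.a ≠ 0 := fun ya => yJ ⟨ya, k.1, by simpa [ya, wc] using k.2.1⟩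
      exact wc (E' Z1_le_Z4 _ hy (xg y.a) (eJ ⟨rfl, rfl, rfl⟩)
        (by simp [mem_Z1, k.1, sq_of_ne ya, -commutatorElement_inv]) (by simp [mem_Z4])).2.2
    by_cases we : w.e = 0; swap
    · simp [mem_Z1, wa, wb, wd, wc, we, two_ne] at k
      exact (yJ ⟨k.1, k.2.1, by simpa [k.1, k.2.1, we] using k.2.2⟩).elim
    have D2 : ∀ x, x ∈ R ↔ w.f * x.b + w.g * x.a = 0 := fun x => by
      rw [D' x]; simp [mem_Z1, wa, wb, wd, wc, we]
    by_cases wg : w.g = 0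
    · have wf : w.f ≠ 0 := fun wf => NZ' ⟨wa, wb, wc, wd, we, wf, wg⟩
      exact .inr (Subgroup.ext fun x => by simp [D2, wg, wf, mem_E2])
    by_cases wf : w.f = 0
    · exact .inl (Subgroup.ext fun x => by simp [D2, wg, wf, mem_E1])
    exfalso
    have hd : xd 1 ∈ R := (D2 _).2 (by simp)
    have he : xe 1 ∈ R := eJ ⟨rfl, rfl, rfl⟩
    have iH := inv_H0' eJ i1 (x := ⟨w.f, -w.g, 0, 0, 0, 0, 0, 0, 0⟩) ((D2 _).2 (by simp; ring))
      (by simpa using wg)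
    have hc : xc 1 ∈ R := eJ ⟨rfl, rfl, rfl⟩
    have hc' := equivFun_mem g⁻¹ hc
    have k1 := inv_JJ eJ g⁻¹ _ hc ⟨rfl, rfl, rfl⟩
    have k2 := i1 _ (ce_mem hd (ce_mem hd hc')) (by simp [mem_Z1, mem_JJ.1 k1])
    rw [ef_ce _ hd (ce_mem hd hc'), ef_ce _ hd hc', equivFun_apply_inv _ hc] at k2
    have k3 : (equivFun g (xd 1)).b = 0 := by simpa [two_ne] using k2.2.2.2.2.2.2.1
    have k4 : (equivFun g (xd 1)).a = 0 := by simpa [k3, wg] using (D2 _).1 (m hd)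
    have k5 := iH _ he ⟨rfl, rfl, rfl, rfl⟩
    exact NZ' (E' Z1_le_Z2 _ hd _ he (by simp [mem_Z1, -commutatorElement_inv])
      (by simp [mem_Z2, k3, k4, mem_H0.1 k5]))
  have red : ∀ {g}, B g → ∀ (π : US → F3) (t : F3 × F3 → US), (∀ x y, π (x * y) = π x + π y) →
      π (xh 1) = 0 → (∀ i, ∀ r ∈ R, r⁻¹ * (t i * r * (t i)⁻¹) ∈ R) → (∀ i, t i ∈ R → i = 0) →
      (∀ w i j, w⁻¹ * (t (i + j) * w * (t (i + j))⁻¹) =
        w⁻¹ * (t i * w * (t i)⁻¹) * (w⁻¹ * (t j * w * (t j)⁻¹))) →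
      ∃ g', B g' ∧ π (equivFun g' (xh 1)) = 0 := fun {g} hg π t k1 k2 k3 k4 k5 => by
    obtain ⟨i, hi, e⟩ := tx_ker c12 g⁻¹ π _ (fun i => k3 i _ (equivFun_mem g hR))
      (fun x _ y _ => k1 x y) (k5 _)
    obtain ⟨g', l1, l2⟩ := TX hg (t i) (mem_norm_of_cm (k3 i)) fun hc => hi (k4 i hc)
    exact ⟨g', l1, by rw [l2, k1, k2, e, add_zero]⟩
  have cE : ∀ {g}, B g → (equivFun g (xh 1)).a = 0 → R = E1 ∨ R = E2 := fun {g} hg wa => by
    by_cases wb : (equivFun g (xh 1)).b = 0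
    · exact cK hg ⟨wa, wb⟩
    have D' := D hg
    generalize equivFun g (xh 1) = w at D' wa wb
    have a0 : ∀ r ∈ R, r.a = 0 := fun r hr => by simpa [wa, wb] using ((D' r).1 hr).2.2.2.1
    obtain ⟨g', k1, k2⟩ := red hg US.b (fun i => ⟨0, 0, 0, 0, i.1, i.2, 0, 0, 0⟩) (fun _ _ => rfl) rfl
      (fun i r hr => (D' _).2 (cm_Y wa (by simp [mem_YY, a0 r hr]))) (fun i hi => by
        have := (D' _).1 hi
        simp [mem_Z1, wa, wb, two_ne] at this
        exact Prod.ext this.1 (by simpa [this.1, wb] using this.2)) fun w i j => by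
      ext <;> simp <;> ring
    exact cK k1 ⟨a0 _ (equivFun_mem _ hR), k2⟩
  have hg := (hB g₀).2 ⟨hg₀, hb₀, h₀⟩
  by_cases wa : (equivFun g₀ (xh 1)).a = 0
  · exact cE hg wa
  have D' := D hg
  generalize equivFun g₀ (xh 1) = w at D' wa
  obtain ⟨g', k1, k2⟩ := red hg US.a (fun i => ⟨0, 0, 0, 0, i.1, 0, i.2, 0, 0⟩) (fun _ _ => rfl) rfl
    (fun i r hr => (D' _).2 (cm_Z3' (by simp [mem_Z3]) (by
      have := ((D' r).1 hr).2.2.2.1
      simp at this ⊢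
      linear_combination (-i.1) * this - (w.a * r.b * i.1) * h3))) (fun i hi => by
      have := (D' _).1 hi
      simp [mem_Z1, wa, two_ne] at this
      exact Prod.ext this.1 (by simpa [this.1, wa] using this.2.2)) fun w i j => by
    ext <;> simp <;> ring
  exact cE k1 k2

end Cfsg.Agent.C3
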