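import Cfsg.Agent.Lib.C3.Rank

/-!
# S5227: essential subgroups, the case where `Z1` and `Z2` are normalized (see notes/C3.md)
-/

set_option autoImplicit false
set_option linter.unusedSectionVars false
set_option linter.unusedVariables false
set_option linter.unusedSimpArgs false
set_option linter.unnecessarySeqFocus false
set_option linter.unusedTactic false
set_option linter.unreachableTactic false

namespace Cfsg.Agent.C3

open Subgroup Cfsg Cfsg.FusionSystem Cfsg.Agent.U5 US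
open scoped commutatorElement

variable {R : Subgroup US} {M A : Subgroup (MulAut R)} {g : MulAut R} {x y t : US}

theorem ne_cases {t : F3} (h : t ≠ 0) : t = 1 ∨ t = -1 := (f3_cases t).resolve_left h

theorem tx_ker {X Y : Type*} [AddCommGroup X] [AddCommGroup Y] [Finite Y]
    (hc : Nat.card Y < Nat.card X) (γ : MulAut R) (π : US → Y) (u : X → US) (hu : ∀ i, u i ∈ R)
    (hπ : ∀ x ∈ R, ∀ y ∈ R, π (x * y) = π x + π y)
    (hadd : ∀ i j, u (i + j) = u i * u j) : ∃ i ≠ 0, π (equivFun γ (u i)) = 0 := by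
  by_contra! h
  refine absurd (Nat.card_le_card_of_injective _ ((injective_iff_map_eq_zero (AddMonoidHom.mk'
    (fun i => π (equivFun γ (u i))) fun i j => ?_)).2 fun i hi => by_contra fun h0 => h i h0 hi))
    (not_le.2 hc)
  rw [hadd, ef_mul _ (hu i) (hu j), hπ _ (equivFun_mem _ (hu i)) _ (equivFun_mem _ (hu j))]

theorem norm_of {C : Subgroup US} (hC : C ≤ R) (h : ∀ x ∈ R, x⁻¹ * (t * x * t⁻¹) ∈ C) :
    t ∈ normalizer (R : Set US) := mem_norm_of_cm fun x hx => hC (h x hx)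

theorem inv_of_gen {C D : Subgroup US} (hC : Inv g C) (hCD : C ≤ D) (hR : C ≤ R) {y : US} (hy : y ∈ R)
    (h : equivFun g y ∈ D) (e : ∀ x ∈ D, x ∈ C ∨ y⁻¹ * x ∈ C ∨ y * x ∈ C) : Inv g D :=
  fun x hx hD => by
    rcases e x hD with k | k | k
    · exact hCD (hC x hx k)
    · have := hCD (hC _ (hR k) k)
      rw [ef_mul _ (inv_mem hy) hx, ef_inv _ hy] at this
      exact (mul_mem_cancel_left (inv_mem h)).1 this
    · have := hCD (hC _ (hR k) k)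
      rw [ef_mul _ hy hx] at this
      exact (mul_mem_cancel_left h).1 this

theorem inv_Z1_of (hR : Z1 ≤ R) {s : F3} (hs : s ≠ 0) (h : equivFun g (xz s) ∈ Z1) : Inv g Z1 :=
  fun x hx h1 => by
    rcases Z1_cases h1 hs with rfl | rfl | rfl
    · rw [ef_one]; exact one_mem _
    · exact h
    · rw [ef_inv _ (hR (xz_mem s))]; exact inv_mem h

theorem f3_tri (t : F3) : t = 0 ∨ -1 + t = 0 ∨ 1 + t = 0 := by revert t; decide

theorem inv_Z2_of (hR : Z2 ≤ R) (h1 : Inv g Z1) (hy : y ∈ Z2) (hy1 : y ∉ Z1)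
    (h : equivFun g y ∈ Z2) : Inv g Z2 :=
  inv_of_gen h1 Z1_le_Z2 (Z1_le_Z2.trans hR) (hR hy) h fun x hx => by
    have : ∀ s t : F3, s ≠ 0 → t = 0 ∨ -s + t = 0 ∨ s + t = 0 := by decide
    simpa [mem_Z1, mem_Z2.1 hx, mem_Z2.1 hy] using this y.h x.h
      (by simpa [mem_Z1, mem_Z2.1 hy] using hy1)

/-- a product `y ≡ ⁅u, v⁆` -/
theorem ef_cong {C D : Subgroup US} (hC : Inv g C) (hR : C ≤ R) (hCD : C ≤ D) {u : US} (hu : u ∈ R)
    (hy : y ∈ R) (e : u⁻¹ * y ∈ C) (h : equivFun g u ∈ D) : equivFun g y ∈ D := by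
  have := hCD (hC _ (hR e) e)
  rw [ef_mul _ (inv_mem hu) hy, ef_inv _ hu] at this
  exact (mul_mem_cancel_left (inv_mem h)).1 this

theorem inv_H0' (hR : JJ ≤ R) (h1 : Inv g Z1) (hx : x ∈ R) (hb : x.b ≠ 0) : Inv g H0 :=
  fun y hy h0 => by
    have k1 := inv_JJ hR g y hy (H0_le_JJ h0)
    have hx' := equivFun_mem g⁻¹ hx
    have k2 := h1 _ (ce_mem hx' (ce_mem hx' hy)) (by
      generalize equivFun g⁻¹ x = u
      simp [mem_Z1, mem_H0.1 h0]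
      linear_combination (u.a * u.b * y.e) * h3)
    rw [ef_ce _ hx' (ce_mem hx' hy), ef_ce _ hx' hy, equivFun_apply_inv _ hx] at k2
    have k3 := k2.2.2.2.2.2.2.1
    simp [mem_JJ.1 k1, hb, two_ne] at k3
    exact ⟨k1.1, k1.2.1, k3, k1.2.2⟩

section
variable (h : Loc 3 R M A)
include h

theorem Z1_le : Z1 ≤ R := fun x hx => h.cent x fun r _ => by simp [comm_iff, mem_Z1.1 hx]

variable (hg : g ∈ A) (hb : g ∉ M) (h1 : Inv g Z1)
include hg hb h1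

theorem Z2_le : Z2 ≤ R := fun t ht =>
  chainL h hg hb [Z1] ⟨bot_le, le_top⟩ (by simpa using h1)
    (norm_of (Z1_le h) fun x _ => by simp [mem_Z1, mem_Z2.1 ht])
    ⟨fun x _ hx => by simp [US.ext_iff, mem_Z1.1 hx], fun x _ _ => by simp [mem_Z1, mem_Z2.1 ht]⟩

variable (h2 : Inv g Z2)
include h2

theorem Z3_le : Z3 ≤ R := fun t ht =>
  chainL h hg hb [Z1, Z2] ⟨bot_le, Z1_le_Z2, le_top⟩ (by simpa using ⟨h1, h2⟩)
    (norm_of (Z2_le h hg hb h1) fun x _ => by simp [mem_Z2, mem_Z3.1 ht])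
    ⟨fun x _ hx => by simp [US.ext_iff, mem_Z1.1 hx], fun x _ hx => by simp [mem_Z1, mem_Z2.1 hx],
      fun x _ _ => by simp [mem_Z2, mem_Z3.1 ht]⟩

theorem Z4_le (h3' : Inv g Z3) : Z4 ≤ R := fun t ht =>
  chainL h hg hb [Z1, Z2, Z3] ⟨bot_le, Z1_le_Z2, Z2_le_Z3, le_top⟩ (by simpa using ⟨h1, h2, h3'⟩)
    (norm_of (Z3_le h hg hb h1 h2) fun x _ => by simp [mem_Z3, mem_Z4.1 ht])
    ⟨fun x _ hx => by simp [US.ext_iff, mem_Z1.1 hx], fun x _ hx => by simp [mem_Z1, mem_Z2.1 hx],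
      fun x _ hx => by simp [mem_Z2, mem_Z3.1 hx], fun x _ _ => by simp [mem_Z3, mem_Z4.1 ht]⟩

theorem not_inv_Z3 (h3' : Inv g Z3) : False := by
  have e3 := Z3_le h hg hb h1 h2
  have e4 := Z4_le h hg hb h1 h2 h3'
  have zf : xf 1 ∈ Z3 := ⟨rfl, rfl, rfl, rfl, rfl⟩
  have zg : xg 1 ∈ Z3 := ⟨rfl, rfl, rfl, rfl, rfl⟩
  have iJ : Inv g JJ := inv_cm Inv.bot h3' (fun x _ H => by
    have k1 := H _ (e3 zf) zf
    have k2 := H _ (e3 zg) zg
    simp [US.ext_iff, two_ne] at k1 k2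
    casesm* _ ∧ _
    simp_all [mem_JJ, two_ne]) fun x _ hx y _ hy => by simp [US.ext_iff, mem_JJ.1 hx, mem_Z3.1 hy]
  have iK : Inv g KK := inv_cm h1 h3' (fun x _ H => by
    have k1 := H _ (e3 zf) zf
    have k2 := H _ (e3 zg) zg
    simp [mem_Z1] at k1 k2
    exact ⟨k2, k1⟩) fun x _ hx y _ hy => by simp [mem_Z1, mem_KK.1 hx, mem_Z3.1 hy]
  have hn : ∀ t, t ∈ normalizer (R : Set US) := fun t => norm_of e4 fun x _ => by simp [mem_Z4]
  have ec : xc 1 ∈ R := chainL h hg hb [JJ] ⟨bot_le, le_top⟩ (by simpa using iJ) (hn _)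
    ⟨fun x _ hx => by simp [US.ext_iff, mem_JJ.1 hx], fun x _ _ => by simp [mem_JJ]⟩
  have iH : Inv g H0 := inv_cm h2 iK (fun x _ H => by
    have k1 := H (xd 1) (e4 ⟨rfl, rfl, rfl⟩) ⟨rfl, rfl⟩
    have k2 := H (xe 1) (e4 ⟨rfl, rfl, rfl⟩) ⟨rfl, rfl⟩
    have k3 := H (xc 1) ec ⟨rfl, rfl⟩
    simp [mem_Z2, two_ne] at k1 k2 k3
    casesm* _ ∧ _
    simp_all [mem_H0]) fun x _ hx y _ hy => by simp [mem_Z2, mem_H0.1 hx, mem_KK.1 hy]
  exact h.ne_top (eq_top_iff.2 fun t _ => chainL h hg hb [Z1, Z2, Z3, H0, JJ, KK]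
    ⟨bot_le, Z1_le_Z2, Z2_le_Z3, Z3_le_H0, H0_le_JJ, JJ_le_KK, le_top⟩
    (by simpa using ⟨h1, h2, h3', iH, iJ, iK⟩) (hn t)
    ⟨fun x _ hx => by simp [US.ext_iff, mem_Z1.1 hx], fun x _ hx => by simp [mem_Z1, mem_Z2.1 hx],
      fun x _ hx => by simp [mem_Z2, mem_Z3.1 hx], fun x _ hx => by simp [mem_Z3, mem_H0.1 hx],
      fun x _ hx => by simp [mem_H0, mem_JJ.1 hx], fun x _ hx => by simp [mem_JJ, mem_KK.1 hx],
      fun x _ _ => by simp [mem_KK]⟩)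

theorem L3_J (hJ : ∀ x ∈ R, x.a = 0 → x ∈ JJ) : False := by
  have e2 := Z2_le h hg hb h1
  have e3 := Z3_le h hg hb h1 h2
  have i1 := inv_E1 e2 h2
  have st : ∀ t ∈ JJ, ∀ C, C ≤ R → C ≤ E1 → (∀ x, x⁻¹ * (t * x * t⁻¹) ∈ C) → t ∈ R :=
    fun t ht C k1 k2 k3 => chainL h hg hb [E1] ⟨bot_le, le_top⟩ (by simpa using i1)
      (norm_of k1 fun x _ => k3 x)
      ⟨fun x hx hx' => cm_eq_one (comm_JJ (hJ x hx hx') ht), fun x _ _ => k2 (k3 x)⟩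
  have e4 : H0 ≤ R := fun t ht => st t (H0_le_JJ ht) Z3 e3 Z3_le_E1 fun x => by
    simp [mem_Z3, mem_H0.1 ht]
  have eJ : JJ ≤ R := fun t ht => st t ht H0 e4 H0_le_E1 fun x => by simp [mem_H0, mem_JJ.1 ht]
  have nd : xd 1 ∉ R := fun hd => by simpa [mem_JJ] using hJ _ hd rfl
  have hn : xd 1 ∈ normalizer (R : Set US) := norm_of eJ fun x _ => by simp [mem_JJ]
  by_cases hx : ∃ x ∈ R, x.b ≠ 0
  · obtain ⟨x, hx, hxb⟩ := hx
    exact nd (chainL h hg hb [Z1, Z2, H0, JJ] ⟨bot_le, Z1_le_Z2, Z2_le_H0, H0_le_JJ, le_top⟩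
      (by simpa using ⟨h1, h2, inv_H0' eJ h1 hx hxb, inv_JJ eJ g⟩) hn
      ⟨fun x _ hx => by simp [US.ext_iff, mem_Z1.1 hx], fun x _ hx => by simp [mem_Z1, mem_Z2.1 hx],
        fun x _ hx => by simp [mem_Z2, mem_H0.1 hx], fun x _ hx => by simp [mem_H0, mem_JJ.1 hx],
        fun x _ _ => by simp [mem_JJ]⟩)
  push Not at hx
  by_cases ha : ∃ x ∈ R, x.a ≠ 0
  · obtain ⟨x, hxR, hxa⟩ := ha
    have iN : Inv g N2 := (inv_ce (C := E2) (N := N2) (Inv.of_le hx) (inv_JJ eJ g)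
      (fun x hx y hy => by simp [mem_N2, mem_E2.1 hx, mem_JJ.1 hy]) fun K H z _ hz => by
        have k1 := H x hxR (hx x hxR) (xh x.a) (eJ ⟨rfl, rfl, rfl⟩) ⟨rfl, rfl, rfl⟩
        have k2 := H x hxR (hx x hxR) (xg x.a) (eJ ⟨rfl, rfl, rfl⟩) ⟨rfl, rfl, rfl⟩
        have k3 := H x hxR (hx x hxR) (xe x.a) (eJ ⟨rfl, rfl, rfl⟩) ⟨rfl, rfl, rfl⟩
        have s := sq_of_ne hxa
        have mz : xz 1 ∈ K := by
          convert inv_mem k1 using 1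
          ext <;> simp [hx x hxR]
          linear_combination 2 * s + h3
        have mz' : ∀ u ∈ Z1, u ∈ K := fun u hu => mem_of_gens (.inl hu.1) (.inl hu.2.1) (.inl hu.2.2.1)
          (.inl hu.2.2.2.1) (.inl hu.2.2.2.2.1) (.inl hu.2.2.2.2.2.1) (.inl hu.2.2.2.2.2.2.1)
          (.inl hu.2.2.2.2.2.2.2) (.inr mz)
        have mh : xh 1 ∈ K := by
          simpa only [mul_inv_cancel_left] using mul_mem k2 (mz' (⁅x, xg x.a⁆⁻¹ * xh 1)
            (by simp [mem_Z1, hx x hxR, s, -commutatorElement_inv]))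
        have mh' : ∀ u ∈ Z2, u ∈ K := fun u hu => mem_of_gens (.inl hu.1) (.inl hu.2.1) (.inl hu.2.2.1)
          (.inl hu.2.2.2.1) (.inl hu.2.2.2.2.1) (.inl hu.2.2.2.2.2.1) (.inl hu.2.2.2.2.2.2)
          (.inr mh) (.inr mz)
        have mf : xf 1 ∈ K := by
          simpa only [mul_inv_cancel_left] using mul_mem k3 (mh' (⁅x, xe x.a⁆⁻¹ * xf 1)
            (by simp [mem_Z2, hx x hxR, s, -commutatorElement_inv]))
        exact mem_of_gens (.inl hz.1) (.inl hz.2.1) (.inl hz.2.2.1) (.inl hz.2.2.2.1)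
          (.inl hz.2.2.2.2.1) (.inr mf) (.inl hz.2.2.2.2.2) (.inr mh) (.inr mz))
    exact nd (chainL h hg hb [Z1, N2] ⟨bot_le, Z1_le_N2, le_top⟩ (by simpa using ⟨h1, iN⟩) hn
      ⟨fun x _ hx => by simp [US.ext_iff, mem_Z1.1 hx], fun x _ hx => by simp [mem_Z1, mem_N2.1 hx],
        fun x _ _ => by simp [mem_N2]⟩)
  push Not at ha
  obtain ⟨U, hU1, hU2, ⟨g', hg', hb', hi⟩, hmax⟩ :=
    exists_max (M := M) (P := A ⊓ (invS R Z1 ⊓ invS R Z2)) Z2_le_Z3 e3 ⟨hg, h1, h2⟩ hb h2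
  haveI : U.Normal := ⟨fun x hx t => by
    simpa using mul_mem hx (hU1 (show x⁻¹ * (t * x * t⁻¹) ∈ Z2 by simp [mem_Z2, mem_Z3.1 (hU2 hx)]))⟩
  obtain ⟨y, hy, hyU⟩ : ∃ y ∈ Z3, y ∉ U := by
    by_contra! hle
    exact not_inv_Z3 h hg'.1 hb' hg'.2.1 hg'.2.2 fun x hx hz => hU2 (hi x hx (hle x hz))
  have D : ∀ x, (equivFun g' y)⁻¹ * (x * equivFun g' y * x⁻¹) ∈ Z2 → x ∈ R := fun x hx =>
    mem_of_max h.hW h.se (P := A ⊓ (invS R Z1 ⊓ invS R Z2)) inf_le_left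
      (fun t ht => ⟨h.cj_A ht, mem_invS.2 (inv_conjAut' ht),
      mem_invS.2 (inv_conjAut' ht)⟩) (hU2.trans e3) (e3 hy) (hmax y hy hyU) hg' hb' hi
      (fun r _ => hU1 (by simp [mem_Z2, mem_Z3.1 hy])) (hU1 hx)
  have hw := inv_JJ eJ g' y (e3 hy) (Z3_le_JJ hy)
  generalize equivFun g' y = w at D hw
  by_cases hc : w.c = 0
  · exact nd (D _ (by simp [mem_Z2, mem_JJ.1 hw, hc]))
  · refine one_ne_zero (ha ⟨1, 0, 0, -(w.e * w.c), 0, 0, 0, 0, 0⟩ (D _ ?_))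
    simp [mem_Z2, mem_JJ.1 hw]
    linear_combination (-w.e) * sq_of_ne hc

theorem L3 : R = E3 := by
  have e2 := Z2_le h hg hb h1
  have e3 := Z3_le h hg hb h1 h2
  have i1 := inv_E1 e2 h2
  by_cases hJ : ∀ x ∈ R, x.a = 0 → x ∈ JJ
  · exact (L3_J h hg hb h1 h2 hJ).elim
  push Not at hJ
  obtain ⟨r, hr, ra, rJ⟩ := hJ
  have zf : xf 1 ∈ Z3 := ⟨rfl, rfl, rfl, rfl, rfl⟩
  have zg : xg 1 ∈ YY := ⟨rfl, rfl, rfl, rfl, rfl, rfl⟩
  have iY : ∀ {g : MulAut R}, Inv g Z2 → Inv g YY := fun {g} h2 =>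
    inv_cm Inv.bot (inv_E1 e2 h2) (fun x _ H => by
      have k1 := H (xh 1) (e3 ⟨rfl, rfl, rfl, rfl, rfl⟩) rfl
      have k2 := H _ (e3 zf) rfl
      have k3 := H r hr ra
      simp [US.ext_iff, two_ne] at k1
      simp [US.ext_iff, two_ne, k1] at k2
      by_cases rb : r.b = 0
      · have rd : r.d ≠ 0 := fun e => rJ ⟨ra, rb, e⟩
        simp [US.ext_iff, two_ne, k1, k2, ra, rb, rd] at k3
        casesm* _ ∧ _
        simp_all [mem_YY, two_ne]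
      · simp [US.ext_iff, two_ne, k1, k2, ra, rb] at k3
        casesm* _ ∧ _
        simp_all [mem_YY, two_ne]) fun x _ hx y _ hy => by
      simp [US.ext_iff, mem_YY.1 hx, mem_E1.1 hy]
  have ee : xe 1 ∈ R := chainL h hg hb [YY, E1] ⟨bot_le, YY_le_E1, le_top⟩
    (by simpa using ⟨iY h2, i1⟩) (norm_of e3 fun x _ => by simp [mem_Z3])
    ⟨fun x _ hx => by simp [US.ext_iff, mem_YY.1 hx], fun x _ hx => by simp [mem_YY, mem_E1.1 hx],
      fun x _ _ => by simp [mem_E1]⟩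
  have i3 : ∀ {γ : MulAut R}, Inv γ Z2 → equivFun γ (xf 1) ∈ Z3 → Inv γ Z3 := fun {γ} k1 k2 =>
    inv_of_gen (iY k1) YY_le_Z3 (YY_le_Z3.trans e3) (e3 zf) k2 fun x hx => by
      simpa [mem_YY, mem_Z3.1 hx] using f3_tri x.f
  have D1 : ∀ x, (equivFun g (xf 1))⁻¹ * (x * equivFun g (xf 1) * x⁻¹) ∈ YY → x ∈ R := fun x hx =>
    mem_of_max h.hW h.se (P := A ⊓ (invS R Z1 ⊓ invS R Z2)) inf_le_left
      (fun t ht => ⟨h.cj_A ht, mem_invS.2 (inv_conjAut' ht), mem_invS.2 (inv_conjAut' ht)⟩)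
      (YY_le_Z3.trans e3) (e3 zf) (fun γ hγ _ k => by_contra fun hc =>
        not_inv_Z3 h hγ.1 hc hγ.2.1 hγ.2.2 (i3 hγ.2.2 ((mul_mem_cancel_left (inv_mem zf)).1
          (YY_le_Z3 k)))) ⟨hg, h1, h2⟩ hb (iY h2) (fun r _ => by simp [mem_YY]) hx
  have D2 : ∀ r ∈ R, (equivFun g (xf 1))⁻¹ * (r * equivFun g (xf 1) * r⁻¹) ∈ Z2 := fun r hr =>
    h2.cm (e3 zf) hr (by simp [mem_Z2])
  have hw : equivFun g (xf 1) ∉ Z3 := fun k => not_inv_Z3 h hg hb h1 h2 (i3 h2 k)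
  have E : ∀ y ∈ R, y.a = 1 → y.b = 0 → (∀ r ∈ R, r.b = 0) → equivFun g (xf 1) ∈ Z3 :=
    fun y hy ya yb hR => ef_cong h2 e2 Z2_le_Z3 (ce_mem hy ee) (e3 zf)
      (by simp [mem_Z2, ya, yb, -commutatorElement_inv]) (by
        rw [ef_ce _ hy ee]
        simp [mem_Z3, hR _ (equivFun_mem g hy), hR _ (equivFun_mem g ee)])
  generalize equivFun g (xf 1) = w at D1 D2 hw E
  have k1 := D2 _ (e3 (YY_le_Z3 zg))
  have k2 := D2 _ ee
  simp [mem_Z2, two_ne] at k2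
  obtain ⟨wa, wb⟩ := k2
  by_cases wc : w.c = 0
  · have k3 := D2 (xb 1) (D1 _ (by simp [mem_YY, wa, wb, wc]))
    simp [mem_Z2, wa, wb, wc, two_ne] at k3
    have wd : w.d ≠ 0 := fun e => hw ⟨wa, wb, wc, e, k3⟩
    exact le_antisymm (fun r hr => by simpa [mem_Z2, wa, wb, wc, k3, wd, mem_E3] using D2 r hr)
      fun x hx => D1 x (by simp [mem_YY, wa, wb, wc, k3, mem_E3.1 hx])
  · refine absurd (E ⟨1, 0, 0, -(w.e * w.c), 0, 0, 0, 0, 0⟩ (D1 _ ?_) rfl rfl fun r hr => ?_) hw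
    · simp [mem_YY, wa, wb]
      linear_combination (-w.e) * sq_of_ne wc
    · have := (D2 r hr).2.2.2.2.1
      simpa [wb, wc] using this

end

end Cfsg.Agent.C3
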