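import Cfsg.Agent.Lib.C3.Gen

/-!
# S5227: the automizer of `E2` (see notes/C3.md)
-/

set_option autoImplicit false
set_option linter.unusedSectionVars false
set_option linter.unusedVariables false
set_option linter.unusedSimpArgs false
set_option linter.unnecessarySeqFocus false
set_option linter.unusedTactic false
set_option linter.unreachableTactic false

namespace Cfsg.Agent.C3

open Subgroup Cfsg Cfsg.FusionSystem Cfsg.Agent.U5 US
open scoped commutatorElement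

variable {F E : FusionSystem (⊤ : Subgroup US)} {x y : US}

theorem inv_Z1_E2 (γ : MulAut E2) : Inv γ Z1 := inv_cm Inv.bot Inv.top (fun x hx H => by
    have ha := H (xa 1) rfl trivial
    have hd := H (xd 1) rfl trivial
    have he := H (xe 1) rfl trivial
    simp [US.ext_iff, two_ne] at ha hd he
    casesm* _ ∧ _
    simp_all [mem_Z1, two_ne])
  fun x _ hx y _ _ => by simp [US.ext_iff, mem_Z1.1 hx]

theorem E2_gen {K : Subgroup US} (ha : xa 1 ∈ K) (hc : xc 1 ∈ K) (hd : xd 1 ∈ K) (he : xe 1 ∈ K)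
    (hg : xg 1 ∈ K) : E2 ≤ K := fun x hx =>
  mem_of_gens (.inr ha) (.inl hx) (.inr hc) (.inr hd) (.inr he)
    (.inr (by convert ce_mem ha he using 1; decide)) (.inr hg)
    (.inr (by convert ce_mem hd he using 1; decide))
    (.inr (by convert inv_mem (ce_mem ha (ce_mem hd he)) using 1; decide))

theorem sec2 : Sec E2 E2 fun x => (-x.a, x.d) :=
  ⟨le_rfl, fun γ => Inv.of_le le_rfl, fun x hx y hy => by simp [mem_E2.1 hy, add_comm],
    fun v => ⟨⟨-v.1, 0, 0, v.2, 0, 0, 0, 0, 0⟩, rfl, by simp⟩, fun γ x hx h => by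
      simp only [Prod.mk_eq_zero, neg_eq_zero] at h ⊢
      have := inv_JJ JJ_le_E2 γ x hx ⟨h.1, hx, h.2⟩
      exact ⟨this.1, this.2.2⟩,
    fun t ht x hx => by simp [mem_E2.1 hx, mem_E2.1 ht]⟩

theorem sec2' : Sec E2 Z1 US.z :=
  ⟨Z1_le_E2, inv_Z1_E2, fun x hx y hy => by simp [mem_Z1.1 hx], fun v => ⟨xz v, xz_mem v, rfl⟩,
    fun γ x hx h => by rw [eq_xz hx, h, show xz 0 = 1 from rfl, ef_one]; rfl,
    fun t ht x hx => by simp [mem_Z1.1 hx]⟩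

theorem sec2_u : ∀ x ∈ E2, (-(xb 1 * x * (xb 1)⁻¹).a, (xb 1 * x * (xb 1)⁻¹).d) = (-x.a, x.d + -x.a) :=
  fun x hx => by simp [sub_eq_add_neg]

theorem ext2 (hF : F.IsSaturated 3) {γ : MulAut E2} (hγ : γ ∈ F.autGroup E2)
    (h : (equivFun γ (xd 1)).a = 0) : ∃ f, F.IsIso ⊤ ⊤ f ∧ ∀ x ∈ E2, f x = equivFun γ x :=
  ext_of hF lK lK_mono (lK_conj _) hγ (inv_lK KK_le_E2 ⟨h, equivFun_mem γ (show xd 1 ∈ E2 from rfl)⟩)

theorem mov2_of' (hF : F.IsSaturated 3) (hE : F.IsEssential 3 E2) : Mov2 F := by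
  obtain ⟨M, h⟩ := exists_loc isPGroup_US hF hE
  obtain ⟨g, hg, hb⟩ := h.data.exists_not_mem
  refine ⟨g, hg, fun k => ?_⟩
  simpa [mem_E2] using chainL h hg hb lK lK_mono
    (inv_lK KK_le_E2 ⟨k, equivFun_mem g (show xd 1 ∈ E2 from rfl)⟩) (mem_norm (xb 1)) (lK_conj _ _)

theorem gen2 (hF : F.IsSaturated 3) {k : F3} (h1 : F.IsMor E2 (n2 k)) (h2 : E.IsMor E2 (n2 k))
    (ht : ∀ f, F.IsIso ⊤ ⊤ f → E.IsMor ⊤ f) {f : US → US} (hf : F.IsIso E2 E2 f) : E.IsMor E2 f :=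
  sec2.gen (mem_norm (xb 1)) sec2_u (x0 := xd 1) rfl rfl h1 h2 (fun x _ => n2_mem k x) (by simp)
    (fun γ hγ h => let ⟨f, k1, k2⟩ := ext2 hF hγ (neg_eq_zero.1 h)
      mem_aut ((ht f k1).mono le_top) fun x hx => (k2 x hx).symm) hf

theorem t2_of (hF : F.IsSaturated 3) (hs : Std F) (h : Mov2 F) : F.IsIso ⊤ ⊤ (tauF (-1) 1 1) ∧
    ∃ n ∈ F.autGroup E2, NP E2 Z1 (fun x => (-x.a, x.d)) US.z n ∧
      ∀ x ∈ E2, equivFun n (equivFun n x) = tauF (-1) 1 1 x := by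
  obtain ⟨γ, hγ, hm⟩ := h
  obtain ⟨n, hn, e⟩ := sec2.exists_n sec2' (mem_norm (xb 1)) sec2_u
    (fun x hx => by simp [mem_Z1.1 hx]) (x0 := xd 1) rfl rfl hγ (neg_ne_zero.2 hm)
  have e2 : ∀ x ∈ E2, (equivFun n (equivFun n x)).a = -x.a ∧ (equivFun n (equivFun n x)).d = -x.d :=
    fun x hx => by
      have k1 := e.1 x hx
      have k2 := e.1 _ (equivFun_mem n hx)
      simp only [Prod.mk.injEq, neg_inj] at k1 k2
      simp [k1, k2]
  obtain ⟨f, h1, h2⟩ := ext2 hF (mul_mem hn hn) (by rw [equivFun_mul _ _ rfl, (e2 _ rfl).1]; simp)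
  obtain ⟨s, p, q, r, -, -, -, h3⟩ := hs f h1
  have h4 : ∀ x ∈ E2, equivFun n (equivFun n x) = s * tauF p q r x * s⁻¹ := fun x hx => by
    rw [← h3, h2 x hx, equivFun_mul _ _ hx]
  have k1 := e2 (xa 1) rfl
  have k2 := (e2 (xd 1) rfl).2
  have k3 := (e.2 _ (inv_Z1_E2 n (xz 1) rfl (xz_mem 1))).trans (e.2 (xz 1) (xz_mem 1))
  rw [h4 _ rfl] at k1 k2 k3
  simp at k1 k2 k3
  obtain ⟨rfl, k1⟩ := k1
  obtain rfl : q = 1 := by simpa using k2
  obtain rfl : r = 1 := by simpa using k3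
  exact ⟨isIso_tauF h1 h3, sec2.exists_n' sec2' hn e (tauF_tauF_self (by decide) (by decide) (by decide))
    (show s ∈ E2 by simpa [mem_E2] using k1) (fun x hx => by simp [mem_E2, mem_E2.1 hx]) h4⟩

theorem dZ (hF : F.IsSaturated 3) {i j k : F3} {f : US → US} (hf : F.IsMor E2 f)
    (e : ∀ x ∈ E2, f x = ⟨x.a, 0, x.c, x.d, x.e, x.f, x.g, x.h, x.z + i * x.c + j * x.e + k * x.g⟩) :
    i = 0 ∧ j = 0 := by
  obtain ⟨β, hβ, e'⟩ := (hf.isIso_self fun x hx => by rw [e x hx]; rfl).exists_aut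
  have e2 := fun x hx => (e' x hx).trans (e x hx)
  obtain ⟨s, -, hs⟩ := conjL isPGroup_US (hF.sylowIn isPGroup_top (fullN F E2)) lK lK_mono
    (fun t _ => lK_conj _ t) hβ
    ⟨fun x h hx => by simp [e2 x h, US.ext_iff, mem_Z1.1 hx],
      fun x h hx => by simp [e2 x h, mem_Z1, mem_Z2.1 hx],
      fun x h hx => by simp [e2 x h, mem_Z2, mem_Z3.1 hx],
      fun x h hx => by simp [e2 x h, mem_Z3, mem_H0.1 hx],
      fun x h hx => by simp [e2 x h, mem_H0, mem_JJ.1 hx],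
      fun x h hx => by simp [e2 x h, mem_JJ, mem_KK.1 hx],
      fun x h _ => by simp [e2 x h, mem_KK, mem_E2.1 h]⟩
  have k1 := (e2 (xc 1) rfl).symm.trans (hs _ rfl)
  have k2 := (e2 (xe 1) rfl).symm.trans (hs _ rfl)
  simp [US.ext_iff] at k1 k2
  obtain ⟨-, k3, -, -, k4⟩ := k1
  obtain ⟨-, -, -, k5⟩ := k2
  simp [← k3] at k4 k5
  exact ⟨k4, k5⟩

@[simps] def m2 (i j k : F3) (x : US) : US :=
  ⟨x.d, 0, x.g, -x.a, -x.e, -x.h, x.c, x.f, x.z + i * x.c + j * x.e + k * x.g⟩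

theorem n2_of (hF : F.IsSaturated 3) (hs : Std F) (h : Mov2 F)
    (t1 : F.IsIso ⊤ ⊤ (tauF 1 (-1) 1)) : ∃ k, F.IsMor E2 (n2 k) := by
  obtain ⟨-, n, hn, e, e2⟩ := t2_of hF hs h
  have m : ∀ {x}, x ∈ E2 → equivFun n x ∈ E2 := fun hx => equivFun_mem n hx
  have cm : ∀ x ∈ E2, tauF (-1) 1 1 (equivFun n x) = equivFun n (tauF (-1) 1 1 x) := fun x hx => by
    rw [← e2 _ (m hx), e2 x hx]
  have ha : xa 1 ∈ E2 := rfl
  have hc : xc 1 ∈ E2 := rfl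
  have hd : xd 1 ∈ E2 := rfl
  have he : xe 1 ∈ E2 := rfl
  have hg : xg 1 ∈ E2 := rfl
  have d1 := cm _ ha
  have a1 := cm _ hd
  have c1 := cm _ hc
  have e1 := cm _ he
  have g1 := cm _ hg
  rw [show tauF (-1) 1 1 (xa 1) = (xa 1)⁻¹ by decide, ef_inv _ ha] at d1
  rw [show tauF (-1) 1 1 (xd 1) = (xd 1)⁻¹ by decide, ef_inv _ hd] at a1
  rw [show tauF (-1) 1 1 (xc 1) = xc 1 by decide] at c1
  rw [show tauF (-1) 1 1 (xe 1) = xe 1 by decide] at e1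
  rw [show tauF (-1) 1 1 (xg 1) = xg 1 by decide] at g1
  have d2 := e.1 _ ha
  have a2 := e.1 _ hd
  have d3 := mem_E2.1 (m ha)
  have a3 := mem_E2.1 (m hd)
  have c3 := inv_JJ JJ_le_E2 n _ hc ⟨rfl, rfl, rfl⟩
  have e3 := inv_JJ JJ_le_E2 n _ he ⟨rfl, rfl, rfl⟩
  have g3 := inv_JJ JJ_le_E2 n _ hg ⟨rfl, rfl, rfl⟩
  have k : ∀ x ∈ E2, ∀ y ∈ E2, x * y = y * x →
      equivFun n x * equivFun n y = equivFun n y * equivFun n x := fun x hx y hy e => by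
    rw [← ef_mul _ hx hy, ← ef_mul _ hy hx, e]
  have k' : ∀ x ∈ E2, ∀ y ∈ E2, ∀ w ∈ E2, ⁅x, ⁅y, w⁆⁆ ∈ Z1 →
      ⁅equivFun n x, ⁅equivFun n y, equivFun n w⁆⁆.z = ⁅x, ⁅y, w⁆⁆.z := fun x hx y hy w hw h => by
    rw [← ef_ce _ hy hw, ← ef_ce _ hx (ce_mem hy hw), e.2 _ h]
  have r1 := k _ hd _ ha (by decide)
  have r2 := k _ ha _ hc (by decide)
  have r3 := k _ hd _ hg (by decide)
  have r4 := k' _ hd _ hd _ hc (by simp [mem_Z1])
  have r5 := k' _ ha _ ha _ hg (by simp [mem_Z1])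
  have r6 := k' _ ha _ ha _ he (by simp [mem_Z1])
  have r7 := k' _ hd _ hd _ he (by simp [mem_Z1])
  have r8 := k' _ ha _ hd _ he (by simp [mem_Z1])
  obtain ⟨s, i, j, l, k1, k2, k3, k4, k5⟩ : ∃ (s : US) (i j l : F3),
      s * equivFun n (xa 1) * s⁻¹ = m2 i j l (xa 1) ∧ s * equivFun n (xc 1) * s⁻¹ = m2 i j l (xc 1) ∧
      s * equivFun n (xd 1) * s⁻¹ = m2 i j l (xd 1) ∧ s * equivFun n (xe 1) * s⁻¹ = m2 i j l (xe 1) ∧
      s * equivFun n (xg 1) * s⁻¹ = m2 i j l (xg 1) := by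
    generalize equivFun n (xa 1) = D at *
    generalize equivFun n (xd 1) = A at *
    generalize equivFun n (xc 1) = C at *
    generalize equivFun n (xe 1) = B at *
    generalize equivFun n (xg 1) = G at *
    obtain ⟨_, _, dc, _, de, df, dg, dh, dz⟩ := D
    obtain ⟨_, _, ac, _, ae, af, ag, ah, az⟩ := A
    obtain ⟨_, _, cc, _, ce, cf, cg, ch, cz⟩ := C
    obtain ⟨_, _, ec, _, ee, ef, eg, eh, ez⟩ := B
    obtain ⟨_, _, gc, _, ge, gf, gg, gh, gz⟩ := G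
    simp [mem_JJ] at d2 a2 d3 a3 c3 e3 g3
    obtain ⟨rfl, rfl⟩ := d2
    obtain ⟨rfl, rfl⟩ := a2
    obtain ⟨rfl, rfl, rfl⟩ := c3
    obtain ⟨rfl, rfl, rfl⟩ := e3
    obtain ⟨rfl, rfl, rfl⟩ := g3
    subst d3 a3
    have n0 : ∀ t : F3, t = -t ↔ t = 0 := by decide
    have n0' : ∀ t : F3, -t = t ↔ t = 0 := by decide
    simp [US.ext_iff, n0, n0'] at d1 a1 c1 e1 g1
    obtain ⟨rfl, rfl, -, rfl, -, k1⟩ := d1
    obtain ⟨rfl, rfl, -, rfl, -, k2⟩ := a1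
    obtain ⟨rfl, rfl⟩ := c1
    obtain ⟨rfl, rfl⟩ := e1
    obtain ⟨rfl, rfl⟩ := g1
    simp [comm_iff, two_ne] at r1 r2 r3 r4 r5 r6 r7 r8
    obtain ⟨rfl, rfl, -⟩ := r2
    obtain ⟨rfl, rfl⟩ := r3
    subst r4 r5 r6 r7
    obtain rfl : ee = -1 := by linear_combination r8 + (ee + 1) * h3
    obtain rfl : dh = -af := by linear_combination -r1 + (dh + af) * h3
    obtain rfl : dz = -df := by linear_combination -k1 + (dz + df) * h3
    obtain rfl : az = ah := by linear_combination -k2 + (az - ah) * h3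
    exact ⟨⟨0, 0, -df, 0, af, 0, az, 0, 0⟩, cz, ez, gz, by ext <;> simp, by ext <;> simp,
      by ext <;> simp, by ext <;> simp, by ext <;> simp⟩
  have h1 : F.IsMor E2 (m2 i j l) := ((F.isMor_conj le_rfl (mem_top s)).comp'
    (isMor_of_mem_autGroup le_top hn) fun _ _ => trivial).congr fun x hx =>
    (E2_gen (K := IsHomOn.eqSub (X := E2) ((isHomOn_conj ⊤ s).comp (isHomOn_equivFun n)
      fun _ _ => trivial) (g := m2 i j l) fun x hx y hy => by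
        ext <;> simp [mem_E2.1 hx, mem_E2.1 hy] <;> ring) ⟨ha, k1⟩ ⟨hc, k2⟩ ⟨hd, k3⟩ ⟨he, k4⟩
      ⟨hg, k5⟩ hx).2
  obtain ⟨l1, l2⟩ := dZ hF (i := i + l) (j := 2 * j) (k := i + l) (t1.mor.comp' (h1.comp'
    (t1.mor.comp' h1 fun _ _ => trivial) fun _ _ => by simp [mem_E2]) fun _ _ => trivial)
    fun x hx => by ext <;> simp <;> ring
  obtain rfl : i = -l := by linear_combination l1
  obtain rfl : j = 0 := by simpa [two_ne] using l2
  exact ⟨l, h1.congr fun x _ => by ext <;> simp; ring⟩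

end Cfsg.Agent.C3
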