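import Cfsg.Agent.Lib.C3.Gen

/-!
# S5227: the automizer of `E3` (see notes/C3.md)
-/

set_option autoImplicit false
set_option linter.unusedSectionVars false
set_option linter.unusedVariables false
set_option linter.unusedSimpArgs false
set_option linter.unnecessarySeqFocus false
set_option linter.unusedTactic false
set_option linter.unreachableTactic false

namespace Cfsg.Agent.C3

open Subgroup Cfsg Cfsg.FusionSystem Cfsg.Agent.U5 US
open scoped commutatorElement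

variable {F E : FusionSystem (⊤ : Subgroup US)} {x y : US}

theorem inv_G2_E3 (γ : MulAut E3) : Inv γ G2 :=
  inv_ce (C := E3) (D := E3) (Inv.of_le le_rfl) (Inv.of_le le_rfl)
    (fun x hx y hy => by simp [mem_G2, mem_E3.1 hx, mem_E3.1 hy]) fun K H z _ hz =>
    mem_of_gens (.inl hz.1) (.inl hz.2.1) (.inl hz.2.2.1)
      (.inr (by convert H (xa 1) rfl rfl (xb 1) rfl rfl using 1; decide)) (.inl hz.2.2.2)
      (.inr (by convert H (xa 1) rfl rfl (xe 1) rfl rfl using 1; decide))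
      (.inr (by convert H (xe 1) rfl rfl (xb 1) rfl rfl using 1; decide))
      (.inr (by convert H (xb 1) rfl rfl (xf 1) rfl rfl using 1; decide))
      (.inr (by convert H (xf 1) rfl rfl (xd 1) rfl rfl using 1; decide))

theorem inv_Z2_E3 (γ : MulAut E3) : Inv γ Z2 :=
  inv_ce (C := E3) (D := G2) (Inv.of_le le_rfl) (inv_G2_E3 γ)
    (fun x hx y hy => by simp [mem_Z2, mem_E3.1 hx, mem_G2.1 hy]) fun K H z _ hz =>
    mem_of_gens (.inl hz.1) (.inl hz.2.1) (.inl hz.2.2.1) (.inl hz.2.2.2.1) (.inl hz.2.2.2.2.1)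
      (.inl hz.2.2.2.2.2.1) (.inl hz.2.2.2.2.2.2)
      (.inr (by convert H (xb 1) rfl rfl (xf 1) rfl ⟨rfl, rfl, rfl, rfl⟩ using 1; decide))
      (.inr (by convert H (xf 1) rfl rfl (xd 1) rfl ⟨rfl, rfl, rfl, rfl⟩ using 1; decide))

theorem inv_E1_E3 (γ : MulAut E3) : Inv γ E1 := inv_E1 Z2_le_E3 (inv_Z2_E3 γ)

theorem inv_WW_E3 (γ : MulAut E3) : Inv γ WW := fun x hx h =>
  ⟨inv_E1_E3 γ x hx h.1, equivFun_mem γ hx⟩

theorem inv_YY_E3 (γ : MulAut E3) : Inv γ YY := inv_cm Inv.bot (inv_WW_E3 γ) (fun x hx H => by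
    have hb := H (xb 1) rfl ⟨rfl, rfl⟩
    have he := H (xe 1) rfl ⟨rfl, rfl⟩
    simp [US.ext_iff, two_ne, mem_E3.1 hx] at hb he
    casesm* _ ∧ _
    simp_all [mem_YY, two_ne, mem_E3])
  fun x _ hx y _ hy => by simp [US.ext_iff, mem_YY.1 hx, mem_WW.1 hy]

theorem inv_Z1_E3 (γ : MulAut E3) : Inv γ Z1 := inv_cm Inv.bot Inv.top (fun x hx H => by
    have ha := H (xa 1) rfl trivial
    have hb := H (xb 1) rfl trivial
    have he := H (xe 1) rfl trivial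
    simp [US.ext_iff, two_ne, mem_E3.1 hx] at ha hb he
    casesm* _ ∧ _
    simp_all [mem_Z1, two_ne, mem_E3])
  fun x _ hx y _ _ => by simp [US.ext_iff, mem_Z1.1 hx]

theorem E3_gen {K : Subgroup US} (ha : xa 1 ∈ K) (hb : xb 1 ∈ K) (he : xe 1 ∈ K) : E3 ≤ K :=
  fun x hx => mem_of_gens (.inr ha) (.inr hb) (.inl hx)
    (.inr (by convert ce_mem ha hb using 1; decide)) (.inr he)
    (.inr (by convert ce_mem ha he using 1; decide)) (.inr (by convert ce_mem he hb using 1; decide))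
    (.inr (by convert ce_mem hb (ce_mem ha he) using 1; decide))
    (.inr (by convert ce_mem (ce_mem ha he) (ce_mem ha hb) using 1; decide))

theorem sec3 : Sec E3 WW fun x => (-x.b, x.e) :=
  ⟨WW_le_E3, inv_WW_E3, fun x hx y hy => by simp [hy.2, add_comm],
    fun v => ⟨⟨0, -v.1, 0, 0, v.2, 0, 0, 0, 0⟩, ⟨rfl, rfl⟩, by simp⟩, fun γ x hx h => by
      simp only [Prod.mk_eq_zero, neg_eq_zero] at h ⊢
      have := inv_G2_E3 γ x hx.2 ⟨hx.1, h.1, hx.2, h.2⟩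
      exact ⟨this.2.1, this.2.2.2⟩,
    fun t ht x hx => by simp [hx.2, mem_E3.1 ht]⟩

theorem sec3' : Sec E3 E3 US.a :=
  ⟨le_rfl, fun γ => Inv.of_le le_rfl, fun _ _ _ _ => rfl, fun v => ⟨xa v, rfl, rfl⟩,
    fun γ x hx h => inv_E1_E3 γ x hx h, fun t ht x hx => by simp⟩

theorem sec3_u : ∀ x ∈ WW, (-(xc 1 * x * (xc 1)⁻¹).b, (xc 1 * x * (xc 1)⁻¹).e) = (-x.b, x.e + -x.b) :=
  fun x hx => by simp [sub_eq_add_neg]

def l3 : List (Subgroup US) := [Z1, Z2, Z3, Z4]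

theorem l3_mono : Steps (· ≤ ·) ⊥ l3 := ⟨bot_le, Z1_le_Z2, Z2_le_Z3, Z3_le_Z4, le_top⟩

theorem l3_conj (R : Subgroup US) (t : US) : Steps (Tr R fun x => t * x * t⁻¹) ⊥ l3 :=
  ⟨fun x _ hx => by simp [US.ext_iff, mem_Z1.1 hx], fun x _ hx => by simp [mem_Z1, mem_Z2.1 hx],
    fun x _ hx => by simp [mem_Z2, mem_Z3.1 hx], fun x _ hx => by simp [mem_Z3, mem_Z4.1 hx],
    fun x _ _ => by simp [mem_Z4]⟩

theorem inv_l3 {γ : MulAut E3} (h : (equivFun γ (xe 1)).b = 0) : ∀ B ∈ l3, Inv γ B := by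
  have k := inv_WW_E3 γ (xe 1) rfl ⟨rfl, rfl⟩
  have i4 : Inv γ Z4 := inv_of_gen (inv_G2_E3 γ) G2_le_Z4 G2_le_E3 (y := xe 1) rfl ⟨k.1, h, k.2⟩
    fun x hx => by simpa [mem_G2, mem_Z4.1 hx] using f3_tri x.e
  have i3 : Inv γ Z3 := inv_cm (inv_Z1_E3 γ) i4 (fun x hx H => by
      have hd := H (xd 1) rfl ⟨rfl, rfl, rfl⟩
      have he := H (xe 1) rfl ⟨rfl, rfl, rfl⟩
      simp [mem_Z1, two_ne, mem_E3.1 hx] at hd he
      casesm* _ ∧ _
      simp_all [mem_Z3, two_ne, mem_E3])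
    fun x _ hx y _ hy => by simp [mem_Z1, mem_Z3.1 hx, mem_Z4.1 hy]
  simpa [l3] using ⟨inv_Z1_E3 γ, inv_Z2_E3 γ, i3, i4⟩

theorem ext3 (hF : F.IsSaturated 3) {γ : MulAut E3} (hγ : γ ∈ F.autGroup E3)
    (h : (equivFun γ (xe 1)).b = 0) : ∃ f, F.IsIso ⊤ ⊤ f ∧ ∀ x ∈ E3, f x = equivFun γ x :=
  ext_of hF l3 l3_mono (l3_conj _) hγ (inv_l3 h)

theorem mov3_of (hF : F.IsSaturated 3) (hE : F.IsEssential 3 E3) : Mov3 F := by
  obtain ⟨M, h⟩ := exists_loc isPGroup_US hF hE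
  obtain ⟨g, hg, hb⟩ := h.data.exists_not_mem
  refine ⟨g, hg, fun k => ?_⟩
  simpa [mem_E3] using chainL h hg hb l3 l3_mono (inv_l3 k) (mem_norm (xc 1)) (l3_conj _ _)

theorem gen3 (hF : F.IsSaturated 3) (h1 : F.IsMor E3 n3) (h2 : E.IsMor E3 n3)
    (ht : ∀ f, F.IsIso ⊤ ⊤ f → E.IsMor ⊤ f) {f : US → US} (hf : F.IsIso E3 E3 f) : E.IsMor E3 f :=
  sec3.gen (mem_norm (xc 1)) sec3_u (x0 := xe 1) ⟨rfl, rfl⟩ rfl h1 h2 (fun x _ => n3_mem x) (by simp)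
    (fun γ hγ h => let ⟨f, k1, k2⟩ := ext3 hF hγ (neg_eq_zero.1 h)
      mem_aut ((ht f k1).mono le_top) fun x hx => (k2 x hx).symm) hf

theorem n3_of (hF : F.IsSaturated 3) (hs : Std F) (h : Mov3 F) : F.IsMor E3 n3 := by
  obtain ⟨γ, hγ, hm⟩ := h
  obtain ⟨n, hn, e⟩ := sec3.exists_n sec3' (mem_norm (xc 1)) sec3_u
    (fun x hx => by simp) (x0 := xe 1) ⟨rfl, rfl⟩ rfl hγ (neg_ne_zero.2 hm)
  have e2 : ∀ x ∈ WW, (equivFun n (equivFun n x)).b = -x.b ∧ (equivFun n (equivFun n x)).e = -x.e :=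
    fun x hx => by
      have k1 := e.1 x hx
      have k2 := e.1 _ (inv_WW_E3 n x hx.2 hx)
      simp only [Prod.mk.injEq, neg_inj] at k1 k2
      simp [k1, k2]
  obtain ⟨f, h1, h2⟩ := ext3 hF (mul_mem hn hn)
    (by rw [equivFun_mul _ _ rfl, (e2 _ ⟨rfl, rfl⟩).1]; simp)
  obtain ⟨s, p, q, r, -, -, -, h3'⟩ := hs f h1
  have h4 : ∀ x ∈ E3, equivFun n (equivFun n x) = s * tauF p q r x * s⁻¹ := fun x hx => by
    rw [← h3', h2 x hx, equivFun_mul _ _ hx]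
  have k1 := e2 (xb 1) ⟨rfl, rfl⟩
  have k2 := (e2 (xe 1) ⟨rfl, rfl⟩).2
  have k3 := (e.2 _ (equivFun_mem n (show xa 1 ∈ E3 from rfl))).trans (e.2 (xa 1) rfl)
  rw [h4 _ rfl] at k1 k2 k3
  simp at k1 k2 k3
  obtain ⟨rfl, k1⟩ := k1
  obtain rfl : r = 1 := by simpa using k2
  subst k3
  obtain ⟨n, hn, e, e2⟩ := sec3.exists_n' sec3' hn e (tauF_tauF_self (by decide) (by decide) (by decide))
    (show s ∈ E3 by simpa [mem_E3] using k1) (fun x hx => by simp [mem_E3, mem_E3.1 hx]) h4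
  have m : ∀ {x}, x ∈ E3 → equivFun n x ∈ E3 := fun hx => equivFun_mem n hx
  have cm : ∀ x ∈ E3, tauF 1 (-1) 1 (equivFun n x) = equivFun n (tauF 1 (-1) 1 x) := fun x hx => by
    rw [← e2 _ (m hx), e2 x hx]
  have ha : xa 1 ∈ E3 := rfl
  have hb : xb 1 ∈ E3 := rfl
  have he : xe 1 ∈ E3 := rfl
  have a1 := cm _ ha
  have e1 := cm _ hb
  have b1 := cm _ he
  rw [show tauF 1 (-1) 1 (xa 1) = xa 1 by decide] at a1
  rw [show tauF 1 (-1) 1 (xb 1) = (xb 1)⁻¹ by decide, ef_inv _ hb] at e1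
  rw [show tauF 1 (-1) 1 (xe 1) = (xe 1)⁻¹ by decide, ef_inv _ he] at b1
  have a2 := e.2 _ ha
  have e2' := e.1 (xb 1) ⟨rfl, rfl⟩
  have b2 := e.1 (xe 1) ⟨rfl, rfl⟩
  have a3 := mem_E3.1 (m ha)
  have e3 := inv_WW_E3 n _ hb ⟨rfl, rfl⟩
  have b3 := inv_WW_E3 n _ he ⟨rfl, rfl⟩
  have r1 := ef_cube (g := n) ha (by decide)
  have r2 : ⁅equivFun n (xb 1), ⁅equivFun n (xa 1), equivFun n (xb 1)⁆⁆ = 1 := by
    rw [← ef_ce _ ha hb, ← ef_ce _ hb (ce_mem ha hb), ← ef_one n]; exact congrArg _ (by decide)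
  have r3 : ⁅equivFun n (xe 1), ⁅equivFun n (xa 1), equivFun n (xe 1)⁆⁆ = 1 := by
    rw [← ef_ce _ ha he, ← ef_ce _ he (ce_mem ha he), ← ef_one n]; exact congrArg _ (by decide)
  have r4 : ⁅equivFun n (xb 1), ⁅equivFun n (xa 1), equivFun n (xe 1)⁆⁆ =
      ⁅⁅equivFun n (xa 1), equivFun n (xb 1)⁆, equivFun n (xe 1)⁆ := by
    rw [← ef_ce _ ha he, ← ef_ce _ hb (ce_mem ha he), ← ef_ce _ ha hb, ← ef_ce _ (ce_mem ha hb) he]
    exact congrArg _ (by decide)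
  obtain ⟨s, k1, k2, k3⟩ : ∃ s : US, s * equivFun n (xa 1) * s⁻¹ = n3 (xa 1) ∧
      s * equivFun n (xb 1) * s⁻¹ = n3 (xb 1) ∧ s * equivFun n (xe 1) * s⁻¹ = n3 (xe 1) := by
    generalize equivFun n (xa 1) = A at *
    generalize equivFun n (xb 1) = C at *
    generalize equivFun n (xe 1) = B at *
    obtain ⟨_, ab, _, ad, ae, af, ag, ah, az⟩ := A
    obtain ⟨_, _, _, ed, _, ef, eg, eh, ez⟩ := C
    obtain ⟨_, _, _, bd, _, bf, bg, bh, bz⟩ := B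
    simp [mem_WW] at a2 e2' b2 a3 e3 b3
    obtain ⟨rfl, rfl⟩ := e2'
    obtain ⟨rfl, rfl⟩ := b2
    obtain ⟨rfl, rfl⟩ := e3
    obtain ⟨rfl, rfl⟩ := b3
    subst a2 a3
    have n0 : ∀ t : F3, t = -t ↔ t = 0 := by decide
    have n0' : ∀ t : F3, -t = t ↔ t = 0 := by decide
    simp [US.ext_iff, n0, n0'] at a1 e1 b1
    obtain ⟨rfl, rfl, rfl, rfl⟩ := a1
    have r1' := congrArg US.z r1
    have r2' := congrArg US.z r2
    have r3' := congrArg US.z r3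
    have r4' := congrArg US.z r4
    simp [pow_succ, two_ne] at r1' r2' r3' r4'
    subst r2' r3'
    obtain rfl : ag = 0 := by linear_combination -r1' + (az + 2 * ah + 2 * ag) * h3
    obtain rfl : ef = -bd := by linear_combination r4' + (ef + bd) * h3
    simp [n0, n0'] at e1 b1
    obtain ⟨rfl, rfl, rfl⟩ := e1
    obtain ⟨rfl, rfl, rfl⟩ := b1
    refine ⟨⟨-bd, 0, 0, 0, 0, 0, ah, ah - az - bd * ah, 0⟩, ?_⟩
    clear * -
    revert ah az bd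
    decide +kernel
  exact ((F.isMor_conj le_rfl (mem_top s)).comp'
    (isMor_of_mem_autGroup le_top hn) fun _ _ => trivial).congr fun x hx =>
    (E3_gen (K := IsHomOn.eqSub (X := E3) ((isHomOn_conj ⊤ s).comp (isHomOn_equivFun n)
      fun _ _ => trivial) (g := n3) fun x hx y hy => n3_mul hx hy) ⟨ha, k1⟩ ⟨hb, k2⟩ ⟨he, k3⟩ hx).2

end Cfsg.Agent.C3
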