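import Cfsg.Agent.Lib.C3.ModS

/-!
# S5227: the parameter `k` and the subgroup `R0` (see notes/C3.md)
-/

set_option autoImplicit false
set_option linter.unusedSectionVars false
set_option linter.unusedVariables false
set_option linter.unusedSimpArgs false
set_option linter.unnecessarySeqFocus false
set_option linter.unusedTactic false
set_option linter.unreachableTactic false

namespace Cfsg.Agent.C3

open Subgroup Cfsg Cfsg.FusionSystem Cfsg.Agent.U5 US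
open scoped commutatorElement


variable {F E : FusionSystem (⊤ : Subgroup US)} {x y : US} {k : F3}

def w1 (k : F3) (v : V) : V := pV (n1 k (vJ v))

def w2 (v : V) : V := pV (n2 0 (vJ v))

theorem vJ_w1 (v : V) : n1 k (vJ v) = vJ (w1 k v) := (vJ_pV ⟨rfl, neg_zero, rfl⟩).symm

theorem vJ_w2 (v : V) : n2 0 (vJ v) = vJ (w2 v) := (vJ_pV ⟨rfl, rfl, neg_zero⟩).symm

theorem om1 (h : F.IsMor E1 (n1 k)) (v : V) : Om F (w1 k v) ↔ Om F v :=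
  (om_iff h JJ_le_E1 (vJ_w1 v)).symm

theorem om2 (h : F.IsMor E2 (n2 0)) (v : V) : Om F (w2 v) ↔ Om F v :=
  (om_iff h JJ_le_E2 (vJ_w2 v)).symm

theorem k_ne (hF : F.IsSaturated 3) (h1 : F.IsMor E1 (n1 k)) (h2 : F.IsMor E2 (n2 0)) : k ≠ -1 := by
  rintro rfl
  have : Om F (w2 (w1 (-1) (w2 (w1 (-1) (act 0 2 0 (w2 (act 1 0 0 (w1 (-1) (w2 (act 1 0 0
      (w1 (-1) ⟨0, 0, 0, 0, 0, 1⟩))))))))))) := by
    simp only [om1 h1, om2 h2, om_act]; exact om_z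
  rw [← om_lab] at this
  exact (not_om hF).1 (by convert this using 2; decide +kernel)

theorem morJ1 (h : F.IsMor E1 (n1 k)) {f : US → US} (hf : F.IsMor JJ f) :
    F.IsMor JJ fun x => n1 k (f x) := h.comp' hf fun x hx => JJ_le_E1 (mor_JJ hf le_rfl hx)

theorem morJ2 (h : F.IsMor E2 (n2 0)) {f : US → US} (hf : F.IsMor JJ f) :
    F.IsMor JJ fun x => n2 0 (f x) := h.comp' hf fun x hx => JJ_le_E2 (mor_JJ hf le_rfl hx)

theorem morJ0 (t : US) {f : US → US} (hf : F.IsMor JJ f) :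
    F.IsMor JJ fun x => t * f x * t⁻¹ := (F.isMor_conj le_rfl (mem_top t)).comp' hf fun _ _ => trivial

theorem morJ : F.IsMor JJ fun x => x := (F.isIso_id le_top).mor

theorem t3_of (hF : F.IsSaturated 3) (hs : Std F) (h1 : F.IsMor E1 (n1 1)) (h2 : F.IsMor E2 (n2 0))
    (t1 : F.IsMor ⊤ (tauF 1 (-1) 1)) (t2 : F.IsMor ⊤ (tauF (-1) 1 1)) :
    F.IsMor ⊤ (tauF 1 1 (-1)) := by
  let φ : US → US := fun x => xa 1 * n1 1 (n2 0 x) * (xa 1)⁻¹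
  have h : ∀ {f}, F.IsMor JJ f → F.IsMor JJ fun x => φ (f x) := fun hf =>
    morJ0 _ (morJ1 h1 (morJ2 h2 hf))
  have h6 : ∀ v, φ (φ (φ (φ (φ (φ (vJ v)))))) = (vJ v)⁻¹ := by decide +kernel
  obtain ⟨γ, hγ, e⟩ := res_JJ (h (h (h (h (h (h morJ)))))) le_rfl
  have e' : ∀ x ∈ JJ, equivFun γ x = x⁻¹ := fun x hx => by rw [e x hx, ← vJ_pV hx, h6]
  obtain ⟨f, k1, k2⟩ := ext_of hF lK lK_mono (lK_conj _) hγ fun B _ x hx h => by
    rw [e' x hx]; exact inv_mem h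
  obtain ⟨s, p, q, r, hp, hq, -, k3⟩ := hs f k1
  have k4 := congrArg US.c ((k3 _).symm.trans ((k2 (xc 1) ⟨rfl, rfl, rfl⟩).trans (e' _ ⟨rfl, rfl, rfl⟩)))
  simp at k4
  subst k4
  exact ((tauF_mem t1 t2 hp hq (.inl rfl)).comp' (isIso_tauF k1 k3).mor fun _ _ => trivial).congr
    fun x _ => by simp [tauF_tauF, sq_of_ne hp, sq_of_ne hq]

/-! the subgroup `R0` -/

def NJ : Subgroup US where
  carrier := {x | x ∈ H0 ∧ x.g = -x.f}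
  one_mem' := ⟨one_mem _, by simp⟩
  mul_mem' := fun {x y} hx hy => ⟨mul_mem hx.1 hy.1, by simp [mem_H0.1 hx.1, hx.2, hy.2, add_comm]⟩
  inv_mem' := fun {x} hx => ⟨inv_mem hx.1, by simp [mem_H0.1 hx.1, hx.2]⟩

theorem mem_NJ : x ∈ NJ ↔ (x.a = 0 ∧ x.b = 0 ∧ x.c = 0 ∧ x.d = 0) ∧ x.g = -x.f := Iff.rfl

def CC : Subgroup US where
  carrier := {x | x ∈ Z3 ∧ x.g = -x.f ∧ x.h = 0}
  one_mem' := ⟨one_mem _, by simp⟩
  mul_mem' := fun {x y} hx hy => ⟨mul_mem hx.1 hy.1, by simp [mem_Z3.1 hx.1, hx.2, hy.2, add_comm]⟩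
  inv_mem' := fun {x} hx => ⟨inv_mem hx.1, by simp [mem_Z3.1 hx.1, hx.2]⟩

theorem mem_CC : x ∈ CC ↔ (x.a = 0 ∧ x.b = 0 ∧ x.c = 0 ∧ x.d = 0 ∧ x.e = 0) ∧ x.g = -x.f ∧ x.h = 0 :=
  Iff.rfl

theorem mem_M3 : x ∈ Z3 ⊓ NJ ↔ (x.a = 0 ∧ x.b = 0 ∧ x.c = 0 ∧ x.d = 0 ∧ x.e = 0) ∧ x.g = -x.f := by
  simp only [mem_inf, mem_Z3, mem_NJ]; tauto

def r0 : US := ⟨1, 1, 0, -1, 0, 0, 0, 0, 0⟩

theorem r0_mem : r0 ∈ R0 := ⟨rfl, rfl⟩

theorem JJ_le_R0 : JJ ≤ R0 := fun x hx => by simp [mem_R0, mem_JJ.1 hx]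

theorem memJ (hx : x ∈ JJ) : x ∈ R0 := JJ_le_R0 hx

theorem inv_NJ (γ : MulAut R0) : Inv γ NJ :=
  inv_ce (C := R0) (D := JJ) (Inv.of_le le_rfl) (inv_JJ JJ_le_R0 γ)
    (fun x hx y hy => by
      simp [mem_NJ, mem_R0.1 hx, mem_JJ.1 hy]; linear_combination (x.a * y.e) * h3) fun K H z _ hz => by
    have : z = ⁅r0, (⟨0, 0, z.e, 0, z.f + z.e, z.h + z.e, 0, -z.z + z.h + z.f, 0⟩ : US)⁆ := by
      ext <;> simp [r0, mem_NJ.1 hz] <;> rw [← sub_eq_zero] <;> ring_nf <;> simp [h3]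
    rw [this]
    exact H _ r0_mem r0_mem _ (memJ ⟨rfl, rfl, rfl⟩) ⟨rfl, rfl, rfl⟩

theorem inv_CC (γ : MulAut R0) : Inv γ CC := inv_cm Inv.bot Inv.top (fun x hx H => by
    have h1 := H r0 r0_mem trivial
    have h2 := H (xc 1) (memJ ⟨rfl, rfl, rfl⟩) trivial
    simp [US.ext_iff, r0, mem_R0.1 hx] at h1 h2
    obtain ⟨k1, -⟩ := h2
    simp [k1, mem_CC, mem_R0.1 hx] at h1 ⊢
    obtain ⟨k2, k3, -, k4, k5⟩ := h1
    simp [k2] at k3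
    simp [k2, k3] at k4 k5 ⊢
    exact ⟨by linear_combination k4, by linear_combination -k5 + k4 + (x.h - x.f) * h3⟩)
  fun x _ hx y hy _ => by
    simp [US.ext_iff, mem_CC.1 hx, mem_R0.1 hy]; linear_combination (-(x.f * y.a ^ 2)) * h3

theorem sec4 : Sec R0 JJ fun x => (x.c, x.f + x.g) :=
  ⟨JJ_le_R0, inv_JJ JJ_le_R0, fun x hx y hy => by simp [mem_JJ.1 hx]; ring,
    fun v => ⟨⟨0, 0, v.1, 0, 0, v.2, 0, 0, 0⟩, ⟨rfl, rfl, rfl⟩, by simp⟩, fun γ x hx h => by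
      simp only [Prod.mk_eq_zero] at h ⊢
      have := inv_NJ γ x (memJ hx) ⟨⟨hx.1, hx.2.1, h.1, hx.2.2⟩, by linear_combination h.2⟩
      exact ⟨this.1.2.2.1, by linear_combination this.2⟩,
    fun t ht x hx => by
      simp [mem_JJ.1 hx, mem_R0.1 ht]; linear_combination (x.e * t.a) * h3⟩

theorem sec4_u : ∀ x ∈ JJ, ((xd 1 * x * (xd 1)⁻¹).c, (xd 1 * x * (xd 1)⁻¹).f + (xd 1 * x * (xd 1)⁻¹).g) =
    (x.c, x.f + x.g + x.c) := fun x hx => by simp [mem_JJ.1 hx]; ring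

theorem xd_norm : xd 1 ∈ normalizer (R0 : Set US) :=
  mem_normalizer_of_finite fun x hx => by simp [mem_R0, mem_R0.1 hx]

theorem norm_ab {t : US} (ht : t ∈ normalizer (R0 : Set US)) : t.b = t.a := by
  have := ((mem_normalizer_iff.1 ht r0).1 r0_mem).2
  simp [r0] at this
  linear_combination -this

theorem mem_JJ_of_comm (h : ∀ x ∈ JJ, y * x = x * y) : y ∈ JJ := by
  have h1 := h (xc 1) ⟨rfl, rfl, rfl⟩
  have h2 := h (xe 1) ⟨rfl, rfl, rfl⟩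
  simp [comm_iff] at h1 h2
  exact ⟨h2.1, h1.1, h1.2.1⟩

/-- invariants of an automorphism of `R0` fixing `H0` -/
theorem inv4 {γ : MulAut R0} (h : (equivFun γ (xf 1)).c = 0) :
    Inv γ H0 ∧ Inv γ Z1 ∧ Inv γ (Z3 ⊓ NJ) := by
  have hf : xf 1 ∈ R0 := memJ ⟨rfl, rfl, rfl⟩
  have k0 := inv_JJ JJ_le_R0 γ _ hf ⟨rfl, rfl, rfl⟩
  have k1 : equivFun γ (xf 1) ∈ H0 := ⟨k0.1, k0.2.1, h, k0.2.2⟩
  have k2 := equivFun_mem γ r0_mem
  refine ⟨inv_of_gen (inv_NJ γ) (fun x hx => hx.1) (fun x hx => memJ (H0_le_JJ hx.1)) hf k1 fun x hx => ?_,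
    inv_Z1_of (Z1_le_JJ.trans JJ_le_R0) (s := -1) (by decide) ?_,
    inv_of_gen (inv_CC γ) (fun x hx => mem_M3.2 ⟨hx.1, hx.2.1⟩) (fun x hx => memJ (Z3_le_JJ hx.1))
      (ce_mem r0_mem hf) ?_ fun x hx => ?_⟩
  · simp [mem_NJ, mem_H0.1 hx]
    rcases f3_tri (x.f + x.g) with e | e | e
    · exact .inl (by linear_combination e)
    · exact .inr (.inl (by linear_combination e))
    · exact .inr (.inr (by linear_combination e))
  · rw [show xz (-1) = ⁅r0, ⁅r0, xf 1⁆⁆ by decide, ef_ce _ r0_mem (ce_mem r0_mem hf), ef_ce _ r0_mem hf]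
    simp [mem_Z1, mem_R0.1 k2, mem_H0.1 k1]
    rw [← sub_eq_zero]; ring_nf; simp [h3]
  · rw [ef_ce _ r0_mem hf]
    simp [mem_M3, mem_R0.1 k2, mem_H0.1 k1, -mem_inf]
    rw [← sub_eq_zero]; ring_nf; simp [h3]
  · simpa [mem_CC, mem_M3.1 hx, r0, -commutatorElement_inv] using f3_tri x.h

theorem ext4 (hF : F.IsSaturated 3) (hR : F.IsFullyNormalized R0) {γ : MulAut R0}
    (hγ : γ ∈ F.autGroup R0) (h : (equivFun γ (xf 1)).c = 0) :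
    ∃ f, F.IsIso ⊤ ⊤ f ∧ ∀ x ∈ JJ, f x = equivFun γ x := by
  obtain ⟨iH, i1, iM⟩ := inv4 h
  have iJ := inv_JJ JJ_le_R0 γ
  obtain ⟨s, hs, e⟩ := normL isPGroup_US (hF.sylowIn isPGroup_top hR) [Z1, CC, Z3 ⊓ NJ, NJ, H0, JJ]
    ⟨bot_le, fun x hx => by simp [mem_CC, mem_Z1.1 hx], fun x hx => mem_M3.2 ⟨hx.1, hx.2.1⟩,
      inf_le_right, fun x hx => hx.1, H0_le_JJ, le_top⟩ (fun t ht =>
    ⟨fun x _ hx => by simp [US.ext_iff, mem_Z1.1 hx],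
      fun x _ hx => by simp [mem_Z1, mem_CC.1 hx, norm_ab ht],
      fun x _ hx => by simp [mem_CC, mem_M3.1 hx, norm_ab ht],
      fun x _ hx => by
        simp [mem_M3, mem_NJ.1 hx, norm_ab ht, -mem_inf]; linear_combination (x.e * t.a) * h3,
      fun x _ hx => by simp [mem_NJ, mem_H0.1 hx, norm_ab ht]; linear_combination (x.e * t.a) * h3,
      fun x _ hx => by simp [mem_H0, mem_JJ.1 hx],
      fun x hx _ => by simp [mem_JJ, mem_R0.1 hx, norm_ab ht]⟩) hγ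
    (by simpa using ⟨i1, inv_CC γ, iM, inv_NJ γ, iH, iJ⟩) xd_norm
  have hd : ∀ {x}, x ∈ JJ → equivFun γ ⁅xd 1, x⁆ = ⁅s, equivFun γ x⁆ := fun {x} hx => by
    rw [commutatorElement_def, ef_mul _ (memJ (Normal.conj_mem inferInstance x hx _)) (memJ (inv_mem hx)),
      e x (memJ hx), ef_inv _ (memJ hx), commutatorElement_def]
  have hc : xc 1 ∈ R0 := memJ ⟨rfl, rfl, rfl⟩
  have c1 := iJ.inv _ hc ⟨rfl, rfl, rfl⟩
  have c2 : ⁅xd 1, equivFun γ⁻¹ (xc 1)⁆ ∈ JJ := by simp [mem_JJ, mem_JJ.1 c1]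
  have c3 : ⁅xd 1, ⁅xd 1, equivFun γ⁻¹ (xc 1)⁆⁆ ∈ Z1 := by simp [mem_Z1, mem_JJ.1 c1]
  have c4 := i1 _ (memJ (Z1_le_JJ c3)) c3
  rw [hd c2, hd c1, equivFun_apply_inv _ hc] at c4
  have sa : s.a = 0 := by simpa [norm_ab hs] using c4.2.2.2.2.2.1
  have sb : s.b = 0 := (norm_ab hs).trans sa
  have sd : s.d ≠ 0 := fun sd => absurd (ef_eq_one γ (memJ (by simp [mem_JJ])) ((hd (x := xc 1) ⟨rfl, rfl, rfl⟩).trans
    (commutatorElement_eq_one_iff_mul_comm.2 (comm_JJ ⟨sa, sb, sd⟩ (iJ _ hc ⟨rfl, rfl, rfl⟩)))))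
    (by decide)
  have iY : Inv γ YY := fun x hx hy => by
    have k1 := hd (YY_le_JJ hy)
    have k2 := iJ x hx (YY_le_JJ hy)
    rw [show ⁅xd 1, x⁆ = 1 by ext <;> simp [mem_YY.1 hy], ef_one] at k1
    simp [US.ext_iff, sa, sb, sd, mem_JJ.1 k2, two_ne] at k1
    obtain ⟨k3, k4, k5⟩ := k1
    simp [k3, sd, two_ne] at k5
    exact ⟨k2.1, k2.2.1, k3, k2.2.2, k4, k5⟩
  obtain ⟨δ, hδ, e'⟩ := res_JJ (isMor_of_mem_autGroup le_top hγ) JJ_le_R0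
  have tr : ∀ {B}, Inv γ B → Inv δ B := fun h x hx hB => by rw [e' x hx]; exact h x (memJ hx) hB
  obtain ⟨f, k1, k2⟩ := ext_of hF lK lK_mono (lK_conj _) hδ (by
    simpa [lK] using ⟨tr i1, tr ((iY.inf iM).congr fun x _ => by
        simp only [mem_inf, mem_YY, mem_Z3, mem_NJ, mem_Z2]; aesop),
      tr (inv_of_gen iY YY_le_Z3 (YY_le_JJ.trans JJ_le_R0) (y := xf 1 * xg (-1)) (memJ ⟨rfl, rfl, rfl⟩)
        (inv_CC γ _ (memJ ⟨rfl, rfl, rfl⟩) (by simp [mem_CC])).1 fun x hx => by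
          simpa [mem_YY, mem_Z3.1 hx] using f3_tri x.f),
      tr iH, Inv.of_le le_rfl, Inv.of_le JJ_le_KK⟩)
  exact ⟨f, k1, fun x hx => (k2 x hx).trans (e' x hx)⟩

theorem ext_R0 (hE : E.IsSaturated 3) {φ σ : US → US} (hφ : E.IsMor JJ φ)
    (hσ : ∀ t ∈ R0, ∀ x ∈ JJ, φ (t * x * t⁻¹) = σ t * φ x * (σ t)⁻¹) :
    ∃ f, E.IsMor R0 f ∧ (∀ x ∈ JJ, f x = φ x) ∧ ∀ t ∈ R0, (σ t)⁻¹ * f t ∈ JJ := by
  have hi := hφ.isIso_self fun x hx => mor_JJ hφ le_rfl hx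
  obtain ⟨f, h1, h2⟩ := (hE.isReceptive isPGroup_top (fullN E JJ)).exists_ext_of_le hi (R := R0)
    fun t ht => mem_extSub.2 ⟨trivial, mem_norm t, σ t, trivial, hσ t ht⟩
  rw [sup_eq_right.2 JJ_le_R0] at h1
  refine ⟨f, h1, h2, fun t ht => mem_JJ_of_comm fun y hy => ?_⟩
  obtain ⟨x, hx, rfl⟩ := hi.surj y hy
  have := h1.isHomOn.map_conj ht (memJ hx)
  rw [h2 _ (Normal.conj_mem inferInstance x hx _), h2 x hx, hσ t ht x hx] at this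
  calc _ = (σ t)⁻¹ * (f t * φ x * (f t)⁻¹) * f t := by group
    _ = _ := by rw [← this]; group

theorem conj_r0 (hx : x ∈ R0) (ha : x.a ≠ 0) (h : x ^ 3 = 1) :
    ∃ w ∈ JJ, w * x * w⁻¹ = ⟨x.a, x.a, 0, -1, 0, 0, 0, 0, 0⟩ := by
  obtain ⟨a, _, c, _, e, f, g, h', z⟩ := x
  simp only [mem_R0] at hx ha
  obtain ⟨rfl, rfl⟩ := hx
  rename_i a
  have k1 := congrArg US.f h
  have k2 := congrArg US.z h
  refine ⟨⟨0, 0, a * e, 0, a * f + e, a * h' + a * e, 0, -(a * z) + h' + a * f, 0⟩, ⟨rfl, rfl, rfl⟩, ?_⟩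
  clear h
  rcases ne_cases ha with rfl | rfl <;> simp [pow_succ] at k1 k2
  all_goals
    obtain rfl : c = 0 := by clear k2; revert c e f; decide +kernel
    obtain rfl : g = -f := by clear k1; revert e f g h' z; decide +kernel
    clear k1 k2; revert e f h' z; decide +kernel

theorem aut_R0 (hE : E.IsSaturated 3) {γ : MulAut R0} (h : E.IsMor JJ (equivFun γ)) :
    γ ∈ E.autGroup R0 := by
  obtain ⟨f, h1, h2, h3⟩ := ext_R0 hE h (σ := equivFun γ) fun t ht x hx =>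
    (isHomOn_equivFun γ).map_conj ht (memJ hx)
  have a1 := equivFun_mem γ r0_mem
  have a2 : (equivFun γ r0).a ≠ 0 := fun e => absurd ((inv_JJ JJ_le_R0 γ).back r0_mem
    ⟨e, a1.1.trans e, by simp [a1.2, e]⟩).1 (by decide)
  have b0 := h3 _ r0_mem
  have b1 : f r0 ∈ R0 := (mul_mem_cancel_left (inv_mem a1)).1 (memJ b0)
  have b2 : (f r0).a = (equivFun γ r0).a := by have := b0.1; simp at this; linear_combination this
  obtain ⟨u, hu, e1⟩ := conj_r0 a1 a2 (ef_cube r0_mem (by decide))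
  obtain ⟨w, hw, e2⟩ := conj_r0 b1 (b2 ▸ a2) (by
    rw [← h1.isHomOn.map_pow r0_mem, show r0 ^ 3 = 1 by decide, h1.isHomOn.map_one])
  have hm := (E.isMor_conj le_rfl (mem_top (u⁻¹ * w))).comp' h1 fun _ _ => trivial
  refine mem_aut hm fun x hx => ?_
  have hJ : JJ ≤ IsHomOn.eqSub (isHomOn_equivFun γ) hm.isHomOn := fun x hx => ⟨memJ hx, by
    show _ = u⁻¹ * w * f x * (u⁻¹ * w)⁻¹
    rw [h2 x hx, comm_JJ (mul_mem (inv_mem hu) hw) (inv_JJ JJ_le_R0 γ x (memJ hx) hx),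
      mul_inv_cancel_right]⟩
  have hr : r0 ∈ IsHomOn.eqSub (isHomOn_equivFun γ) hm.isHomOn := ⟨r0_mem, by
    show _ = u⁻¹ * w * f r0 * (u⁻¹ * w)⁻¹
    calc _ = u⁻¹ * (u * equivFun γ r0 * u⁻¹) * u := by group
      _ = u⁻¹ * (w * f r0 * w⁻¹) * u := by rw [e1, e2, b2]
      _ = _ := by group⟩
  have : x ∈ JJ ∨ r0⁻¹ * x ∈ JJ ∨ r0 * x ∈ JJ := by
    rcases f3_cases x.a with e | e | e <;> simp [mem_JJ, r0, mem_R0.1 hx, e] <;> decide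
  rcases this with k | k | k
  · exact (hJ k).2
  · exact ((mul_mem_cancel_left (inv_mem hr)).1 (hJ k)).2
  · exact ((mul_mem_cancel_left hr).1 (hJ k)).2

def q0 (x : US) : US := n1 1 (n2 0 (xb 1 * n1 1 (n2 0 (n1 1 (n2 0 x))) * (xb 1)⁻¹))

theorem mor_q0 (h1 : F.IsMor E1 (n1 1)) (h2 : F.IsMor E2 (n2 0)) : F.IsMor JJ q0 :=
  morJ1 h1 (morJ2 h2 (morJ0 _ (morJ1 h1 (morJ2 h2 (morJ1 h1 (morJ2 h2 morJ))))))

theorem gen4 (hF : F.IsSaturated 3) (hE : E.IsSaturated 3) (hR : F.IsFullyNormalized R0)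
    (h1 : F.IsMor E1 (n1 1)) (h2 : F.IsMor E2 (n2 0)) (k1 : E.IsMor E1 (n1 1)) (k2 : E.IsMor E2 (n2 0))
    (ht : ∀ f, F.IsIso ⊤ ⊤ f → E.IsMor ⊤ f) {f : US → US} (hf : F.IsIso R0 R0 f) : E.IsMor R0 f := by
  obtain ⟨n, n1, n2, n3⟩ := ext_R0 hF (mor_q0 h1 h2) (σ := fun t => t⁻¹) fun t ht x hx => by
    have : ∀ a v, q0 (vJ (act a a (-a ^ 2) v)) = vJ (act (-a) (-a) (-a ^ 2) (pV (q0 (vJ v)))) := by
      decide +kernel
    rw [← vJ_pV hx, ← vJ_act, ht.1, ht.2, this, ← vJ_pV (mor_JJ (mor_q0 h1 h2) le_rfl (vJ_mem _)),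
      ← vJ_act, (inv_mem ht).1, (inv_mem ht).2]
    simp [pV_vJ]
  have m : ∀ x ∈ R0, n x ∈ R0 := fun x hx => (mul_mem_cancel_left (inv_mem (inv_mem hx))).1 (memJ (n3 x hx))
  obtain ⟨N, -, e⟩ := (n1.isIso_self m).exists_aut
  exact sec4.gen xd_norm sec4_u (x0 := xf 1) ⟨rfl, rfl, rfl⟩ rfl n1
    ((isMor_of_mem_autGroup le_top (aut_R0 hE ((mor_q0 k1 k2).congr fun x hx =>
      ((e x (memJ hx)).trans (n2 x hx)).symm))).congr e) m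
    (by rw [n2 _ ⟨rfl, rfl, rfl⟩]; decide) (fun γ hγ h => let ⟨f, l1, l2⟩ := ext4 hF hR hγ h
      aut_R0 hE (((ht f l1).mono le_top).congr l2)) hf

/-- the symmetric matrices of rank two -/
def rk2 (v : V) : Bool := lab v ∈ [2, 4, 5, 7, 8, 9, 12, 17, 18]

theorem not_ess0 (hF : F.IsSaturated 3) (h1 : F.IsMor E1 (n1 0)) (h2 : F.IsMor E2 (n2 0))
    {γ : MulAut R0} (hγ : γ ∈ F.autGroup R0) : equivFun γ (xz 1) ∈ YY := by
  by_contra hz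
  have hz1 : xz 1 ∈ R0 := memJ (xz_JJ 1)
  obtain ⟨δ, hδ, e⟩ := res_JJ (isMor_of_mem_autGroup le_top hγ) JJ_le_R0
  have l1 : ∀ v {l l'}, lab v = l ∧ lab (w1 0 v) = l' → (Om F (rep l') ↔ Om F (rep l)) := by
    rintro v _ _ ⟨rfl, rfl⟩; rw [om_lab, om_lab, om1 h1]
  have l2 : ∀ v {l l'}, lab v = l ∧ lab (w2 v) = l' → (Om F (rep l') ↔ Om F (rep l)) := by
    rintro v _ _ ⟨rfl, rfl⟩; rw [om_lab, om_lab, om2 h2]
  have o0 : ¬ Om F (rep 0) := fun h => h.ne rfl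
  have o1 : Om F (rep 1) := om_z
  obtain ⟨o2, o4, o5⟩ := not_om hF
  have o11 : Om F (rep 11) := by
    have k1 := inv_CC γ _ hz1 (by simp [mem_CC])
    have k2 : Om F (pV (equivFun γ (xz 1))) :=
      ⟨δ, hδ, 1, one_ne_zero, by rw [vJ_pV (Z3_le_JJ k1.1), e _ (xz_JJ 1)]⟩
    rw [← om_lab] at k2
    convert k2 using 2
    generalize equivFun γ (xz 1) = u at k1 hz
    have : ∀ f z : F3, f ≠ 0 → 11 = lab ⟨0, 0, f, -f, 0, z⟩ := by decide +kernel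
    rw [this u.f u.z fun h => hz (by simp [mem_YY, mem_CC.1 k1, h])]
    congr 1
    ext <;> simp [mem_CC.1 k1]
  have o3 : Om F (rep 3) := (l1 ⟨0, 0, 0, 0, 0, 1⟩ (by decide +kernel)).2 o1
  have o9 : ¬ Om F (rep 9) := (l2 ⟨0, 0, 0, 0, 1, 0⟩ (by decide +kernel)).not.2 o2
  have o6 : Om F (rep 6) := (l2 ⟨0, 0, 0, 1, 0, 0⟩ (by decide +kernel)).2 o3
  have o7 : ¬ Om F (rep 7) := (l2 ⟨0, 0, 0, 1, 0, 1⟩ (by decide +kernel)).not.2 o4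
  have o8 : ¬ Om F (rep 8) := (l2 ⟨0, 0, 0, 1, 0, 2⟩ (by decide +kernel)).not.2 o5
  have o12 : ¬ Om F (rep 12) := (l1 ⟨0, 0, 1, 0, 0, 0⟩ (by decide +kernel)).not.2 o9
  have o13 : Om F (rep 13) := (l1 ⟨0, 0, 1, 2, 0, 0⟩ (by decide +kernel)).2 o11
  have o16 : Om F (rep 16) := (l2 ⟨0, 0, 1, 2, 0, 0⟩ (by decide +kernel)).2 o11
  have o10 : Om F (rep 10) := (l1 ⟨0, 1, 0, 0, 0, 1⟩ (by decide +kernel)).2 o13
  have o14 : Om F (rep 14) := (l2 ⟨0, 1, 0, 0, 0, 1⟩ (by decide +kernel)).2 o13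
  have o18 : ¬ Om F (rep 18) := (l2 ⟨0, 1, 0, 1, 0, 0⟩ (by decide +kernel)).not.2 o12
  have o21 : Om F (rep 21) := (l2 ⟨0, 1, 0, 1, 0, 1⟩ (by decide +kernel)).2 o13
  have o22 : Om F (rep 22) := (l2 ⟨0, 1, 0, 1, 0, 2⟩ (by decide +kernel)).2 o14
  have o17 : ¬ Om F (rep 17) := (l1 ⟨1, 0, 0, 0, 0, 1⟩ (by decide +kernel)).not.2 o7
  have o15 : Om F (rep 15) := (l1 ⟨1, 0, 0, 0, 2, 0⟩ (by decide +kernel)).2 o16
  have o20 : Om F (rep 20) := (l1 ⟨1, 0, 0, 0, 2, 1⟩ (by decide +kernel)).2 o16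
  have o19 : Om F (rep 19) := (l1 ⟨1, 0, 0, 2, 1, 1⟩ (by decide +kernel)).2 o22
  have key : ∀ v, rk2 v ↔ v ≠ 0 ∧ ¬ Om F v := fun v => by
    have k1 : ∀ v, v = 0 ↔ lab v = 0 := by decide +kernel
    rw [← om_lab, rk2, Ne, k1]
    have := lab_lt v
    generalize lab v = l at this
    interval_cases l <;> simp [*]
  obtain ⟨vb, hv, -⟩ := sec4.vb
  have k1 : ∀ v : V, (lin δ v).c = v.c * (vb γ (1, 0)).1 + (v.f + v.g) * (equivFun γ (xf 1)).c :=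
    fun v => by
      have k2 := congrArg Prod.fst (hv γ _ (vJ_mem v))
      have k3 := congrArg Prod.fst (hv γ (xf 1) ⟨rfl, rfl, rfl⟩)
      rw [lin2, ← e _ (vJ_mem v), ← vJ_lin] at k2
      simp at k2 k3
      rw [← k2, k3]
  have k2 : (equivFun γ (xf 1)).c ≠ 0 := fun h => hz (Z1_le_YY ((inv4 h).2.1 _ hz1 (xz_mem 1)))
  have k3 : ∀ α β : F3, β ≠ 0 → (Finset.univ.filter fun v : V =>
      rk2 v ∧ v.c * α + (v.f + v.g) * β = 0).card = 72 := by decide +kernel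
  have k4 : (Finset.univ.filter fun v : V => rk2 v ∧ v.c = 0).card = 90 := by decide +kernel
  have := Finset.card_equiv (lin δ).toEquiv (s := Finset.univ.filter fun v : V =>
      rk2 v ∧ v.c * (vb γ (1, 0)).1 + (v.f + v.g) * (equivFun γ (xf 1)).c = 0)
    (t := Finset.univ.filter fun v : V => rk2 v ∧ v.c = 0) fun v => by
      simp [key, k1, om_aut hδ (vJ_lin δ v).symm]
  rw [k3 _ _ k2, k4] at this
  exact absurd this (by decide)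

end Cfsg.Agent.C3
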