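import Cfsg.Agent.Lib.C3.P1
import Cfsg.Agent.Lib.C3.P2
import Cfsg.Agent.Lib.C3.P3
import Cfsg.Agent.Lib.C3.P4
import Cfsg.Agent.Lib.C3.Sp
import Cfsg.Agent.Lib.C3.Co
import Cfsg.Agent.Lib.U5.Main
import Cfsg.Agent.Lib.H9.CenterSq

/-!
# S5227: assembly (see notes/C3.md)
-/

set_option autoImplicit false
set_option linter.unusedSectionVars false
set_option linter.unusedVariables false
set_option linter.unusedSimpArgs false
set_option linter.unnecessarySeqFocus false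
set_option linter.unusedTactic false
set_option linter.unreachableTactic false

namespace Cfsg.Agent.C3

open Subgroup Cfsg Cfsg.FusionSystem Cfsg.Agent.U5 US
open scoped commutatorElement


variable {F E : FusionSystem (⊤ : Subgroup US)} {R : Subgroup US} {k : F3}

theorem E4T.le (h : E4T R) : JJ ≤ R := fun x hx =>
  let ⟨s, ε, _, k⟩ := h
  (k x).2 (memJ (by simp [mem_JJ, mem_JJ.1 hx]))

theorem not_normal (hF : F.IsSaturated 3) (hc : F.core = ⊥) {Q : Subgroup US} (hz : xz 1 ∈ Q)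
    (h : ∀ P, (P = ⊤ ∨ F.IsEssential 3 P) → Q ≤ P ∧ ∀ γ : MulAut P, Inv γ Q) : False := by
  have := (hF.isNormal_of_essential isPGroup_top (Q := Q) fun P hP => ⟨(h P hP).1, fun g hg x hx => by
    obtain ⟨γ, -, e⟩ := hg.exists_aut
    rw [← e x ((h P hP).1 hx)]
    exact (h P hP).2 γ x ((h P hP).1 hx) hx⟩).le_core hz
  rw [hc, mem_bot] at this
  exact absurd this (by decide)

theorem inv_YY_E1 (γ : MulAut E1) : Inv γ YY := inv_cm Inv.bot Inv.top (fun x hx H => by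
    have hb := H (xb 1) rfl trivial
    have hd := H (xd 1) rfl trivial
    have hc := H (xc 1) rfl trivial
    simp [US.ext_iff, two_ne, mem_E1.1 hx] at hb hd hc
    casesm* _ ∧ _
    simp_all [mem_YY, two_ne, mem_E1])
  fun x _ hx y hy _ => by simp [US.ext_iff, mem_YY.1 hx, mem_E1.1 hy]

theorem movs (hF : F.IsSaturated 3) (hc : F.core = ⊥) : (Mov1 F ∧ Mov2 F) ∧ Mov3 F := by
  refine ⟨?_, by_contra fun h => not_normal hF hc (xz_JJ 1) fun P hP => ?_⟩
  · by_cases h : ∃ R, E4T R ∧ ∃ γ ∈ F.autGroup R, equivFun γ (xz 1) ∉ YY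
    · obtain ⟨R, h1, γ, h2, h3⟩ := h
      obtain ⟨δ, hδ, e⟩ := res_JJ (isMor_of_mem_autGroup le_top h2) h1.le
      exact mov_of_sigma hF hδ (by rwa [e _ (xz_JJ 1)])
    refine ⟨by_contra fun h' => not_normal hF hc (xz_mem 1) fun P hP => ?_,
      by_contra fun h' => not_normal hF hc (Z1_le_YY (xz_mem 1)) fun P hP => ?_⟩
    · rcases hP with rfl | hP
      · exact ⟨le_top, aut_Z1⟩
      rcases ess_cases hF hP with rfl | rfl | rfl | h4
      · exact absurd (mov1_of hF hP) h'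
      · exact ⟨Z1_le_E2, inv_Z1_E2⟩
      · exact ⟨Z1_le_E3, inv_Z1_E3⟩
      · exact absurd ⟨P, h4⟩ h
    · rcases hP with rfl | hP
      · exact ⟨le_top, aut_YY⟩
      rcases ess_cases hF hP with rfl | rfl | rfl | h4
      · exact ⟨YY_le_E1, inv_YY_E1⟩
      · exact absurd (mov2_of' hF hP) h'
      · exact ⟨YY_le_E3, inv_YY_E3⟩
      · exact absurd ⟨P, h4⟩ h
  · have : JJ ≤ P := by
      rcases hP with rfl | hP
      · exact le_top
      rcases ess_cases hF hP with rfl | rfl | rfl | h4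
      · exact JJ_le_E1
      · exact JJ_le_E2
      · exact absurd (mov3_of hF hP) h
      · exact h4.1.le
    exact ⟨this, inv_JJ this⟩

/-- the generators of the system -/
structure Dat (F : FusionSystem (⊤ : Subgroup US)) (k l : F3) : Prop where
  sat : F.IsSaturated 3
  std : Std F
  t1 : F.IsMor ⊤ (tauF 1 (-1) 1)
  t2 : F.IsMor ⊤ (tauF (-1) 1 1)
  m1 : F.IsMor E1 (n1 k)
  m2 : F.IsMor E2 (n2 l)
  m3 : F.IsMor E3 n3

theorem exists_dat (hF : F.IsSaturated 3) (hs : Std F) (hc : F.core = ⊥) : ∃ k l, Dat F k l := by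
  obtain ⟨⟨h1, h2⟩, h3⟩ := movs hF hc
  have t1 := (t1_of hF hs h1).1
  have t2 := (t2_of hF hs h2).1
  obtain ⟨k, m1⟩ := n1_of hF hs h1 t2
  obtain ⟨l, m2⟩ := n2_of hF hs h2 t1
  exact ⟨k, l, hF, hs, t1.mor, t2.mor, m1, m2, n3_of hF hs h3⟩

theorem Dat.twist {l : F3} (h : Dat F k l) :
    ∃ (E : FusionSystem (⊤ : Subgroup US)) (t s : US → US), F.IsoVia E t s ∧ Dat E (k - l) 0 := by
  have hg : GrpIso (⊤ : Subgroup US) ⊤ (gam (-l)) (gam l) :=
    ⟨fun x _ y _ => gam_mul _ x y, fun x _ y _ => gam_mul _ x y, fun _ _ => trivial, fun _ _ => trivial,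
      fun x _ => by simp [gam_gam, gam_zero], fun x _ => by simp [gam_gam, gam_zero]⟩
  obtain ⟨E, hE⟩ := F.exists_isoVia hg
  have key : ∀ {P : Subgroup US} {f g : US → US}, (∀ x ∈ P, gam l x ∈ P) → F.IsMor P f →
      (∀ x ∈ P, g (gam (-l) x) = gam (-l) (f x)) → E.IsMor P g := fun {P f g} h1 h2 h3 =>
    (hE.isMor_of_induced h2 h3).mono fun x hx => (hg.mem_img_iff le_top).2 ⟨trivial, h1 x hx⟩
  have tau : ∀ {p q r : F3} (j : F3) (x : US), p ≠ 0 → q ≠ 0 →
      tauF p q r (gam j x) = gam j (tauF p q r x) := fun {p q r} j x hp hq => by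
    ext <;> simp [pow_two, sq_of_ne hp, sq_of_ne hq]; ring
  refine ⟨E, _, _, hE, hE.isSaturated h.sat, fun f hf => ?_,
    key (fun _ _ => trivial) h.t1 fun x _ => tau _ x (by decide) (by decide),
    key (fun _ _ => trivial) h.t2 fun x _ => tau _ x (by decide) (by decide),
    key (fun _ hx => hx) h.m1 fun x _ => by ext <;> simp <;> ring,
    key (fun _ hx => hx) h.m2 fun x _ => by ext <;> simp <;> ring,
    key (fun _ hx => hx) h.m3 fun x hx => by ext <;> simp [mem_E3.1 hx]⟩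
  obtain ⟨s, p, q, r, hp, hq, hr, e⟩ := h.std _ (hE.isIso_symm le_rfl le_rfl (by rwa [hg.img_top]))
  refine ⟨gam (-l) s, p, q, r, hp, hq, hr, fun x => ?_⟩
  have := congrArg (gam (-l)) (e (gam l x))
  rwa [hg.right _ trivial, hg.right _ trivial, hg.hom.map_conj (mem_top _) (mem_top _), ← tau _ _ hp hq,
    hg.right _ trivial] at this

theorem Dat.le (hF : Dat F k 0) (hE : Dat E k 0)
    (h3 : F.IsMor ⊤ (tauF 1 1 (-1)) → E.IsMor ⊤ (tauF 1 1 (-1))) : F ≤ E := by
  have top : ∀ f, F.IsIso ⊤ ⊤ f → E.IsMor ⊤ f := fun f hf => by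
    obtain ⟨s, p, q, r, hp, hq, hr, e⟩ := hF.std f hf
    refine ((E.isMor_conj le_rfl (mem_top s)).comp' (tauF_mem hE.t1 hE.t2 hp hq
      ((ne_cases hr).imp id ?_)) fun _ _ => trivial).congr fun x _ => (e x).symm
    rintro rfl
    exact ⟨hr, h3 (((tauF_mem hF.t1 hF.t2 hp hq (.inl rfl)).comp' (isIso_tauF hf e).mor
      fun _ _ => trivial).congr fun x _ => by simp [tauF_tauF, sq_of_ne hp, sq_of_ne hq])⟩
  refine le_iff_isSubsystemOf.2 (hF.sat.isSubsystemOf_of_essential isPGroup_top ?_)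
  rintro P (rfl | hP) f hf
  · exact top f hf
  rcases ess_cases hF.sat hP with rfl | rfl | rfl | ⟨⟨s, ε, hε, e⟩, -⟩
  · exact gen1 hF.sat hF.m1 hE.m1 top hf
  · exact gen2 hF.sat hF.m2 hE.m2 top hf
  · exact gen3 hF.sat hF.m3 hE.m3 top hf
  have φ : ∀ {D : FusionSystem (⊤ : Subgroup US)}, Dat D k 0 →
      D.IsMor ⊤ (fun x => tauF ε 1 1 (s * x * s⁻¹)) ∧ D.IsMor ⊤ fun x => s⁻¹ * tauF ε 1 1 x * s⁻¹⁻¹ :=
    fun {D} h => have := tauF_mem h.t1 h.t2 hε one_ne_zero (.inl rfl)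
      ⟨this.comp' (D.isMor_conj le_rfl (mem_top s)) fun _ _ => trivial,
        (D.isMor_conj le_rfl (mem_top s⁻¹)).comp' this fun _ _ => trivial⟩
  have tt := tauF_tauF_self hε one_ne_zero one_ne_zero
  have e' : ∀ x ∈ R0, s⁻¹ * tauF ε 1 1 x * s⁻¹⁻¹ ∈ P := fun x hx => (e _).2 (by
    simpa [mul_assoc, tt] using hx)
  have hR : F.IsEssential 3 R0 := by
    convert H9.IsEssential.img hP (φ hF).1.isIso_top
    refine le_antisymm (fun x hx => ?_) (img_le_iff.2 fun x hx => (e x).1 hx)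
    convert mem_img_of_mem (fun x => tauF ε 1 1 (s * x * s⁻¹)) (e' x hx) using 1
    simp [mul_assoc, tt]
  rcases f3_cases k with rfl | rfl | rfl
  · rcases ess_cases hF.sat hR with h | h | h | ⟨-, γ, h1, h2⟩
    · exact absurd (h.le r0_mem) (by simp [mem_E1, r0])
    · exact absurd (h.le r0_mem) (by simp [mem_E2, r0])
    · exact absurd (h.le (memJ (x := xc 1) ⟨rfl, rfl, rfl⟩)) (by simp [mem_E3])
    · exact absurd (not_ess0 hF.sat hF.m1 hF.m2 h1) h2
  · have := gen4 hF.sat hE.sat hR.isFullyNormalized hF.m1 hF.m2 hE.m1 hE.m2 top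
      (((φ hF).1.comp' (hf.mor.comp' ((φ hF).2.mono le_top) e') fun _ _ => trivial).isIso_self
        fun x hx => (e _).1 (hf.mapsTo _ (e' x hx)))
    exact ((φ hE).2.comp' (this.comp' ((φ hE).1.mono le_top) fun x hx => (e x).1 hx)
      fun _ _ => trivial).congr fun x _ => by simp [mul_assoc, tt]
  · exact absurd rfl (k_ne hF.sat hF.m1 hF.m2)

theorem Dat.realizable {G : Type*} [Group G] [Finite G] {ι : US →* G} (h : Dat F k 0)
    (hm : Mod k (F.IsMor ⊤ (tauF 1 1 (-1))) ι) : F.IsRealizable 3 := by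
  have hS := hm.sylow
  let ι' : (⊤ : Subgroup US) →* G := ι.comp (Subgroup.subtype ⊤)
  have hr : ι'.range = ι.range := by rw [MonoidHom.range_comp, range_subtype, ← MonoidHom.range_eq_map]
  have he : ∀ x, homFun ι' x = ι x := fun x => homFun_of_mem _ (mem_top x)
  obtain ⟨s, hs'⟩ := exists_grpIso_of_injective (ι := ι') (hm.inj.comp Subtype.val_injective)
  obtain ⟨E, hE⟩ := (groupFusionSystem ι'.range).exists_isoVia hs'.symm
  have hR : E.IsRealizedBy ι' := hE.symm.isRealizedBy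
  have hEs : E.IsSaturated 3 := hR.isSaturated (hr ▸ hS)
  have mor : ∀ {P : Subgroup US} {f : US → US}, IsHomOn P f →
      (∃ g, ∀ x ∈ P, ι (f x) = g * ι x * g⁻¹) → E.IsMor P f := fun {P f} h ⟨g, k⟩ =>
    hR.isMor_iff.2 ⟨le_top, h, fun _ _ => trivial, g, fun x hx => by rw [he, he, k x hx]⟩
  have t1 := mor h.t1.isHomOn (hm.t1.imp fun g e x _ => e x)
  have t2 := mor h.t2.isHomOn (hm.t2.imp fun g e x _ => e x)
  have t3 := fun k : F.IsMor ⊤ (tauF 1 1 (-1)) => mor k.isHomOn ((hm.t3 k).imp fun g e x _ => e x)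
  have nz : ¬ F.IsMor ⊤ (tauF 1 1 (-1)) → ∀ f, E.IsMor ⊤ f → f (xz 1) ≠ xz (-1) := fun k f hf e => by
    obtain ⟨-, -, -, g, e'⟩ := hR.isMor_iff.1 hf
    exact hm.nz k (isConj_iff.2 ⟨g, by rw [← e, ← he, ← he, e' _ trivial]⟩)
  have hD : Dat E k 0 := ⟨hEs, std_of hEs t1 t2 ((em _).imp t3 nz), t1, t2, mor h.m1.isHomOn hm.m1,
    mor h.m2.isHomOn hm.m2, mor h.m3.isHomOn hm.m3⟩
  have : E = F := le_antisymm' (hD.le h fun k => by_contra fun k' => nz k' _ k (by decide)) (h.le hD t3)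
  obtain ⟨T, hT⟩ := H7.sylowIn_top_iff.1 hS
  exact GL.isRealizable_of (this ▸ hR) T (hT.trans hr.symm)

theorem realizable {Ω : Type*} [Group Ω] {S : Subgroup Ω} {F : FusionSystem S}
    (hF : F.IsSaturated 3) (hc : F.core = ⊥) (e : S ≃* US) : F.IsRealizable 3 := by
  obtain ⟨E, hE⟩ := F.exists_isoVia (GrpIso.of_equiv (e.trans topEquiv.symm))
  obtain ⟨D, t, s, hD, hs⟩ := exists_std (hE.isSaturated hF)
  obtain ⟨k, l, h⟩ := exists_dat (hD.isSaturated (hE.isSaturated hF)) hs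
    (by rw [← hD.img_core, ← hE.img_core, hc, hE.img_bot, hD.img_bot])
  obtain ⟨C, t', s', hC, h⟩ := h.twist
  refine isRealizable_of_isoVia hE (isRealizable_of_isoVia hD (isRealizable_of_isoVia hC ?_))
  generalize k - l = k at h
  rcases f3_cases k with rfl | rfl | rfl
  · obtain ⟨G, _, _, ι, hm⟩ := exists_sp (C.IsMor ⊤ (tauF 1 1 (-1)))
    exact h.realizable hm
  · obtain ⟨ι, hm⟩ := exists_co
    haveI := finite_Co0
    exact h.realizable (eq_true (t3_of h.sat h.std h.m1 h.m2 h.t1 h.t2) ▸ hm)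
  · exact absurd rfl (k_ne h.sat h.m1 h.m2)

theorem sylow_Co1 (T : Sylow 3 Spor.Co1) : Nonempty ((T : Subgroup Spor.Co1) ≃* US) := by
  obtain ⟨ι, hm⟩ := exists_co
  haveI := finite_Co0
  let π : Co0 →* Spor.Co1 := QuotientGroup.mk' _
  have hi : Function.Injective (π.comp ι) := (injective_iff_map_eq_one _).2 fun x hx => by
    have h : ∀ g, g * ι x = ι x * g := mem_center_iff.1 ((QuotientGroup.eq_one_iff _).1 hx)
    have h1 : x ∈ Z1 := by
      have ha := hm.inj (((map_mul ι _ _).trans (h (ι (xa 1)))).trans (map_mul ι _ _).symm)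
      have hb := hm.inj (((map_mul ι _ _).trans (h (ι (xb 1)))).trans (map_mul ι _ _).symm)
      have hc := hm.inj (((map_mul ι _ _).trans (h (ι (xc 1)))).trans (map_mul ι _ _).symm)
      simp [comm_iff, two_ne, @eq_comm F3 0] at ha hb hc
      casesm* _ ∧ _
      simp_all [mem_Z1, two_ne]
    obtain ⟨g, e⟩ := hm.m1
    have := congrArg US.g (hm.inj ((e x (Z1_le_E1 h1)).trans (by rw [h, mul_inv_cancel_right])))
    simp [mem_Z1.1 h1] at this
    rw [eq_xz h1, this]; rfl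
  have h := hm.sylow.map π
  rw [← MonoidHom.range_comp, map_top_of_surjective _ (QuotientGroup.mk'_surjective _)] at h
  obtain ⟨R, hR⟩ := H7.sylowIn_top_iff.1 h
  exact ⟨((T.equiv R).trans (MulEquiv.subgroupCongr hR)).trans (MonoidHom.ofInjective hi).symm⟩

end Cfsg.Agent.C3
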