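import Cfsg.Agent.Lib.C3.Gen
import Cfsg.Agent.Lib.C3.Mod

/-!
# S5227: consequences of the model interface (see notes/C3.md)
-/

set_option autoImplicit false
set_option linter.unusedSectionVars false
set_option linter.unusedVariables false
set_option linter.unusedSimpArgs false
set_option linter.unnecessarySeqFocus false
set_option linter.unusedTactic false
set_option linter.unreachableTactic false

namespace Cfsg.Agent.C3

open Subgroup Cfsg Cfsg.FusionSystem Cfsg.Agent.U5 US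
open scoped commutatorElement


variable {F E : FusionSystem (⊤ : Subgroup US)} {x y : US}

theorem J_gen {K : Subgroup US} (hc : xc 1 ∈ K) (ha : ∀ x ∈ K, xa 1 * x * (xa 1)⁻¹ ∈ K)
    (hb : ∀ x ∈ K, xb 1 * x * (xb 1)⁻¹ ∈ K) : JJ ≤ K := by
  have k1 := hb _ hc
  have he : xe 1 ∈ K := by convert mul_mem (hb _ k1) (inv_mem k1) using 1; decide
  have hf : xf 1 ∈ K := by convert mul_mem (ha _ he) (inv_mem he) using 1; decide
  have hh : xh 1 ∈ K := by convert mul_mem (hb _ hf) (inv_mem hf) using 1; decide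
  exact fun x hx => mem_of_gens (.inl hx.1) (.inl hx.2.1) (.inr hc) (.inl hx.2.2) (.inr he) (.inr hf)
    (.inr (by convert mul_mem (mul_mem k1 (inv_mem hc)) (inv_mem he) using 1; decide)) (.inr hh)
    (.inr (by convert mul_mem hh (inv_mem (ha _ hh)) using 1; decide))

theorem P0_J {γ : MulAut (⊤ : Subgroup US)} (h : γ ∈ P0) :
    ∃ s m, ∀ x ∈ JJ, s * equivFun γ x * s⁻¹ = gam m x := by
  obtain ⟨h1, h2, h3'⟩ := P0_abc h
  have h4 := aut_E1 γ (xb 1) trivial rfl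
  have h5 := inv_JJ le_top γ (xc 1) trivial ⟨rfl, rfl, rfl⟩
  have h6 : equivFun γ (xa 1) * equivFun γ (xc 1) = equivFun γ (xc 1) * equivFun γ (xa 1) := by
    rw [← ef_mul _ (mem_top _) (mem_top _), ← ef_mul _ (mem_top _) (mem_top _)]
    exact congrArg _ (by decide)
  obtain ⟨s, m, ⟨a1, a2, a3⟩, ⟨b1, b2, b3⟩, c⟩ : ∃ s : US, ∃ m : F3,
      ((s * equivFun γ (xa 1) * s⁻¹).a = 1 ∧ (s * equivFun γ (xa 1) * s⁻¹).b = 0 ∧
        (s * equivFun γ (xa 1) * s⁻¹).d = 0) ∧ ((s * equivFun γ (xb 1) * s⁻¹).a = 0 ∧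
        (s * equivFun γ (xb 1) * s⁻¹).b = 1 ∧ (s * equivFun γ (xb 1) * s⁻¹).d = 0) ∧
        s * equivFun γ (xc 1) * s⁻¹ = gam m (xc 1) := by
    generalize equivFun γ (xa 1) = A at *
    generalize equivFun γ (xb 1) = B at *
    generalize equivFun γ (xc 1) = C at *
    obtain ⟨_, _, _, _, e, f, g, h, z⟩ := C
    obtain ⟨rfl, rfl, rfl⟩ := h5
    subst h3'
    simp [comm_iff, h1] at h6
    obtain ⟨k1, k2, -, k3, k4⟩ := h6
    simp [k1] at k3 k4
    obtain rfl : e = -A.d := by linear_combination k2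
    obtain rfl : g = A.d ^ 2 := by linear_combination k3
    obtain rfl : h = -(A.d * f) := by linear_combination -k4 + (h + A.d * f) * h3
    refine ⟨⟨-B.d, A.d, 0, -f - A.d * B.d, 0, 0, 0, 0, 0⟩, z - f ^ 2, by simp [h1, k1],
      by simp [h2, mem_E1.1 h4], ?_⟩
    ext <;> simp <;> ring
  have hδ := (isHomOn_conj ⊤ s).comp (isHomOn_equivFun γ) fun _ _ => trivial
  have key : ∀ t : US, (s * equivFun γ t * s⁻¹).a = t.a → (s * equivFun γ t * s⁻¹).b = t.b →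
      (s * equivFun γ t * s⁻¹).d = t.d → ∀ x ∈ JJ ⊓ IsHomOn.eqSub hδ (g := gam m)
        fun x _ y _ => gam_mul m x y, t * x * t⁻¹ ∈ JJ ⊓ IsHomOn.eqSub hδ (g := gam m)
        fun x _ y _ => gam_mul m x y := fun t e1 e2 e3 x hx =>
    ⟨Normal.conj_mem inferInstance x hx.1 t, trivial, by
      have e : s * equivFun γ x * s⁻¹ = gam m x := hx.2.2
      refine (hδ.map_conj (mem_top t) (mem_top x)).trans ?_
      show (s * equivFun γ t * s⁻¹) * (s * equivFun γ x * s⁻¹) * (s * equivFun γ t * s⁻¹)⁻¹ = _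
      rw [e]
      generalize s * equivFun γ t * s⁻¹ = u at *
      ext <;> simp [e1, e2, e3, mem_JJ.1 hx.1] <;> ring⟩
  have := J_gen ?_ (key _ a1 a2 a3) (key _ b1 b2 b3)
  · exact ⟨s, m, fun x hx => (this hx).2.2⟩
  · exact ⟨⟨rfl, rfl, rfl⟩, trivial, c⟩

theorem mem_P0_of_pow {γ : MulAut (⊤ : Subgroup US)} {n : ℕ} (h : γ ^ 3 ^ n = 1) : γ ∈ P0 := by
  obtain ⟨t, ht⟩ := exists_par γ
  have e : QuotientGroup.mk' P0 (tauT t) = QuotientGroup.mk' P0 γ := QuotientGroup.eq.2 ht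
  have h1 : t ^ 3 ^ n = 1 := eq_one_of_P0 ((QuotientGroup.eq_one_iff _).1
    (show QuotientGroup.mk' P0 _ = 1 by rw [map_pow, map_pow, e, ← map_pow, h, map_one]))
  have h2 : ∀ t : Par, t ^ 3 = t := by decide
  have h3 : t ^ 3 ^ n = t := by
    clear h1 h
    induction n with
    | zero => simp
    | succ n ih => rw [pow_succ, pow_mul, ih, h2]
  simpa [h3.symm.trans h1] using ht

theorem Mod.sylow {k : F3} {Γ : Prop} {G : Type*} [Group G] [Finite G] {ι : US →* G}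
    (h : Mod k Γ ι) : H7.SylowIn 3 ι.range ⊤ := by
  by_contra hn
  have hA : IsPGroup 3 ι.range := isPGroup_US.of_surjective _ ι.rangeRestrict_surjective
  obtain ⟨g, -, hg, hN, n, hn⟩ := H7.exists_mem_normalizer_of_not_sylowIn hA le_top hn
  choose f hf using fun x => show ∃ y, ι y = g * ι x * g⁻¹ from (mem_normalizer_iff.1 hN _).1 ⟨x, rfl⟩
  choose f' hf' using fun x => show ∃ y, ι y = g⁻¹ * ι x * g⁻¹⁻¹ from
    (mem_normalizer_iff.1 (inv_mem hN) _).1 ⟨x, rfl⟩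
  obtain ⟨γ, e⟩ := exists_aut_of (R := ⊤) (f := f) (g := f')
    (fun x _ y _ => h.inj (by simp [hf, mul_assoc])) (fun _ _ => trivial)
    fun x _ => h.inj (by simp [hf, hf', mul_assoc])
  have h1 : ∀ m : ℕ, ∀ x, ι (equivFun (γ ^ m) x) = g ^ m * ι x * (g ^ m)⁻¹ := fun m => by
    induction m with
    | zero => intro x; simp [equivFun_one (mem_top x)]
    | succ m ih => intro x; rw [pow_succ', equivFun_mul _ _ (mem_top x), e _ trivial, hf, ih]; group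
  obtain ⟨s, m, e'⟩ := P0_J (mem_P0_of_pow (γ := γ) (n := n) (mulEquiv_ext_equivFun fun x hx =>
    h.inj (by rw [h1, hn, equivFun_one hx]; simp)))
  have h2 : ∀ x ∈ JJ, ι s * g * ι x * (ι s * g)⁻¹ = ι (gam m x) := fun x hx => by
    rw [← e' x hx, e x trivial, map_mul, map_mul, hf, map_inv]; group
  rcases f3_cases m with rfl | rfl | rfl
  · obtain ⟨l, hl⟩ := (hA.to_sup_of_normal_left' (K := zpowers g) (fun x => ⟨n, by
      obtain ⟨_, j, rfl⟩ := x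
      exact Subtype.ext (show (g ^ j) ^ 3 ^ n = 1 by
        rw [← zpow_natCast, ← zpow_mul, mul_comm, zpow_mul, zpow_natCast, hn, one_zpow])⟩)
      (zpowers_le.2 hN)) ⟨ι s * g, mul_mem (mem_sup_left ⟨s, rfl⟩) (mem_sup_right (mem_zpowers g))⟩
    exact hg ((mul_mem_cancel_left (show ι s ∈ ι.range from ⟨s, rfl⟩)).1 (h.cent _ l (congrArg Subtype.val hl) fun x hx => by
      rw [← mul_inv_eq_iff_eq_mul, h2 x hx, gam_zero]))
  · exact h.nc (isConj_iff.2 ⟨_, (h2 _ ⟨rfl, rfl, rfl⟩).trans (congrArg ι (by decide))⟩)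
  · exact h.nc (isConj_iff.2 ⟨_, (h2 _ ⟨rfl, rfl, rfl⟩).trans (congrArg ι (by decide))⟩).symm

theorem tauF_mem (t1 : F.IsMor ⊤ (tauF 1 (-1) 1)) (t2 : F.IsMor ⊤ (tauF (-1) 1 1)) {p q r : F3}
    (hp : p ≠ 0) (hq : q ≠ 0) (hr : r = 1 ∨ r ≠ 0 ∧ F.IsMor ⊤ (tauF 1 1 (-1))) :
    F.IsMor ⊤ (tauF p q r) := by
  have t0 : F.IsMor ⊤ (tauF 1 1 1) := (F.isIso_id le_rfl).mor.congr fun x _ => (tauF_one x).symm
  have k1 : F.IsMor ⊤ (tauF p 1 1) := by rcases ne_cases hp with rfl | rfl <;> assumption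
  have k2 : F.IsMor ⊤ (tauF 1 q 1) := by rcases ne_cases hq with rfl | rfl <;> assumption
  have k3 : F.IsMor ⊤ (tauF 1 1 r) := by
    rcases hr with rfl | ⟨h1, h2⟩
    · exact t0
    · rcases ne_cases h1 with rfl | rfl <;> assumption
  exact (k1.comp' (k2.comp' k3 fun _ _ => trivial) fun _ _ => trivial).congr fun x _ => by
    simp [tauF_tauF]

theorem std_of (hF : F.IsSaturated 3) (t1 : F.IsMor ⊤ (tauF 1 (-1) 1))
    (t2 : F.IsMor ⊤ (tauF (-1) 1 1))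
    (t3 : F.IsMor ⊤ (tauF 1 1 (-1)) ∨ ∀ f, F.IsMor ⊤ f → f (xz 1) ≠ xz (-1)) : Std F := fun f hf => by
  obtain ⟨γ, hγ, e⟩ := hf.exists_aut
  obtain ⟨t, ht⟩ := exists_par γ
  have e1 : ∀ x, f x = tauF t.1 t.2.1 t.2.2 (equivFun ((tauT t)⁻¹ * γ) x) := fun x => by
    rw [← ef_tauT, ← equivFun_mul _ _ (mem_top x), mul_inv_cancel_left, e x trivial]
  have h1 : F.IsMor ⊤ (tauF t.1 t.2.1 t.2.2) := tauF_mem t1 t2 t.1.ne_zero t.2.1.ne_zero (by
    rcases ne_cases t.2.2.ne_zero with h | h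
    · exact .inl h
    refine .inr ⟨t.2.2.ne_zero, t3.resolve_right fun k => k f hf.mor ?_⟩
    obtain ⟨s, m, e2⟩ := P0_J ht
    have e3 := e2 _ (xz_JJ 1)
    have e4 : equivFun ((tauT t)⁻¹ * γ) (xz 1) = s⁻¹ * xz 1 * s⁻¹⁻¹ := by
      rw [show gam m (xz 1) = xz 1 by ext <;> simp] at e3
      conv_rhs => rw [← e3]
      group
    rw [e1, e4, show s⁻¹ * xz 1 * s⁻¹⁻¹ = xz 1 by generalize s⁻¹ = u; ext <;> simp, h]
    ext <;> simp [pow_two, sq_of_ne t.1.ne_zero, sq_of_ne t.2.1.ne_zero])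
  obtain ⟨n, hn⟩ := isPGroup_P0 ⟨_, ht⟩
  obtain ⟨s, -, hs⟩ := mem_inn_iff.1 ((hF.sylowIn_top isPGroup_top).mem_of_mem_normalizer
    (mul_mem (inv_mem (mem_aut h1 fun x _ => ef_tauT t x)) hγ) (le_normalizer_inn ⊤ (mem_top _))
    (congrArg Subtype.val hn))
  refine ⟨tauF t.1 t.2.1 t.2.2 s, t.1, t.2.1, t.2.2, t.1.ne_zero, t.2.1.ne_zero, t.2.2.ne_zero,
    fun x => ?_⟩
  rw [e1, equivFun_of_mem _ (mem_top x), hs, h1.isHomOn.map_conj (mem_top _) (mem_top _)]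

end Cfsg.Agent.C3
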