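import Cfsg.Agent.Lib.C3.Gen

/-!
# S5227: the automizer of `E1` (see notes/C3.md)
-/

set_option autoImplicit false
set_option linter.unusedSectionVars false
set_option linter.unusedVariables false
set_option linter.unusedSimpArgs false
set_option linter.unnecessarySeqFocus false
set_option linter.unusedTactic false
set_option linter.unreachableTactic false

namespace Cfsg.Agent.C3

open Subgroup Cfsg Cfsg.FusionSystem Cfsg.Agent.U5 US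
open scoped commutatorElement

variable {F E : FusionSystem (⊤ : Subgroup US)} {x y : US}

theorem H0_gen {K : Subgroup US} (h1 : ⁅xb 1, xc 1⁆ ∈ K) (h2 : ⁅xb 1, xe 1⁆ ∈ K)
    (h3 : ⁅xd 1, xc 1⁆ ∈ K) (h4 : ⁅xd 1, xe 1⁆ ∈ K) (h5 : ⁅xd 1, xf 1⁆ ∈ K) : H0 ≤ K := fun x hx =>
  mem_of_gens (.inl hx.1) (.inl hx.2.1) (.inl hx.2.2.1) (.inl hx.2.2.2)
    (.inr (by convert mul_mem h1 h2 using 1; decide)) (.inr (by convert mul_mem h3 h5 using 1; decide))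
    (.inr (by convert inv_mem h2 using 1; decide)) (.inr (by convert h4 using 1; decide))
    (.inr (by convert inv_mem h5 using 1; decide))

theorem inv_H0_E1 (γ : MulAut E1) : Inv γ H0 :=
  inv_ce (C := E1) (D := JJ) (Inv.of_le le_rfl) (inv_JJ JJ_le_E1 γ)
    (fun x hx y hy => by simp [mem_H0, mem_E1.1 hx, mem_JJ.1 hy]) fun K H z _ hz =>
    H0_gen (H _ rfl rfl _ rfl ⟨rfl, rfl, rfl⟩) (H _ rfl rfl _ rfl ⟨rfl, rfl, rfl⟩)
      (H _ rfl rfl _ rfl ⟨rfl, rfl, rfl⟩) (H _ rfl rfl _ rfl ⟨rfl, rfl, rfl⟩)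
      (H _ rfl rfl _ rfl ⟨rfl, rfl, rfl⟩) hz

theorem E1_gen {K : Subgroup US} (hb : xb 1 ∈ K) (hc : xc 1 ∈ K) (hd : xd 1 ∈ K) : E1 ≤ K := by
  have k1 : ⁅xb 1, xc 1⁆ ∈ K := ce_mem hb hc
  have k2 : ⁅xb 1, xe 1⁆ ∈ K := by convert ce_mem hb k1 using 1; decide
  have he : xe 1 ∈ K := by convert mul_mem k1 k2 using 1; decide
  have := H0_gen k1 k2 (ce_mem hd hc) (ce_mem hd he)
    (by convert ce_mem hd (ce_mem hd hc) using 1; decide)
  exact fun x hx => mem_of_gens (.inl hx) (.inr hb) (.inr hc) (.inr hd) (.inr he)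
    (.inr (this ⟨rfl, rfl, rfl, rfl⟩)) (.inr (this ⟨rfl, rfl, rfl, rfl⟩))
    (.inr (this ⟨rfl, rfl, rfl, rfl⟩)) (.inr (this ⟨rfl, rfl, rfl, rfl⟩))

theorem sec1 : Sec E1 E1 fun x => (x.b, x.d) :=
  ⟨le_rfl, fun γ => Inv.of_le le_rfl, fun x hx y hy => by simp [mem_E1.1 hx],
    fun v => ⟨⟨0, v.1, 0, v.2, 0, 0, 0, 0, 0⟩, rfl, rfl⟩, fun γ x hx h => by
      simp only [Prod.mk_eq_zero] at h ⊢
      exact (inv_JJ JJ_le_E1 γ x hx ⟨hx, h⟩).2,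
    fun t ht x hx => by simp [mem_E1.1 hx, mem_E1.1 ht]⟩

theorem sec1' : Sec E1 JJ US.c :=
  ⟨JJ_le_E1, inv_JJ JJ_le_E1, fun _ _ _ _ => rfl, fun v => ⟨xc v, ⟨rfl, rfl, rfl⟩, rfl⟩,
    fun γ x hx h => (inv_H0_E1 γ x (JJ_le_E1 hx) ⟨hx.1, hx.2.1, h, hx.2.2⟩).2.2.1,
    fun t ht x hx => by simp⟩

theorem sec1_u : ∀ x ∈ E1, ((xa 1 * x * (xa 1)⁻¹).b, (xa 1 * x * (xa 1)⁻¹).d) = (x.b, x.d + x.b) :=
  fun x hx => by simp

theorem ext1 (hF : F.IsSaturated 3) {γ : MulAut E1} (hγ : γ ∈ F.autGroup E1)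
    (h : (equivFun γ (xd 1)).b = 0) : ∃ f, F.IsIso ⊤ ⊤ f ∧ ∀ x ∈ E1, f x = equivFun γ x :=
  ext_of hF lK lK_mono (lK_conj _) hγ (inv_lK KK_le_E1 ⟨equivFun_mem γ (show xd 1 ∈ E1 from rfl), h⟩)

theorem mov1_of (hF : F.IsSaturated 3) (hE : F.IsEssential 3 E1) : Mov1 F := by
  obtain ⟨M, h⟩ := exists_loc isPGroup_US hF hE
  obtain ⟨g, hg, hb⟩ := h.data.exists_not_mem
  refine ⟨g, hg, fun k => ?_⟩
  simpa [mem_E1] using chainL h hg hb lK lK_mono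
    (inv_lK KK_le_E1 ⟨equivFun_mem g (show xd 1 ∈ E1 from rfl), k⟩) (mem_norm (xa 1)) (lK_conj _ _)

theorem gen1 (hF : F.IsSaturated 3) {k : F3} (h1 : F.IsMor E1 (n1 k)) (h2 : E.IsMor E1 (n1 k))
    (ht : ∀ f, F.IsIso ⊤ ⊤ f → E.IsMor ⊤ f) {f : US → US} (hf : F.IsIso E1 E1 f) : E.IsMor E1 f :=
  sec1.gen (mem_norm (xa 1)) sec1_u (x0 := xd 1) rfl rfl h1 h2 (fun x _ => n1_mem k x) (by simp)
    (fun γ hγ h => let ⟨f, k1, k2⟩ := ext1 hF hγ h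
      mem_aut ((ht f k1).mono le_top) fun x hx => (k2 x hx).symm) hf

theorem t1_of (hF : F.IsSaturated 3) (hs : Std F) (h : Mov1 F) : F.IsIso ⊤ ⊤ (tauF 1 (-1) 1) ∧
    ∃ n ∈ F.autGroup E1, NP E1 JJ (fun x => (x.b, x.d)) US.c n ∧
      ∀ x ∈ E1, equivFun n (equivFun n x) = tauF 1 (-1) 1 x := by
  obtain ⟨γ, hγ, hm⟩ := h
  obtain ⟨n, hn, e⟩ := sec1.exists_n sec1' (mem_norm (xa 1)) sec1_u (fun x _ => by simp)
    (x0 := xd 1) rfl rfl hγ hm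
  have e2 : ∀ x ∈ E1, (equivFun n (equivFun n x)).b = -x.b ∧ (equivFun n (equivFun n x)).d = -x.d :=
    fun x hx => by
      have k1 := e.1 x hx
      have k2 := e.1 _ (equivFun_mem n hx)
      simp only [Prod.mk.injEq] at k1 k2
      simp [k1, k2]
  obtain ⟨f, h1, h2⟩ := ext1 hF (mul_mem hn hn) (by rw [equivFun_mul _ _ rfl, (e2 _ rfl).1]; simp)
  obtain ⟨s, p, q, r, -, -, -, h3⟩ := hs f h1
  have h4 : ∀ x ∈ E1, equivFun n (equivFun n x) = s * tauF p q r x * s⁻¹ := fun x hx => by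
    rw [← h3, h2 x hx, equivFun_mul _ _ hx]
  have k1 := e2 (xb 1) rfl
  have k2 := (e2 (xd 1) rfl).2
  have k3 := (e.2 _ (inv_JJ JJ_le_E1 n (xc 1) rfl ⟨rfl, rfl, rfl⟩)).trans (e.2 (xc 1) ⟨rfl, rfl, rfl⟩)
  rw [h4 _ rfl] at k1 k2 k3
  simp at k1 k2 k3
  obtain ⟨rfl, k1⟩ := k1
  obtain rfl : p = 1 := by simpa using k2
  subst k3
  exact ⟨isIso_tauF h1 h3, sec1.exists_n' sec1' hn e (tauF_tauF_self (by decide) (by decide) (by decide))
    (show s ∈ E1 by simpa [mem_E1] using k1) (fun x hx => by simp [mem_E1, mem_E1.1 hx]) h4⟩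

theorem dY (hF : F.IsSaturated 3) {i j k : F3} {f : US → US} (hf : F.IsMor E1 f)
    (e : ∀ x ∈ E1, f x = ⟨0, x.b, x.c, x.d, x.e, x.f, x.g + i * x.c, x.h + j * x.c, x.z + k * x.c⟩) :
    i = 0 ∧ j = 0 := by
  obtain ⟨β, hβ, e'⟩ := (hf.isIso_self fun x hx => by rw [e x hx]; rfl).exists_aut
  have e2 := fun x hx => (e' x hx).trans (e x hx)
  obtain ⟨s, -, hs⟩ := conjL isPGroup_US (hF.sylowIn isPGroup_top (fullN F E1)) lK lK_mono
    (fun t _ => lK_conj _ t) hβ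
    ⟨fun x h hx => by simp [e2 x h, US.ext_iff, mem_Z1.1 hx],
      fun x h hx => by simp [e2 x h, mem_Z1, mem_Z2.1 hx],
      fun x h hx => by simp [e2 x h, mem_Z2, mem_Z3.1 hx],
      fun x h hx => by simp [e2 x h, mem_Z3, mem_H0.1 hx],
      fun x h hx => by simp [e2 x h, mem_H0, mem_JJ.1 hx],
      fun x h hx => by simp [e2 x h, mem_JJ, mem_KK.1 hx],
      fun x h _ => by simp [e2 x h, mem_KK, mem_E1.1 h]⟩
  have k1 := (e2 (xc 1) rfl).symm.trans (hs _ rfl)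
  simp [US.ext_iff] at k1
  obtain ⟨k1, k2, k3, k4, -⟩ := k1
  simp [← k1] at k3 k4
  exact ⟨k3, k4⟩

@[simps] def m1 (i j k : F3) (x : US) : US :=
  ⟨0, -x.d, x.c, x.b, -x.f, x.e, x.z + i * x.c, -x.h + j * x.c, x.g + k * x.c⟩

theorem n1_of (hF : F.IsSaturated 3) (hs : Std F) (h : Mov1 F)
    (t2 : F.IsIso ⊤ ⊤ (tauF (-1) 1 1)) : ∃ k, F.IsMor E1 (n1 k) := by
  obtain ⟨-, n, hn, e, e2⟩ := t1_of hF hs h
  have m : ∀ {x}, x ∈ E1 → equivFun n x ∈ E1 := fun hx => equivFun_mem n hx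
  have cm : ∀ x ∈ E1, tauF 1 (-1) 1 (equivFun n x) = equivFun n (tauF 1 (-1) 1 x) := fun x hx => by
    rw [← e2 _ (m hx), e2 x hx]
  have hb : xb 1 ∈ E1 := rfl
  have hc : xc 1 ∈ E1 := rfl
  have hd : xd 1 ∈ E1 := rfl
  have d1 := cm _ hb
  have b1 := cm _ hd
  have c1 := cm _ hc
  rw [show tauF 1 (-1) 1 (xb 1) = (xb 1)⁻¹ by decide, ef_inv _ hb] at d1
  rw [show tauF 1 (-1) 1 (xd 1) = (xd 1)⁻¹ by decide, ef_inv _ hd] at b1
  rw [show tauF 1 (-1) 1 (xc 1) = xc 1 by decide] at c1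
  have d2 := e.1 _ hb
  have b2 := e.1 _ hd
  have c2 := e.2 (xc 1) ⟨rfl, rfl, rfl⟩
  have d3 := mem_E1.1 (m hb)
  have b3 := mem_E1.1 (m hd)
  have c3 := inv_JJ JJ_le_E1 n _ hc ⟨rfl, rfl, rfl⟩
  have k : equivFun n (xd 1) * equivFun n (xb 1) = equivFun n (xb 1) * equivFun n (xd 1) := by
    rw [← ef_mul _ hd hb, ← ef_mul _ hb hd]; exact congrArg _ (by decide)
  obtain ⟨κ, i, j, l, k1, k2, k3⟩ : ∃ κ i j l : F3,
      xc κ * equivFun n (xb 1) * (xc κ)⁻¹ = m1 i j l (xb 1) ∧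
      xc κ * equivFun n (xc 1) * (xc κ)⁻¹ = m1 i j l (xc 1) ∧
      xc κ * equivFun n (xd 1) * (xc κ)⁻¹ = m1 i j l (xd 1) := by
    generalize equivFun n (xb 1) = D at *
    generalize equivFun n (xd 1) = B at *
    generalize equivFun n (xc 1) = C at *
    obtain ⟨_, _, dc, _, de, df, dg, dh, dz⟩ := D
    obtain ⟨_, _, bc, _, be, bf, bg, bh, bz⟩ := B
    obtain ⟨_, _, _, _, _, _, cg, ch, cz⟩ := C
    simp [mem_JJ] at d2 b2 c2 d3 b3 c3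
    obtain ⟨rfl, rfl⟩ := d2
    obtain ⟨rfl, rfl⟩ := b2
    obtain ⟨rfl, rfl, rfl⟩ := c3
    subst c2 d3 b3
    have n0 : ∀ t : F3, t = -t ↔ t = 0 := by decide
    have n0' : ∀ t : F3, -t = t ↔ t = 0 := by decide
    simp [US.ext_iff, n0, n0'] at d1 b1 c1
    simp [comm_iff, two_ne] at k
    obtain ⟨rfl, rfl, k1, k2⟩ := d1
    obtain ⟨rfl, -, k3, k4, rfl⟩ := b1
    obtain ⟨rfl, rfl⟩ := c1
    obtain ⟨-, -, k5, rfl, k6⟩ := k
    obtain rfl : de = 0 := by linear_combination k5 + de * h3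
    obtain rfl : bf = 0 := by linear_combination k6 + bf * h3
    obtain rfl : dh = 0 := by linear_combination -k1 + dh * h3
    obtain rfl : bh = 0 := by linear_combination -k4 + bh * h3
    obtain rfl : dz = df := by linear_combination -k2 + (dz - df) * h3
    obtain rfl : bg = dz := by linear_combination -k3 + (bg - dz) * h3
    exact ⟨bg, cg, ch, cz, by ext <;> simp, by ext <;> simp, by ext <;> simp⟩
  have h1 : F.IsMor E1 (m1 i j l) := ((F.isMor_conj le_rfl (mem_top (xc κ))).comp'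
    (isMor_of_mem_autGroup le_top hn) fun _ _ => trivial).congr fun x hx =>
    (E1_gen (K := IsHomOn.eqSub (X := E1) ((isHomOn_conj ⊤ (xc κ)).comp (isHomOn_equivFun n)
      fun _ _ => trivial) (g := m1 i j l) fun x hx y hy => by
        ext <;> simp [mem_E1.1 hx, mem_E1.1 hy] <;> ring) ⟨hb, k1⟩ ⟨hc, k2⟩ ⟨hd, k3⟩ hx).2
  obtain ⟨l1, l2⟩ := dY hF (i := i + l) (j := -(2 * j)) (k := i + l) (t2.mor.comp' (h1.comp'
    (t2.mor.comp' h1 fun _ _ => trivial) fun _ _ => by simp [mem_E1]) fun _ _ => trivial)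
    fun x hx => by ext <;> simp <;> ring
  obtain rfl : i = -l := by linear_combination l1
  obtain rfl : j = 0 := by simpa [two_ne] using l2
  exact ⟨l, h1.congr fun x _ => by ext <;> simp; ring⟩

end Cfsg.Agent.C3
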