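import Cfsg.Agent.Lib.C3.L2

/-!
# S5227: the essential subgroups (see notes/C3.md)
-/

set_option autoImplicit false
set_option linter.unusedSectionVars false
set_option linter.unusedVariables false
set_option linter.unusedSimpArgs false
set_option linter.unnecessarySeqFocus false
set_option linter.unusedTactic false
set_option linter.unreachableTactic false

namespace Cfsg.Agent.C3

open Subgroup Cfsg Cfsg.FusionSystem Cfsg.Agent.U5 US
open scoped commutatorElement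

/-- `J ⟨r⟩` with `r` regular unipotent -/
def R0 : Subgroup US where
  carrier := {x | x.b = x.a ∧ x.d = -x.a ^ 2}
  one_mem' := by simp
  mul_mem' := fun {x y} hx hy => by
    simp [hx.1, hx.2, hy.1, hy.2]; linear_combination (x.a * y.a) * h3
  inv_mem' := fun {x} hx => by simp [hx.1, hx.2]; linear_combination (x.a ^ 2) * h3

theorem mem_R0 {x : US} : x ∈ R0 ↔ x.b = x.a ∧ x.d = -x.a ^ 2 := Iff.rfl

/-- the conjugates of `R0` under `Aut(S)` -/
def E4T (R : Subgroup US) : Prop :=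
  ∃ (s : US) (ε : F3), ε ≠ 0 ∧ ∀ x, x ∈ R ↔ tauF ε 1 1 (s * x * s⁻¹) ∈ R0

variable {F : FusionSystem (⊤ : Subgroup US)} {R : Subgroup US} {M : Subgroup (MulAut R)}

theorem L1 (hF : F.IsSaturated 3) (h : Loc 3 R M (F.autGroup R))
    (hno : ∀ g ∈ F.autGroup R, Inv g Z1 → g ∈ M) :
    R = E1 ∨ (E4T R ∧ ∃ γ ∈ F.autGroup R, equivFun γ (xz 1) ∉ YY) := by
  have e1 := Z1_le h
  have hR : ∀ s, xz s ∈ R := fun s => e1 (xz_mem s)
  have D : ∀ g ∈ F.autGroup R, g ∉ M → ∀ s, s ≠ 0 → ∀ x,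
      x ∈ R ↔ x * equivFun g (xz s) = equivFun g (xz s) * x := fun g hg hb s hs x =>
    ⟨fun hx => (ef_comm g (hR s) hx (by simp [comm_iff])).symm, fun hx =>
      mem_of_max h.hW h.se le_rfl (fun t ht => h.cj_A ht) (U := ⊥) bot_le (hR s)
        (fun γ hγ _ k => hno γ hγ (inv_Z1_of e1 hs (by
          rw [← inv_mul_eq_one.1 (mem_bot.1 k)]; exact xz_mem s))) hg hb Inv.bot
        (fun r _ => by simp [US.ext_iff]) (cm_eq_one hx.symm)⟩
  have E : ∀ g : MulAut R, ∀ {C : Subgroup US}, ∀ u ∈ R, u ∈ Z1 → u ≠ 1 → equivFun g u ∈ C →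
      equivFun g (xz 1) ∈ C := fun g C u hu k1 k2 k3 => by
    rcases Z1_cases k1 one_ne_zero with rfl | rfl | rfl
    · exact absurd rfl k2
    · exact k3
    · rwa [ef_inv _ (hR 1), inv_mem_iff] at k3
  have cK : ∀ g ∈ F.autGroup R, g ∉ M → equivFun g (xz 1) ∈ KK →
      R = E1 ∨ (E4T R ∧ ∃ γ ∈ F.autGroup R, equivFun γ (xz 1) ∉ YY) := fun g hg hb hK => by
    have D' := D g hg hb 1 one_ne_zero
    have NZ : equivFun g (xz 1) ∉ Z1 := fun k => hb (hno g hg (inv_Z1_of e1 one_ne_zero k))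
    have E3' : ∀ {C : Subgroup US}, ∀ y ∈ R, y.a ≠ 0 → y.b = 0 → xg 1 ∈ R →
        ⁅equivFun g y, ⁅equivFun g y, equivFun g (xg 1)⁆⁆ ∈ C → equivFun g (xz 1) ∈ C :=
      fun y hy ya yb zg k => E g _ (ce_mem hy (ce_mem hy zg)) (by simp [mem_Z1, yb])
        (fun e => by simpa [yb, ya, two_ne] using congrArg US.z e)
        (by rwa [ef_ce _ hy (ce_mem hy zg), ef_ce _ hy zg])
    have c3 := (cube_one (ef_cube (g := g) (hR 1) (by decide))).2 hK.1 hK.2
    have m : ∀ {x}, x ∈ R → equivFun g x ∈ R := fun hx => equivFun_mem g hx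
    have fin : equivFun g (xz 1) ∉ YY → ∃ γ ∈ F.autGroup R, equivFun γ (xz 1) ∉ YY :=
      fun k => ⟨g, hg, k⟩
    generalize equivFun g (xz 1) = w at D' NZ E3' c3 hK fin
    obtain ⟨wa, wb⟩ := hK
    have zg : xg 1 ∈ R := (D' _).2 (by simp [comm_iff, wa])
    by_cases wd : w.d = 0; swap
    · have wc : w.c = 0 := by simpa [wd] using c3
      have s := sq_of_ne wd
      refine absurd (E3' (C := Z3) ⟨1, 0, w.e * w.d, 0, w.g * w.d, (w.h - w.g) * w.d + w.e, 0, 0, 0⟩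
        ((D' _).2 ?_) one_ne_zero rfl zg (by simp [mem_Z3])).2.2.2.1 wd
      simp [comm_iff, wa, wb, wc]
      rcases ne_cases wd with k | k <;> simp only [k] <;> and_intros <;> rw [← sub_eq_zero] <;>
        ring_nf <;> simp [h3]
    have eJ : JJ ≤ R := fun x hx => (D' x).2 (comm_JJ hx ⟨wa, wb, wd⟩)
    by_cases hJ : ∀ x ∈ R, x ∈ JJ
    · obtain rfl : R = JJ := le_antisymm hJ eJ
      exact (not_reg hF h hno fun g hg hb s hs x hx => (D g hg hb s hs x).2 hx).elim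
    push Not at hJ
    obtain ⟨y, hy, yJ⟩ := hJ
    have k := (D' y).1 hy
    simp only [mem_JJ] at yJ
    have b0 : ∀ y ∈ R, y.a ≠ 0 → (∀ r ∈ R, r.b = 0) → False := fun y hy ya hb =>
      NZ (E3' y hy ya (hb y hy) zg (by simp [mem_Z1, hb _ (m hy), hb _ (m zg)]))
    by_cases wc : w.c = 0; swap
    · refine (b0 y hy (fun ya => ?_) fun r hr => ?_).elim
      · simp [comm_iff, wa, wb, wd, wc, ya] at k
        exact yJ ⟨ya, k.1, k.2.1⟩
      · simpa [wb, wc] using (comm_iff.1 ((D' r).1 hr)).2.1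
    by_cases we : w.e = 0; swap
    · simp [comm_iff, wa, wb, wd, wc, we, two_ne] at k
      exact (yJ ⟨k.1, k.2.1, by simpa [k.1, k.2.1, we] using k.2.2.1⟩).elim
    have D2 : ∀ x, x ∈ R ↔ x.b * w.f + x.a * w.g = 0 ∧
        2 * x.a * w.h + 2 * x.d * w.f + x.a ^ 2 * w.g = 0 := fun x => by
      rw [D' x]; simp [comm_iff, wa, wb, wd, wc, we]
    by_cases wf : w.f = 0
    · refine .inl (Subgroup.ext fun x => ?_)
      have : ∀ a g h : F3, ¬ (g = 0 ∧ h = 0) → ((a * g = 0 ∧ 2 * a * h + a ^ 2 * g = 0) ↔ a = 0) := by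
        decide
      simpa [D2, wf, mem_E1] using this x.a w.g w.h fun k => NZ ⟨wa, wb, wc, wd, we, wf, k⟩
    by_cases wg : w.g = 0
    · refine (b0 ⟨1, 0, 0, -(w.h * w.f), 0, 0, 0, 0, 0⟩ ((D2 _).2 ?_) one_ne_zero fun r hr => ?_).elim
      · simp [wg]; linear_combination (-2 * w.h) * sq_of_ne wf
      · simpa [wg, wf] using ((D2 r).1 hr).1
    refine .inr ⟨⟨xb (-(w.f * w.h)), -(w.g * w.f), by simp [wg, wf], fun x => ?_⟩,
      fin fun k => wf k.2.2.2.2.2⟩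
    have : ∀ a b d f g h : F3, f ≠ 0 → g ≠ 0 → ((b * f + a * g = 0 ∧ 2 * a * h + 2 * d * f + a ^ 2 * g = 0) ↔
      (b = -(g * f * a) ∧ -(g * f * (d + a * (f * h))) = -(g * f * a) ^ 2)) := by decide +kernel
    simpa [D2, mem_R0] using this x.a x.b x.d w.f w.g w.h wf wg
  obtain ⟨g, hg, hb⟩ := h.data.exists_not_mem
  have D' := D g hg hb 1 one_ne_zero
  have c3 := (cube_one (ef_cube (g := g) (hR 1) (by decide))).1
  have hwR := equivFun_mem g (hR 1)
  by_cases wa : (equivFun g (xz 1)).a = 0; swap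
  · exfalso
    have E' := @E g
    generalize equivFun g (xz 1) = w at D' c3 wa E'
    have k1 : (⟨0, 0, 0, 0, 0, w.a, -w.b, -w.d - w.a * w.b, 0⟩ : US) ∈ R := (D' _).2 (by
      simp [comm_iff]
      exact ⟨by ring, by linear_combination (w.a ^ 2 * w.b) * h3⟩)
    have k2 : (⟨0, 0, 0, 1, w.c * w.a, 0, (w.e - w.d * w.c * w.a) * w.a,
        2 * w.a * (2 * w.f + w.c - (w.e - w.d * w.c * w.a) * w.a - 2 * w.d * w.c), 0⟩ : US) ∈ R :=
      (D' _).2 (by
        simp [comm_iff]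
        rcases ne_cases wa with k | k <;> rcases mul_eq_zero.1 c3 with l | l <;> simp only [k, l] <;>
          and_intros <;> rw [← sub_eq_zero] <;> ring_nf <;> simp [h3, h6])
    exact wa (E' (C := Z4) _ (ce_mem k2 k1) (by simp [mem_Z1])
      (fun e => by simpa [wa, two_ne] using congrArg US.z e)
      (by rw [ef_ce _ k2 k1]; simp [mem_Z4])).1
  by_cases wb : (equivFun g (xz 1)).b = 0
  · exact cK g hg hb ⟨wa, wb⟩
  have a0 : ∀ r ∈ R, r.a = 0 := fun r hr => by simpa [wa, wb] using (comm_iff.1 ((D' r).1 hr)).1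
  have n1 : ∀ i : F3 × F3, ∀ r ∈ R, r⁻¹ * (⟨0, 0, 0, 0, i.1, i.2, 0, 0, 0⟩ * r *
      (⟨0, 0, 0, 0, i.1, i.2, 0, 0, 0⟩ : US)⁻¹) ∈ R := fun i r hr => by
    have k : r⁻¹ * (⟨0, 0, 0, 0, i.1, i.2, 0, 0, 0⟩ * r *
      (⟨0, 0, 0, 0, i.1, i.2, 0, 0, 0⟩ : US)⁻¹) ∈ YY := by simp [mem_YY, a0 r hr]
    generalize r⁻¹ * _ = u at k
    exact (D' u).2 (by simp [comm_iff, wa, mem_YY.1 k])
  obtain ⟨i, hi, e⟩ := tx_ker c12 g⁻¹ US.b _ (fun i => n1 i _ hwR) (fun x _ y _ => rfl) fun i j => by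
    ext <;> simp <;> ring
  obtain ⟨l1, l2⟩ := tx_bad h hg hb (mem_norm_of_cm (n1 i)) fun hc => hi (by
    have := (D' _).1 hc
    simp [comm_iff, wa, wb, two_ne] at this
    exact Prod.ext this.1 (by simpa [this.1, wb] using this.2.1))
  exact cK _ l1 l2 ⟨a0 _ (equivFun_mem _ (hR 1)), by rw [tx_val _ (hR 1), C3.US.mul_b, e]; rfl⟩

theorem ess_cases (hF : F.IsSaturated 3) (hR : F.IsEssential 3 R) : R = E1 ∨ R = E2 ∨ R = E3 ∨
    (E4T R ∧ ∃ γ ∈ F.autGroup R, equivFun γ (xz 1) ∉ YY) := by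
  obtain ⟨M, h⟩ := exists_loc isPGroup_US hF hR
  by_cases h1 : ∀ g ∈ F.autGroup R, Inv g Z1 → g ∈ M
  · exact (L1 hF h h1).imp id fun k => .inr (.inr k)
  push Not at h1
  obtain ⟨g, hg, h1, hb⟩ := h1
  by_cases h2 : ∀ g ∈ F.autGroup R, Inv g Z1 → Inv g Z2 → g ∈ M
  · exact (L2 h h2 hg hb h1).imp id .inl
  push Not at h2
  obtain ⟨g, hg, h1, h2, hb⟩ := h2
  exact .inr (.inr (.inl (L3 h hg hb h1 h2)))

end Cfsg.Agent.C3
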