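import Cfsg.Agent.Lib.C3.Sig

/-!
# S5227: consequences of the fusion of `z` in `J` (see notes/C3.md)
-/

set_option autoImplicit false
set_option linter.unusedSectionVars false
set_option linter.unusedVariables false
set_option linter.unusedSimpArgs false
set_option linter.unnecessarySeqFocus false
set_option linter.unusedTactic false
set_option linter.unreachableTactic false

namespace Cfsg.Agent.C3

open Subgroup Cfsg Cfsg.FusionSystem Cfsg.Agent.U5 US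
open scoped commutatorElement

variable {F : FusionSystem (⊤ : Subgroup US)} {R : Subgroup US} {f : US → US} {v w : V} {x y : US}

def Mov1 (F : FusionSystem (⊤ : Subgroup US)) : Prop :=
  ∃ γ ∈ F.autGroup E1, (equivFun γ (xd 1)).b ≠ 0

def Mov2 (F : FusionSystem (⊤ : Subgroup US)) : Prop :=
  ∃ γ ∈ F.autGroup E2, (equivFun γ (xd 1)).a ≠ 0

def Mov3 (F : FusionSystem (⊤ : Subgroup US)) : Prop :=
  ∃ γ ∈ F.autGroup E3, (equivFun γ (xe 1)).b ≠ 0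

theorem fullN (F : FusionSystem (⊤ : Subgroup US)) (R : Subgroup US) [R.Normal] :
    F.IsFullyNormalized R := F.isFullyNormalized_of_le_normalizer le_top fun t _ => mem_norm t

theorem eq_xz (hx : x ∈ Z1) : x = xz x.z := by ext <;> simp [mem_Z1.1 hx]

theorem xz_mem (s : F3) : xz s ∈ Z1 := ⟨rfl, rfl, rfl, rfl, rfl, rfl, rfl, rfl⟩

theorem Z1_cases (hx : x ∈ Z1) {s : F3} (hs : s ≠ 0) : x = 1 ∨ x = xz s ∨ x = (xz s)⁻¹ := by
  rw [eq_xz hx]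
  generalize x.z = t
  revert s t; decide

theorem exists_cent (hF : F.IsSaturated 3) (h : Om F v) {C : Subgroup US}
    (hC : ∀ x ∈ C, x * vJ v = vJ v * x) : ∃ ψ, F.IsMor C ψ ∧ ψ (vJ v) ∈ Z1 := by
  obtain ⟨γ, hγ, s, hs, e⟩ := h
  have h1 : F.IsIso Z1 (zpowers (vJ v)) (equivFun γ) :=
    ⟨(isMor_of_mem_autGroup le_top hγ).mono Z1_le_JJ, fun x hx => by
      rcases Z1_cases hx hs with rfl | rfl | rfl
      · rw [ef_one]; exact one_mem _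
      · rw [e]; exact mem_zpowers _
      · rw [ef_inv _ (xz_JJ s), e]; exact inv_mem (mem_zpowers _), fun y hy => by
      obtain ⟨k, rfl⟩ := mem_zpowers_iff.1 hy
      exact ⟨xz s ^ k, zpow_mem (xz_mem s) k, by rw [(isHomOn_equivFun γ).map_zpow (xz_JJ s), e]⟩⟩
  obtain ⟨g, hg, hi⟩ := hF.exists_isMor_normalizerIn isPGroup_top (fullN F Z1) h1.isConj.symm
  refine ⟨g, hg.mono fun x hx => ⟨trivial, mem_normalizer_of_finite fun y hy => ?_⟩,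
    hi.mapsTo _ (mem_zpowers _)⟩
  obtain ⟨k, rfl⟩ := mem_zpowers_iff.1 hy
  rw [((show Commute x (vJ v) from hC x hx).zpow_right k).eq, mul_inv_cancel_right]
  exact hy

theorem mor_E1 (hf : F.IsMor E1 f) (hx : x ∈ E1) : f x ∈ E1 := by
  have hb : xb 1 ∈ E1 := rfl
  have hd : xd 1 ∈ E1 := rfl
  obtain ⟨x0, h0, h1, h2⟩ : ∃ x0 ∈ E1, x0 ∉ JJ ∧ f x0 ∈ KK := by
    have k := (comm_iff.1 (show f (xb 1) * f (xd 1) = f (xd 1) * f (xb 1) by
      rw [← hf.map_mul hb hd, ← hf.map_mul hd hb]; exact congrArg f (by decide))).1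
    have : ∀ a b a' b' : F3, a * b' = a' * b → (a' = 0 ∧ b' = 0) ∨ (a = 0 ∧ b = 0) ∨
      (a + a' = 0 ∧ b + b' = 0) ∨ (a + -a' = 0 ∧ b + -b' = 0) := by decide
    rcases this _ _ _ _ k with h | h | h | h
    · exact ⟨_, hd, by simp [mem_JJ], h⟩
    · exact ⟨_, hb, by simp [mem_JJ], h⟩
    · exact ⟨_, mul_mem hb hd, by simp [mem_JJ], by rw [hf.map_mul hb hd]; exact h⟩
    · exact ⟨_, mul_mem hb (inv_mem hd), by simp [mem_JJ], by
        rw [hf.map_mul hb (inv_mem hd), hf.map_inv hd]; exact h⟩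
  have h3 : (f x0).d ≠ 0 := fun e => h1 (mor_JJ_back hf JJ_le_E1 h0 ⟨h2.1, h2.2, e⟩)
  have cm : ∀ x ∈ E1, ∀ y ∈ YY, f x * f y = f y * f x := fun x hx y hy => by
    rw [← hf.map_mul hx (YY_le_E1 hy), ← hf.map_mul (YY_le_E1 hy) hx]
    exact congrArg f (by simp [comm_iff, mem_YY.1 hy, mem_E1.1 hx])
  obtain ⟨y, hy, e⟩ := ((hf.mono YY_le_E1).isIso_self fun y hy => by
    have k1 := mor_JJ hf JJ_le_E1 (YY_le_JJ hy)
    have k2 := cm x0 h0 y hy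
    simp [comm_iff, h2.1, h2.2, mem_JJ.1 k1, h3, two_ne] at k2
    obtain ⟨k3, k4, k5⟩ := k2
    simpa [mem_YY, mem_JJ.1 k1, k3, k4, h3, two_ne] using k5).surj (xh 1) ⟨rfl, rfl, rfl, rfl, rfl, rfl⟩
  have := cm x hx y hy
  rw [e] at this
  simpa [comm_iff, two_ne, mem_E1] using this

theorem rank1 (hF : F.IsSaturated 3) (h : Om F v) (hY : vJ v ∈ YY) (hz : vJ v ∉ Z1) :
    Mov1 F ∧ v.g * v.z = v.h ^ 2 := by
  obtain ⟨ψ, h1, h2⟩ := exists_cent hF h (C := E1) fun x hx => by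
    simp only [mem_YY, vJ_c, vJ_e, vJ_f] at hY
    simp [comm_iff, mem_E1.1 hx, hY]
  obtain ⟨α, hα, e⟩ := (h1.isIso_self fun x hx => mor_E1 h1 hx).exists_aut
  have hd : xd 1 ∈ E1 := rfl
  have hc : xc 1 ∈ E1 := rfl
  have k1 : equivFun α⁻¹ (xz (-1)) = ⁅equivFun α⁻¹ (xd 1), ⁅equivFun α⁻¹ (xd 1), equivFun α⁻¹ (xc 1)⁆⁆ := by
    rw [← ef_ce _ hd hc, ← ef_ce _ hd (ce_mem hd hc)]; exact congrArg _ (by decide)
  have k2 := mem_E1.1 (equivFun_mem α⁻¹ hd)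
  have k3 := inv_JJ JJ_le_E1 α⁻¹ _ hc ⟨rfl, rfl, rfl⟩
  have k4 := equivFun_inv_apply α (YY_le_E1 hY)
  have k5 : vJ v = equivFun α⁻¹ (xz (-1)) ∨ vJ v = (equivFun α⁻¹ (xz (-1)))⁻¹ := by
    rw [e _ (YY_le_E1 hY)] at k4
    rcases Z1_cases h2 (s := -1) (by decide) with k | k | k <;> rw [k] at k4
    · rw [ef_one] at k4; exact absurd (k4 ▸ one_mem _) hz
    · exact .inl k4.symm
    · exact .inr (by rw [← k4, ef_inv _ (Z1_le_E1 (xz_mem _))])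
  rw [k1] at k5
  refine ⟨⟨α⁻¹, inv_mem hα, fun hb => hz ?_⟩, ?_⟩
  · rcases k5 with k | k <;> rw [k] <;> simp [mem_Z1, mem_JJ.1 k3, k2, hb]
  · have hg : v.g = (vJ v).g := rfl
    have hh : v.h = (vJ v).h := rfl
    have hz : v.z = (vJ v).z := rfl
    rw [hg, hh, hz]
    generalize equivFun α⁻¹ (xd 1) = D at *
    generalize equivFun α⁻¹ (xc 1) = C at *
    rcases k5 with k | k <;> rw [k] <;> simp [mem_JJ.1 k3, k2] <;> ring

/-- `J ⟨a⟩` -/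
def JA : Subgroup US where
  carrier := {x | x.b = 0 ∧ x.d = 0}
  one_mem' := by simp
  mul_mem' := fun {x y} hx hy => by simp_all
  inv_mem' := fun {x} hx => by simp_all

theorem JJ_le_JA : JJ ≤ JA := fun x h => ⟨h.2.1, h.2.2⟩

theorem dec_a (x : US) (hx : x ∈ JA) : ∃ y ∈ JJ, x = y ∨ x = y * xa 1 ∨ x = y * (xa 1)⁻¹ := by
  refine ⟨x * xa (-x.a), by simp [mem_JJ, hx.1, hx.2], ?_⟩
  rcases f3_cases x.a with h | h | h
  · left; ext <;> simp [h]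
  · right; left; ext <;> simp [h]
  · right; right; ext <;> simp [h]

theorem cube_JA (hf : F.IsMor R f) (hR : JJ ≤ R) {t : US} (ht : t ∈ R)
    (h : ∀ x ∈ JJ, ⁅t, ⁅t, x⁆⁆ ∈ Z1) (hy : y ∈ JJ) : ∃ s, f (xz s) = ⁅f t, ⁅f t, y⁆⁆ := by
  obtain ⟨x, hx, rfl⟩ := ((hf.mono hR).isIso_self fun x hx => mor_JJ hf hR hx).surj _ hy
  exact ⟨_, by rw [← eq_xz (h x hx), hf.map_commutatorElement ht (ce_mem ht (hR hx)),
    hf.map_commutatorElement ht (hR hx)]⟩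

theorem mov2_of (hF : F.IsSaturated 3) {κ : F3} (h : Om F ⟨1, 0, 0, 0, 0, κ⟩) (h1 : Mov1 F) :
    Mov2 F := by
  obtain ⟨ψ, m1, m2⟩ := exists_cent hF h (C := JA) fun x hx => by simp [comm_iff, hx.1, hx.2]
  have ha : xa 1 ∈ JA := ⟨rfl, rfl⟩
  have cA : ∀ x ∈ JJ, ⁅xa 1, ⁅xa 1, x⁆⁆ ∈ Z1 := fun x hx => by simp [mem_Z1, mem_JJ.1 hx]
  have t1 : (ψ (xa 1)).a = 0 := by
    by_contra hc
    obtain ⟨s, e⟩ := cube_JA m1 JJ_le_JA ha cA (y := xg 1) ⟨rfl, rfl, rfl⟩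
    have e' : ψ (xz s) = xz (-(ψ (xa 1)).a ^ 2) := by
      rw [e]; ext <;> simp; linear_combination ((ψ (xa 1)).a ^ 2) * h3
    have hs := JJ_le_JA (xz_JJ s)
    have hv := JJ_le_JA (vJ_mem ⟨1, 0, 0, 0, 0, κ⟩)
    rcases Z1_cases m2 (s := -(ψ (xa 1)).a ^ 2) (by simpa using hc) with k | k | k
    · simpa using congrArg US.c ((m1.eq_one_iff hv).1 k)
    · simpa using congrArg US.c (m1.inj hv hs (k.trans e'.symm))
    · simpa using congrArg US.c (m1.inj hv (inv_mem hs) (by rw [k, m1.map_inv hs, e']))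
  have gen : ∀ {φ : US → US} {K : Subgroup US}, F.IsMor JA φ → JJ ≤ K → φ (xa 1) ∈ K →
      ∀ x ∈ JA, φ x ∈ K := fun {φ K} m hK h x hx => by
    obtain ⟨y, hy, e⟩ := dec_a x hx
    have := hK (mor_JJ m JJ_le_JA hy)
    rcases e with rfl | rfl | rfl
    · exact this
    · rw [m.map_mul (JJ_le_JA hy) ha]; exact mul_mem this h
    · rw [m.map_mul (JJ_le_JA hy) (inv_mem ha), m.map_inv ha]; exact mul_mem this (inv_mem h)
  obtain ⟨φ, n1, n2⟩ : ∃ φ, F.IsMor JA φ ∧ φ (xa 1) ∈ KK := by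
    by_cases hb : (ψ (xa 1)).b = 0
    · exact ⟨ψ, m1, t1, hb⟩
    obtain ⟨γ, hγ, hd⟩ := h1
    have k1 := mem_E1.1 (equivFun_mem γ (show xd 1 ∈ E1 from rfl))
    obtain ⟨i, s, hi⟩ : ∃ i s : F3, (xa i * ψ (xa 1) * (xa i)⁻¹)⁻¹ * equivFun γ (xd s) ∈ JJ := by
      have : ∀ b d b' d' : F3, b ≠ 0 → b' ≠ 0 → ∃ i, (-b + b' = 0 ∧ -(d + b * i) + d' = 0) ∨
        (-b + -b' = 0 ∧ -(d + b * i) + -d' = 0) := by decide
      obtain ⟨i, k | k⟩ := this _ (ψ (xa 1)).d _ (equivFun γ (xd 1)).d hb hd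
      · exact ⟨i, 1, by simp [mem_JJ, t1, k1, k.1]; linear_combination k.2⟩
      · refine ⟨i, -1, ?_⟩
        rw [show xd (-1) = (xd 1)⁻¹ by decide, ef_inv _ (show xd 1 ∈ E1 from rfl)]
        simp [mem_JJ, t1, k1, k.1]; linear_combination k.2
    have k2 : xa i * ψ (xa 1) * (xa i)⁻¹ ∈ E1 := by simp [mem_E1, t1]
    refine ⟨_, (isMor_of_mem_autGroup le_top (inv_mem hγ)).comp'
      ((F.isMor_conj le_rfl (mem_top (xa i))).comp' m1 fun _ _ => trivial) fun x hx =>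
      Normal.conj_mem inferInstance _ (gen m1 JJ_le_E1 t1 x hx) _, ?_⟩
    have k3 := JJ_le_KK (inv_JJ JJ_le_E1 γ⁻¹ _ (JJ_le_E1 hi) hi)
    rw [ef_mul _ (inv_mem k2) (equivFun_mem _ rfl), equivFun_inv_apply _ (show xd s ∈ E1 from rfl),
      ef_inv _ k2] at k3
    simpa using inv_mem (mul_mem k3 (inv_mem (show xd s ∈ KK from ⟨rfl, rfl⟩)))
  have n3 : (φ (xa 1)).d ≠ 0 := fun e => by
    simpa [mem_JJ] using mor_JJ_back n1 JJ_le_JA ha ⟨n2.1, n2.2, e⟩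
  have i1 : F.IsIso JA KK φ := ⟨n1, gen n1 JJ_le_KK n2, fun y hy => by
    obtain ⟨k, hk⟩ : ∃ k : ℕ, y * (φ (xa 1) ^ k)⁻¹ ∈ JJ := by
      have : ∀ d d' : F3, d' ≠ 0 → d = 0 ∨ d + -d' = 0 ∨ d + -(d' + d') = 0 := by decide
      rcases this y.d _ n3 with k | k | k
      · exact ⟨0, by simp [mem_JJ, hy.1, hy.2, k]⟩
      · exact ⟨1, by simp [mem_JJ, hy.1, hy.2, n2.1, n2.2, k]⟩
      · exact ⟨2, by simpa [mem_JJ, hy.1, hy.2, n2.1, n2.2, pow_two] using k⟩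
    obtain ⟨x, hx, e⟩ := ((n1.mono JJ_le_JA).isIso_self fun x hx => mor_JJ n1 JJ_le_JA hx).surj _ hk
    exact ⟨x * xa 1 ^ k, mul_mem (JJ_le_JA hx) (pow_mem ha k), by
      rw [n1.map_mul (JJ_le_JA hx) (pow_mem ha k), e, n1.map_pow ha, inv_mul_cancel_right]⟩⟩
  obtain ⟨g, hg, hi⟩ := hF.exists_isMor_normalizerIn isPGroup_top (fullN F KK) i1.isConj
  have g1 : F.IsMor E2 g := hg.mono fun x hx => ⟨trivial, mem_normalizer_of_finite fun y hy => by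
    simp [JA, mem_E2.1 hx, hy.1, hy.2]⟩
  have hd : xd 1 ∈ E2 := rfl
  have g2 : g (xd 1) ∉ KK := fun hk => by
    obtain ⟨x, hx, e⟩ := hi.surj _ hk
    simpa [g1.inj (show x ∈ E2 from hx.1) hd e] using hx.2
  have g3 := hi.mapsTo _ ha
  have g4 : (g (xa 1)).d ≠ 0 := fun e => by
    simpa [mem_JJ] using mor_JJ_back hi.mor JJ_le_JA ha ⟨g3.1, g3.2, e⟩
  have g5 : ∀ s, g (xz s) ∈ YY := fun s => by
    have k1 := mor_JJ g1 JJ_le_E2 (xz_JJ s)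
    have k2 : g (xa 1) * g (xz s) = g (xz s) * g (xa 1) := by
      rw [← g1.map_mul rfl rfl, ← g1.map_mul rfl rfl]; exact congrArg g (by simp [comm_iff])
    simp [comm_iff, g3.1, g3.2, mem_JJ.1 k1, g4, two_ne] at k2
    obtain ⟨k3, k4, k5⟩ := k2
    simpa [mem_YY, mem_JJ.1 k1, k3, k4, g4, two_ne] using k5
  have g6 : ∀ s, (g (xz s)).g = 0 := by
    obtain ⟨s, e⟩ := cube_JA g1 JJ_le_E2 (t := xa 1) rfl cA (y := xc 1) ⟨rfl, rfl, rfl⟩
    have k1 : (g (xz s)).g = 0 := by simp [e, g3.1, g3.2]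
    have k2 : s ≠ 0 := by
      rintro rfl
      have := congrArg US.z e
      rw [show xz 0 = 1 from rfl, g1.map_one] at this
      simp [g3.1, g3.2, two_ne, g4] at this
    intro t
    rcases Z1_cases (xz_mem t) k2 with k | k | k <;> rw [k]
    · rw [g1.map_one]; rfl
    · exact k1
    · rw [g1.map_inv rfl]; simp [k1, mem_YY.1 (g5 s)]
  have g7 : (g (xd 1)).b = 0 := by
    obtain ⟨s, e⟩ := cube_JA g1 JJ_le_E2 hd (fun x hx => by simp [mem_Z1, mem_JJ.1 hx])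
      (y := xc 1) ⟨rfl, rfl, rfl⟩
    have := g6 s
    simpa [e, two_ne] using this
  obtain ⟨α, hα, e⟩ := (g1.isIso_self fun x hx => by
    have k : x * (xd x.d)⁻¹ ∈ JA := by simp [JA, mem_E2.1 hx]
    have k' : g (xd x.d) ∈ E2 := by
      rcases f3_cases x.d with h | h | h <;> rw [h]
      · exact g1.map_one ▸ one_mem _
      · exact g7
      · rw [show xd (-1) = (xd 1)⁻¹ by decide, g1.map_inv hd]; exact inv_mem g7
    rw [← inv_mul_cancel_right x (xd x.d), g1.map_mul k.1 rfl]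
    exact mul_mem (KK_le_E2 (hi.mapsTo _ k)) k').exists_aut
  exact ⟨α, hα, by rw [e _ hd]; exact fun h => g2 ⟨h, g7⟩⟩

theorem not_om (hF : F.IsSaturated 3) : ¬ Om F (rep 2) ∧ ¬ Om F (rep 4) ∧ ¬ Om F (rep 5) :=
  ⟨fun h => absurd (rank1 hF h (by rw [mem_YY]; decide) (by rw [mem_Z1]; decide)).2 (by decide),
    fun h => absurd (rank1 hF h (by rw [mem_YY]; decide) (by rw [mem_Z1]; decide)).2 (by decide),
    fun h => absurd (rank1 hF h (by rw [mem_YY]; decide) (by rw [mem_Z1]; decide)).2 (by decide)⟩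

theorem sigma' (hF : F.IsSaturated 3) {γ : MulAut JJ} (hγ : γ ∈ F.autGroup JJ)
    (hz : equivFun γ (xz 1) ∉ YY) : Om F ⟨0, 0, 0, 1, 0, 0⟩ ∧ ∃ κ, Om F ⟨1, 0, 0, 0, 0, κ⟩ := by
  obtain ⟨h1, h2⟩ := sigma hγ hz
  obtain ⟨n2, n4, n5⟩ := not_om hF
  have n1 : Om F (rep 1) := om_z
  rw [KS_lab, Finset.sum_congr rfl fun l hl => by rw [tb_zg l (Finset.mem_range.1 hl)]] at h1
  rw [KS_lab, Finset.sum_congr rfl fun l hl => by rw [tb_zz l (Finset.mem_range.1 hl)]] at h2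
  simp [Finset.sum_range_succ, n1, n2, n4, n5] at h1 h2
  have n3 : Om F (rep 3) := by
    by_contra n3
    simp [n3, two_ne] at h2
  refine ⟨n3, by_contra fun hc => ?_⟩
  push Not at hc
  have n6 : ¬ Om F (rep 6) := hc _
  have n7 : ¬ Om F (rep 7) := hc _
  have n8 : ¬ Om F (rep 8) := hc _
  simp [n3, n6, n7, n8] at h1

theorem mov_of_sigma (hF : F.IsSaturated 3) {γ : MulAut JJ} (hγ : γ ∈ F.autGroup JJ)
    (hz : equivFun γ (xz 1) ∉ YY) : Mov1 F ∧ Mov2 F := by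
  obtain ⟨h1, κ, h2⟩ := sigma' hF hγ hz
  have := (rank1 hF h1 (by rw [mem_YY]; decide) (by rw [mem_Z1]; decide)).1
  exact ⟨this, mov2_of hF h2 this⟩

/-- thirteen points -/
def pt (κ : F3) : Unit ⊕ F3 ⊕ F3 × F3 → V
  | .inl _ => ⟨0, 0, 0, 0, 0, 1⟩
  | .inr (.inl i) => act i 0 0 ⟨0, 0, 0, 1, 0, 0⟩
  | .inr (.inr i) => act 0 i.1 i.2 ⟨1, 0, 0, 0, 0, κ⟩

theorem not_reg (hF : F.IsSaturated 3) {M : Subgroup (MulAut JJ)} (h : Loc 3 JJ M (F.autGroup JJ))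
    (hno : ∀ g ∈ F.autGroup JJ, Inv g Z1 → g ∈ M)
    (hreg : ∀ g ∈ F.autGroup JJ, g ∉ M → ∀ s, s ≠ 0 → ∀ x,
      x * equivFun g (xz s) = equivFun g (xz s) * x → x ∈ JJ) : False := by
  obtain ⟨g, hg, hb⟩ := h.data.exists_not_mem
  obtain ⟨h1, κ, h2⟩ := sigma' hF hg fun hy => by
    simpa [mem_JJ] using hreg g hg hb 1 one_ne_zero (xb 1) (by simp [comm_iff, mem_YY.1 hy])
  have h3 : ∀ i, Om F (pt κ i) := by
    rintro (_ | i | i)
    · exact om_z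
    · exact (om_act _ _ _).2 h1
    · exact (om_act _ _ _).2 h2
  choose m hm s hs e using h3
  have fix : ∀ v (x : US), act x.a x.b x.d v = v → x * vJ v = vJ v * x := fun v x e => by
    rw [← mul_inv_eq_iff_eq_mul, ← vJ_act, e]
  have hM : ∀ i, m i ∈ M := fun i => by_contra fun hc => by
    have : ∀ κ i, ∃ a b d : F3, act a b d (pt κ i) = pt κ i ∧ ¬ (a = 0 ∧ b = 0 ∧ d = 0) := by
      decide +kernel
    obtain ⟨a, b, d, k1, k2⟩ := this κ i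
    exact k2 (hreg _ (hm i) hc _ (hs i) ⟨a, b, 0, d, 0, 0, 0, 0, 0⟩ (e i ▸ fix _ _ k1))
  have hl : ∀ i, 12 ≤ lab (lin g (pt κ i)) := fun i => (lab_spec' _).2.2 fun a b d k =>
    hreg (g * m i) (mul_mem hg (hm i)) (fun hc => hb ((mul_mem_cancel_right (hM i)).1 hc)) _ (hs i)
      ⟨a, b, 0, d, 0, 0, 0, 0, 0⟩ (by
        rw [equivFun_mul _ _ (xz_JJ _), e, ← vJ_lin]; exact fix _ _ k)
  obtain ⟨i, -, j, -, hij, k⟩ := Finset.exists_ne_map_eq_of_card_lt_of_maps_to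
    (s := Finset.univ) (t := Finset.Ico 12 23) (by simp) (f := fun i => lab (lin g (pt κ i)))
    fun i _ => by simp [hl i, lab_lt]
  obtain ⟨s1, a1, b1, d1, n1, e1⟩ := lab_spec (lin g (pt κ i))
  obtain ⟨s2, a2, b2, d2, n2, e2⟩ := lab_spec (lin g (pt κ j))
  rw [← k] at e2
  obtain ⟨t, ht⟩ : ∃ t : US, t * vJ (lin g (pt κ i)) * t⁻¹ = vJ ((s1 * s2) • lin g (pt κ j)) := by
    refine ⟨⟨a2, b2, 0, d2, 0, 0, 0, 0, 0⟩ * (⟨a1, b1, 0, d1, 0, 0, 0, 0, 0⟩ : US)⁻¹, ?_⟩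
    rw [e2, smul_smul, mul_assoc s1, sq_of_ne n2, mul_one]
    conv_lhs => rw [e1]
    rw [← vJ_act]; congr 1; ext <;> simp <;> ring
  have sm : ∀ (γ : MulAut JJ) (s : F3) v, lin γ (s • v) = s • lin γ v := fun γ s v =>
    ZMod.map_smul _ _ _
  rw [← sm, vJ_lin, vJ_lin] at ht
  have k1 : equivFun (g⁻¹ * conjAut JJ (mem_norm t) * g⁻¹⁻¹) (vJ (pt κ i)) =
      vJ ((s1 * s2) • pt κ j) := by
    rw [ef_conj _ _ (vJ_mem _), inv_inv, ht, equivFun_inv_apply _ (vJ_mem _)]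
  have k2 : (m j)⁻¹ * (g⁻¹ * conjAut JJ (mem_norm t) * g⁻¹⁻¹) * m i ∈ M := by
    refine hno _ (mul_mem (mul_mem (inv_mem (hm j)) (mul_mem (mul_mem (inv_mem hg) (h.cj_A _))
      (inv_mem (inv_mem hg)))) (hm i)) fun x hx hx1 => ?_
    have k3 : equivFun ((m j)⁻¹ * (g⁻¹ * conjAut JJ (mem_norm t) * g⁻¹⁻¹) * m i) (xz (s i)) ∈ Z1 := by
      rw [equivFun_mul _ _ (xz_JJ _), e, equivFun_mul _ _ (vJ_mem _), k1, ← vJ_lin, sm]
      have : lin (m j)⁻¹ (pt κ j) = pV (xz (s j)) := by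
        rw [← equivFun_inv_apply (m j) (xz_JJ (s j)), e]; rfl
      simp [this, mem_Z1]
    rcases Z1_cases hx1 (hs i) with rfl | rfl | rfl
    · rw [ef_one]; exact one_mem _
    · exact k3
    · rw [ef_inv _ (xz_JJ _)]; exact inv_mem k3
  have k4 : t ∈ JJ := by_contra fun hc => hb (inv_mem_iff.1 (h.se t _ hc _ (inv_mem hg)
    ((mul_mem_cancel_left (inv_mem (hM j))).1 ((mul_mem_cancel_right (hM i)).1 k2))))
  rw [comm_JJ k4 (equivFun_mem _ (vJ_mem _)), mul_inv_cancel_right] at ht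
  have : ∀ (κ s : F3) i j, pt κ i = s • pt κ j → i = j := by decide +kernel
  exact hij (this κ _ i j (congrArg pV (ef_inj g (vJ_mem _) (vJ_mem _) ht)))

end Cfsg.Agent.C3
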