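import Cfsg.Agent.Lib.C3.Lab
import Cfsg.Agent.Lib.C3.Aut

/-!
# S5227: the conjugates of `z` in `J` (see notes/C3.md)
-/

set_option autoImplicit false
set_option linter.unusedSectionVars false
set_option linter.unusedVariables false
set_option linter.unusedSimpArgs false
set_option linter.unnecessarySeqFocus false
set_option linter.unusedTactic false
set_option linter.unreachableTactic false

namespace Cfsg.Agent.C3

open Subgroup Cfsg Cfsg.FusionSystem Cfsg.Agent.U5 US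
open scoped commutatorElement

variable {F : FusionSystem (⊤ : Subgroup US)} {R : Subgroup US} {f : US → US} {v w : V} {x y : US}

theorem h6 : (6 : F3) = 0 := rfl

theorem h9 : (9 : F3) = 0 := rfl

/-- `v` is conjugate to a generator of `Z(S)`. -/
def Om (F : FusionSystem (⊤ : Subgroup US)) (v : V) : Prop :=
  ∃ γ ∈ F.autGroup JJ, ∃ s : F3, s ≠ 0 ∧ equivFun γ (xz s) = vJ v

theorem xz_JJ (s : F3) : xz s ∈ JJ := ⟨rfl, rfl, rfl⟩

theorem Om.aut (h : Om F v) {γ : MulAut JJ} (hγ : γ ∈ F.autGroup JJ)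
    (e : equivFun γ (vJ v) = vJ w) : Om F w :=
  let ⟨δ, hδ, s, hs, e'⟩ := h
  ⟨γ * δ, mul_mem hγ hδ, s, hs, by rw [equivFun_mul _ _ (xz_JJ s), e', e]⟩

theorem om_aut {γ : MulAut JJ} (hγ : γ ∈ F.autGroup JJ) (e : equivFun γ (vJ v) = vJ w) :
    Om F v ↔ Om F w :=
  ⟨fun h => h.aut hγ e, fun h => h.aut (inv_mem hγ) (by rw [← e, equivFun_inv_apply _ (vJ_mem v)])⟩

theorem om_iff (hf : F.IsMor R f) (hR : JJ ≤ R) (e : f (vJ v) = vJ w) : Om F v ↔ Om F w :=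
  let ⟨γ, hγ, e'⟩ := res_JJ hf hR
  om_aut hγ ((e' _ (vJ_mem v)).trans e)

theorem om_act (a b d : F3) : Om F (act a b d v) ↔ Om F v :=
  (om_iff (F.isMor_conj le_rfl (mem_top ⟨a, b, 0, d, 0, 0, 0, 0, 0⟩)) le_top (vJ_act _ v).symm).symm

theorem Om.neg (h : Om F v) : Om F (-v) :=
  let ⟨δ, hδ, s, hs, e'⟩ := h
  ⟨δ, hδ, -s, neg_ne_zero.2 hs, by
    rw [vJ_neg, ← e', ← ef_inv _ (xz_JJ s)]; congr 1; ext <;> simp⟩

theorem om_smul {s : F3} (hs : s ≠ 0) : Om F (s • v) ↔ Om F v := by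
  rcases f3_cases s with rfl | rfl | rfl
  · exact absurd rfl hs
  · rw [one_smul]
  · rw [neg_one_smul]; exact ⟨fun h => by simpa using h.neg, Om.neg⟩

theorem om_lab (v : V) : Om F (rep (lab v)) ↔ Om F v := by
  obtain ⟨s, a, b, d, hs, e⟩ := lab_spec v
  conv_rhs => rw [e, om_smul hs, om_act]

theorem om_z : Om F ⟨0, 0, 0, 0, 0, 1⟩ := ⟨1, one_mem _, 1, one_ne_zero, equivFun_one (xz_JJ 1)⟩

theorem Om.ne (h : Om F v) : v ≠ 0 := by
  obtain ⟨δ, hδ, s, hs, e⟩ := h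
  rintro rfl
  exact hs (congrArg US.z (ef_eq_one δ (xz_JJ s) e))

/-- the linear map of an automorphism of `J` -/
noncomputable def lin (γ : MulAut JJ) : V ≃+ V :=
  ⟨⟨fun v => pV (equivFun γ (vJ v)), fun v => pV (equivFun γ⁻¹ (vJ v)),
    fun v => by simp only [vJ_pV (equivFun_mem γ (vJ_mem v)), equivFun_inv_apply γ (vJ_mem v), pV_vJ],
    fun v => by simp only [vJ_pV (equivFun_mem γ⁻¹ (vJ_mem v)), equivFun_apply_inv γ (vJ_mem v), pV_vJ]⟩,
    fun v w => by simp only [vJ_add, ef_mul γ (vJ_mem v) (vJ_mem w), pV_mul (equivFun_mem γ (vJ_mem v))]⟩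

theorem vJ_lin (γ : MulAut JJ) (v : V) : vJ (lin γ v) = equivFun γ (vJ v) :=
  vJ_pV (equivFun_mem γ (vJ_mem v))

open Classical in
/-- the sum over the conjugates -/
noncomputable def KS (F : FusionSystem (⊤ : Subgroup US)) (G : V → F3) : F3 :=
  ∑ w, (if Om F w then 1 else 0) * G w

theorem KS_comp (e : V ≃ V) (he : ∀ v, Om F (e v) ↔ Om F v) (G : V → F3) :
    KS F (fun w => G (e w)) = KS F G := by
  classical
  rw [KS, KS, ← e.sum_comp fun w => (if Om F w then 1 else 0) * G w]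
  simp only [he]

theorem KS_kill (H G1 G2 : V → F3)
    (h : ∀ w, H w = G1 (act 1 0 0 w) - G1 w + (G2 (act 0 1 0 w) - G2 w)) : KS F H = 0 := by
  have h1 := KS_comp (F := F) ⟨act 1 0 0, act (-1) 0 0, fun v => by ext <;> simp <;> ring,
    fun v => by ext <;> simp <;> ring⟩ (fun v => om_act _ _ _) G1
  have h2 := KS_comp (F := F) ⟨act 0 1 0, act 0 (-1) 0, fun v => by ext <;> simp <;> ring,
    fun v => by ext <;> simp <;> ring⟩ (fun v => om_act _ _ _) G2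
  simp only [KS, Equiv.coe_fn_mk] at h1 h2 ⊢
  simp only [h, mul_add, mul_sub, Finset.sum_add_distrib, Finset.sum_sub_distrib, h1, h2]
  ring

theorem add_exp (ψ : V →+ F3) (w : V) : ψ w = ψ ⟨1, 0, 0, 0, 0, 0⟩ * w.c + ψ ⟨0, 1, 0, 0, 0, 0⟩ * w.e +
    ψ ⟨0, 0, 1, 0, 0, 0⟩ * w.f + ψ ⟨0, 0, 0, 1, 0, 0⟩ * w.g + ψ ⟨0, 0, 0, 0, 1, 0⟩ * w.h +
    ψ ⟨0, 0, 0, 0, 0, 1⟩ * w.z := by
  have : w = w.c • ⟨1, 0, 0, 0, 0, 0⟩ + w.e • ⟨0, 1, 0, 0, 0, 0⟩ + w.f • ⟨0, 0, 1, 0, 0, 0⟩ +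
      w.g • ⟨0, 0, 0, 1, 0, 0⟩ + w.h • ⟨0, 0, 0, 0, 1, 0⟩ + w.z • ⟨0, 0, 0, 0, 0, 1⟩ := by
    ext <;> simp
  conv_lhs => rw [this]
  simp only [map_add, ZMod.map_smul, smul_eq_mul]
  ring

theorem KS_exp (ψ : V →+ F3) (G : V → F3) : KS F (fun w => G w * ψ w) =
    ψ ⟨1, 0, 0, 0, 0, 0⟩ * KS F (fun w => G w * w.c) + ψ ⟨0, 1, 0, 0, 0, 0⟩ * KS F (fun w => G w * w.e) +
    ψ ⟨0, 0, 1, 0, 0, 0⟩ * KS F (fun w => G w * w.f) + ψ ⟨0, 0, 0, 1, 0, 0⟩ * KS F (fun w => G w * w.g) +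
    ψ ⟨0, 0, 0, 0, 1, 0⟩ * KS F (fun w => G w * w.h) +
    ψ ⟨0, 0, 0, 0, 0, 1⟩ * KS F (fun w => G w * w.z) := by
  simp only [KS, Finset.mul_sum, ← Finset.sum_add_distrib]
  refine Finset.sum_congr rfl fun w _ => ?_
  rw [add_exp ψ w]; ring

theorem K_cc : KS F (fun w => w.c * w.c) = 0 :=
  KS_kill _ (fun w => 0) (fun w => (w.c * w.e)) fun w => by
    simp only [act_c, act_e, act_f, act_g, act_h, act_z]; rw [← sub_eq_zero]; ring_nf <;> simp [h3, h6, h9]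
theorem K_ce : KS F (fun w => w.c * w.e) = 0 :=
  KS_kill _ (fun w => (w.c * w.f)) (fun w => 0) fun w => by
    simp only [act_c, act_e, act_f, act_g, act_h, act_z]; rw [← sub_eq_zero]; ring_nf <;> simp [h3, h6, h9]
theorem K_ec : KS F (fun w => w.e * w.c) = 0 := by simpa only [mul_comm] using K_ce
theorem K_cf : KS F (fun w => w.c * w.f) = 0 :=
  KS_kill _ (fun w => 0) (fun w => (w.c * w.h)) fun w => by
    simp only [act_c, act_e, act_f, act_g, act_h, act_z]; rw [← sub_eq_zero]; ring_nf <;> simp [h3, h6, h9]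
theorem K_fc : KS F (fun w => w.f * w.c) = 0 := by simpa only [mul_comm] using K_cf
theorem K_cg : KS F (fun w => w.c * w.g) = 0 :=
  KS_kill _ (fun w => (w.c * w.h)) (fun w => 0) fun w => by
    simp only [act_c, act_e, act_f, act_g, act_h, act_z]; rw [← sub_eq_zero]; ring_nf <;> simp [h3, h6, h9]
theorem K_gc : KS F (fun w => w.g * w.c) = 0 := by simpa only [mul_comm] using K_cg
theorem K_ch : KS F (fun w => w.c * w.h) = 0 :=
  KS_kill _ (fun w => (w.c * w.h) + 2 * (w.c * w.z)) (fun w => 0) fun w => by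
    simp only [act_c, act_e, act_f, act_g, act_h, act_z]; rw [← sub_eq_zero]; ring_nf <;> simp [h3, h6, h9]
theorem K_hc : KS F (fun w => w.h * w.c) = 0 := by simpa only [mul_comm] using K_ch
theorem K_cz : KS F (fun w => w.c * w.z) = 0 :=
  KS_kill _ (fun w => 0) (fun w => (w.e * w.z)) fun w => by
    simp only [act_c, act_e, act_f, act_g, act_h, act_z]; rw [← sub_eq_zero]; ring_nf <;> simp [h3, h6, h9]
theorem K_zc : KS F (fun w => w.z * w.c) = 0 := by simpa only [mul_comm] using K_cz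
theorem K_ee : KS F (fun w => w.e * w.e) = 0 :=
  KS_kill _ (fun w => (w.e * w.f)) (fun w => 0) fun w => by
    simp only [act_c, act_e, act_f, act_g, act_h, act_z]; rw [← sub_eq_zero]; ring_nf <;> simp [h3, h6, h9]
theorem K_ef : KS F (fun w => w.e * w.f) = 0 :=
  KS_kill _ (fun w => (w.e * w.f) + 2 * (w.f * w.f)) (fun w => 0) fun w => by
    simp only [act_c, act_e, act_f, act_g, act_h, act_z]; rw [← sub_eq_zero]; ring_nf <;> simp [h3, h6, h9]
theorem K_fe : KS F (fun w => w.f * w.e) = 0 := by simpa only [mul_comm] using K_ef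
theorem K_eg : KS F (fun w => w.e * w.g) = 0 :=
  KS_kill _ (fun w => (w.e * w.h)) (fun w => 0) fun w => by
    simp only [act_c, act_e, act_f, act_g, act_h, act_z]; rw [← sub_eq_zero]; ring_nf <;> simp [h3, h6, h9]
theorem K_ge : KS F (fun w => w.g * w.e) = 0 := by simpa only [mul_comm] using K_eg
theorem K_eh : KS F (fun w => w.e * w.h) = 0 :=
  KS_kill _ (fun w => (w.e * w.h) + 2 * (w.e * w.z)) (fun w => 0) fun w => by
    simp only [act_c, act_e, act_f, act_g, act_h, act_z]; rw [← sub_eq_zero]; ring_nf <;> simp [h3, h6, h9]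
theorem K_he : KS F (fun w => w.h * w.e) = 0 := by simpa only [mul_comm] using K_eh
theorem K_ez : KS F (fun w => w.e * w.z) = 0 :=
  KS_kill _ (fun w => 0) (fun w => (w.e * w.z) + 2 * (w.g * w.z)) fun w => by
    simp only [act_c, act_e, act_f, act_g, act_h, act_z]; rw [← sub_eq_zero]; ring_nf <;> simp [h3, h6, h9]
theorem K_ze : KS F (fun w => w.z * w.e) = 0 := by simpa only [mul_comm] using K_ez
theorem K_ff : KS F (fun w => w.f * w.f) = 0 :=
  KS_kill _ (fun w => 0) (fun w => (w.f * w.h)) fun w => by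
    simp only [act_c, act_e, act_f, act_g, act_h, act_z]; rw [← sub_eq_zero]; ring_nf <;> simp [h3, h6, h9]
theorem K_fg : KS F (fun w => w.f * w.g) = 0 :=
  KS_kill _ (fun w => (w.e * w.h) + (w.e * w.z) + (w.f * w.h)) (fun w => 0) fun w => by
    simp only [act_c, act_e, act_f, act_g, act_h, act_z]; rw [← sub_eq_zero]; ring_nf <;> simp [h3, h6, h9]
theorem K_gf : KS F (fun w => w.g * w.f) = 0 := by simpa only [mul_comm] using K_fg
theorem K_fh : KS F (fun w => w.f * w.h) = 0 :=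
  KS_kill _ (fun w => (w.e * w.h) + 2 * (w.e * w.z) + (w.f * w.h) + 2 * (w.f * w.z)) (fun w => (w.e * w.z) + 2 * (w.g * w.z)) fun w => by
    simp only [act_c, act_e, act_f, act_g, act_h, act_z]; rw [← sub_eq_zero]; ring_nf <;> simp [h3, h6, h9]
theorem K_hf : KS F (fun w => w.h * w.f) = 0 := by simpa only [mul_comm] using K_fh
theorem K_fz : KS F (fun w => w.f * w.z) = 0 :=
  KS_kill _ (fun w => 0) (fun w => (w.h * w.z)) fun w => by
    simp only [act_c, act_e, act_f, act_g, act_h, act_z]; rw [← sub_eq_zero]; ring_nf <;> simp [h3, h6, h9]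
theorem K_zf : KS F (fun w => w.z * w.f) = 0 := by simpa only [mul_comm] using K_fz
theorem K_gg : KS F (fun w => w.g * w.g) = 0 :=
  KS_kill _ (fun w => (w.g * w.h)) (fun w => 0) fun w => by
    simp only [act_c, act_e, act_f, act_g, act_h, act_z]; rw [← sub_eq_zero]; ring_nf <;> simp [h3, h6, h9]
theorem K_gh : KS F (fun w => w.g * w.h) = 0 :=
  KS_kill _ (fun w => (w.g * w.h) + 2 * (w.g * w.z)) (fun w => 0) fun w => by
    simp only [act_c, act_e, act_f, act_g, act_h, act_z]; rw [← sub_eq_zero]; ring_nf <;> simp [h3, h6, h9]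
theorem K_hg : KS F (fun w => w.h * w.g) = 0 := by simpa only [mul_comm] using K_gh
theorem K_hz : KS F (fun w => w.h * w.z) = 0 :=
  KS_kill _ (fun w => (w.g * w.z) + (w.h * w.z) + (w.z * w.z)) (fun w => 0) fun w => by
    simp only [act_c, act_e, act_f, act_g, act_h, act_z]; rw [← sub_eq_zero]; ring_nf <;> simp [h3, h6, h9]
theorem K_zh : KS F (fun w => w.z * w.h) = 0 := by simpa only [mul_comm] using K_hz


theorem KS_rad (θ : V →+ F3) (hθ : θ = ⟨⟨V.c, rfl⟩, fun _ _ => rfl⟩ ∨ θ = ⟨⟨V.e, rfl⟩, fun _ _ => rfl⟩ ∨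
    θ = ⟨⟨V.f, rfl⟩, fun _ _ => rfl⟩) (ψ : V →+ F3) : KS F (fun w => θ w * ψ w) = 0 := by
  rw [KS_exp]
  rcases hθ with rfl | rfl | rfl <;> simp [K_cc, K_ce, K_cf, K_cg, K_ch, K_cz, K_ec, K_ee, K_ef, K_eg,
    K_eh, K_ez, K_fc, K_fe, K_ff, K_fg, K_fh, K_fz]

theorem sigma {γ : MulAut JJ} (hγ : γ ∈ F.autGroup JJ) (hz : equivFun γ (xz 1) ∉ YY) :
    KS F (fun w => w.z * w.g) = 0 ∧ KS F (fun w => w.z * w.z) = 0 := by
  obtain ⟨θ, h1, h2⟩ : ∃ θ : V →+ F3, (θ = ⟨⟨V.c, rfl⟩, fun _ _ => rfl⟩ ∨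
      θ = ⟨⟨V.e, rfl⟩, fun _ _ => rfl⟩ ∨ θ = ⟨⟨V.f, rfl⟩, fun _ _ => rfl⟩) ∧
      θ (lin γ ⟨0, 0, 0, 0, 0, 1⟩) ≠ 0 := by
    by_contra! hc
    have k := equivFun_mem γ (xz_JJ 1)
    exact hz ⟨k.1, k.2.1, hc _ (.inl rfl), k.2.2, hc _ (.inr (.inl rfl)), hc _ (.inr (.inr rfl))⟩
  have key : ∀ ψ : V →+ F3, KS F (fun w => ψ w * (θ.comp (lin γ : V →+ V)) w) = 0 := fun ψ => by
    rw [← KS_rad (F := F) θ h1 (ψ.comp ((lin γ).symm : V →+ V)),
      ← KS_comp (lin γ).toEquiv (fun v => (om_aut hγ (vJ_lin γ v).symm).symm) fun w => θ w * _]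
    simp [mul_comm]
  have k1 := key ⟨⟨V.g, rfl⟩, fun _ _ => rfl⟩
  have k2 := key ⟨⟨V.z, rfl⟩, fun _ _ => rfl⟩
  rw [KS_exp] at k1 k2
  simp [K_gc, K_ge, K_gf, K_gg, K_gh, K_zc, K_ze, K_zf, K_zh, h2] at k1 k2
  have k3 : KS F (fun w => w.z * w.g) = 0 := by simpa only [mul_comm] using k1
  exact ⟨k3, by simpa [k3, h2] using k2⟩

open Classical in
theorem KS_lab (G : V → F3) :
    KS F G = ∑ l ∈ Finset.range 23, (if Om F (rep l) then 1 else 0) * tb G l := by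
  rw [← sum_lab]; simp only [KS, om_lab]

end Cfsg.Agent.C3
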